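import Cfsg.Agent.H8.BRe
import Cfsg.Agent.H1.Fitting

/-! Brauer's theorem for non-representable Sylow numbers. -/

set_option autoImplicit false
set_option linter.style.haveILetI false
set_option linter.unusedSectionVars false

namespace H8
open Cfsg H3 H9 Subgroup
open scoped ComplexConjugate

/-- The divisor condition. -/
abbrev NR (p n : ℕ) : Prop := ∀ z : ℕ, z ∣ (p - 1) * (1 + n * p) →
  ((p : ℤ) ∣ z - 1 → z = 1 ∨ z = 1 + n * p) ∧
    ((p : ℤ) ∣ z + 1 → z + 1 = p ∨ z = (p - 1) * (1 + n * p))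

theorem nr_num {p n : ℕ} {z w : ℤ} (hp : 2 ≤ p)
    (hn : ∀ h u : ℕ, 0 < h → 0 < u → n * (u + 1) ≠ h * u * p + u ^ 2 + u + h)
    (z0 : 0 < z) (w0 : 0 < w) (h : z * w = (p - 1) * (1 + n * p)) (hz : (p : ℤ) ∣ z - 1) :
    z = 1 ∨ z = 1 + n * p := by
  obtain ⟨u, hu⟩ := hz
  obtain rfl : z = p * u + 1 := by omega
  obtain ⟨m, rfl⟩ : ∃ m, w = p * m - 1 := ⟨n * (p - 1) + 1 - u * w, by linear_combination h⟩
  have hp' : (2 : ℤ) ≤ p := by exact_mod_cast hp
  have u0 : 0 ≤ u := by nlinarith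
  have m0 : 1 ≤ m := by nlinarith
  have k : (n - u * m) * (p - 1) = (m - 1) * (u + 1) :=
    mul_left_cancel₀ (by omega : (p : ℤ) ≠ 0) (by linear_combination -h)
  rcases u0.eq_or_lt with rfl | u1
  · simp
  rcases m0.eq_or_lt with rfl | m1
  · right
    have : n - u * 1 = 0 := (mul_eq_zero.1 (k.trans (by ring))).resolve_right (by omega)
    linear_combination -p * this
  have l0 : 0 < n - u * m := by nlinarith
  obtain ⟨l, hl⟩ := Int.eq_ofNat_of_zero_le l0.le
  lift u to ℕ using u0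
  refine absurd ?_ (hn l u (by omega) (by omega))
  zify
  rw [← hl]; linear_combination -u * k

theorem nr_of {p n : ℕ} (hp : 2 ≤ p)
    (hn : ∀ h u : ℕ, 0 < h → 0 < u → n * (u + 1) ≠ h * u * p + u ^ 2 + u + h) : NR p n := by
  rintro z ⟨w, hw⟩
  have p0 : 0 < z * w := by rw [← hw]; exact Nat.mul_pos (by omega) (by omega)
  have e : (z : ℤ) * w = (p - 1) * (1 + n * p) := by
    zify [show 1 ≤ p by omega] at hw; exact hw.symm
  have z0 : (0 : ℤ) < z := by exact_mod_cast Nat.pos_of_mul_pos_right p0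
  have w0 : (0 : ℤ) < w := by exact_mod_cast Nat.pos_of_mul_pos_left p0
  refine ⟨fun c => by exact_mod_cast nr_num hp hn z0 w0 e c, fun ⟨k, c⟩ => ?_⟩
  rcases nr_num hp hn w0 z0 ((mul_comm _ _).trans e)
    ⟨k * w - 1 - n * (p - 1), by linear_combination w * c - e⟩ with c | c
  · right; rw [hw, show w = 1 by omega, mul_one]
  · left
    rw [c] at e
    have := mul_right_cancel₀ (by positivity) e
    omega

variable {G : Type*} [Group G] [Fintype G] {p : ℕ} [hp : Fact p.Prime]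

theorem one_lt_deg' (hl : ∀ l : G →* ℂˣ, l = 1) {χ : IrrCharacter G} (h : χ ≠ trivChar G) :
    1 < charDegree χ.1 := by
  refine lt_of_le_of_ne χ.2.dg_pos fun e => irr_ne_one h ?_
  obtain ⟨l, e⟩ := χ.2.isCharacter.exists_lin (by rw [irr_deg, ← e, Nat.cast_one])
  rw [e, hl l]; rfl

theorem lin_of_perfect (hG : _root_.commutator G = ⊤) (l : G →* ℂˣ) : l = 1 :=
  MonoidHom.ker_eq_top_iff.1 (top_unique (hG.ge.trans (Abelianization.commutator_subset_ker l)))

namespace DE
variable {P : Subgroup G} {e : ℕ} {X Y : Finset (IrrCharacter G)} {a : IrrCharacter G → ℤ} {ε : ℤ}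
  {χ ζ : IrrCharacter G} (h : DE p P e X Y a ε)
include h

theorem stanton' (hl1 : ∀ l : G →* ℂˣ, l = 1) (hχ : χ ∈ X ∪ Y)
    (hd : charDegree χ.1 < 2 * p) {v : G} (hv : v ∈ cen P)
    (hr : IsPRegular p v) : v ∈ charKer χ.1 := by
  classical
  haveI : IsCyclic P := isCyclic_of_prime_card h.card
  have cP : ∀ a b : P, a * b = b * a := IsCyclic.commGroup.mul_comm
  have cm : ∀ (u : P) (w : zpowers v), Commute (u : G) w := fun u w =>
    mem_centralizer_iff.1 (zpowers_le.2 hv w.2) u u.2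
  let f : P × zpowers v →* G := P.subtype.noncommCoprod (zpowers v).subtype cm
  obtain ⟨n, lam, hn, hl⟩ := (χ.2.isCharacter.comp f).exists_sum_lin fun a b =>
    Prod.ext (cP _ _) ((zpowers_isMulCommutative v).is_comm.comm _ _)
  rw [map_one] at hn
  have hn' : charDegree χ.1 = n := dg_eq hn
  have fa : ∀ (u : P) (w : zpowers v), χ.1 (u * w) =
      ∑ i, (lam i (u, 1) : ℂ) * lam i (1, w) := fun u w => by
    refine (hl (u, w)).trans (Finset.sum_congr rfl fun i _ => ?_)
    rw [← Units.val_mul, ← map_mul]; simp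
  obtain ⟨l, -, hc⟩ := Finset.exists_card_fiber_lt_of_card_lt_mul (s := Finset.univ)
    (t := Finset.univ) (f := fun i => (lam i).comp (MonoidHom.inl _ _)) (n := 2) (by
      rw [Finset.card_univ, Finset.card_univ, Fintype.card_fin, ← Nat.card_eq_fintype_card,
        card_lin_comm cP, h.card]; omega)
  have key : ∀ w : zpowers v, χ.1 w - n = p * ∑ i with (lam i).comp (MonoidHom.inl _ _) = l,
      ((lam i (1, w) : ℂ) - 1) := fun w => by
    have e1 : classInner (fun u : P => χ.1 (u * w) - χ.1 u) (lf l) = (p : ℂ)⁻¹ * (χ.1 w - n) := by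
      rw [classInner, h.card, Finset.sum_eq_single 1 (fun u _ hu => ?_) (by simp)]
      · simp [hn, lf]
      · have hu' : (u : G) ≠ 1 := by simpa using hu
        rw [h.cst χ hχ u u.2 hu' _ (by
          rw [pp_mul (isPElt_of_mem (IsPGroup.of_card (n := 1) (by simpa using h.card)) u.2)
            (isPRegular_of_mem_zpowers hr w.2) (cm u w)]), sub_self, zero_mul]
    have e2 : (fun u : P => χ.1 (u * w) - χ.1 u) = ∑ i, ((lam i (1, w) : ℂ) - 1) •
        lf ((lam i).comp (MonoidHom.inl _ _)) := by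
      ext u
      have := fa u 1
      simp only [OneMemClass.coe_one, mul_one, Prod.mk_one_one, map_one, Units.val_one] at this
      rw [fa, this, ← Finset.sum_sub_distrib, Finset.sum_apply]
      exact Finset.sum_congr rfl fun i _ => by simp [lf]; ring
    rw [e2, H3.inner_sum_left] at e1
    simp only [H3.inner_smul_left, H3.inner_lf, mul_ite, mul_one, mul_zero] at e1
    rw [Finset.sum_filter, ← mul_inv_cancel_left₀ (by exact_mod_cast hp.1.ne_zero : (p : ℂ) ≠ 0)
      (χ.1 w - n), ← e1]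
  obtain ⟨μ, hμ⟩ : ∃ μ : zpowers v →* ℂˣ, ∀ w : zpowers v, χ.1 w - n = p * ((μ w : ℂ) - 1) := by
    rcases Finset.eq_empty_or_nonempty
      (Finset.univ.filter fun i => (lam i).comp (MonoidHom.inl _ _) = l) with e | ⟨i, hi⟩
    · exact ⟨1, fun w => by rw [key, e]; simp⟩
    · refine ⟨(lam i).comp (MonoidHom.inr _ _), fun w => ?_⟩
      rw [key, Finset.eq_singleton_iff_unique_mem.2 ⟨hi, fun j hj =>
        Finset.card_le_one.1 (by omega) _ hj _ hi⟩]; simp
  have e3 : (fun w : zpowers v => χ.1 w) + (p : ℂ) • lf 1 = (n : ℂ) • lf 1 + (p : ℂ) • lf μ := by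
    ext w; simp only [Pi.add_apply, Pi.smul_apply, lf, smul_eq_mul, MonoidHom.one_apply, Units.val_one]
    linear_combination hμ w
  have e4 := congrArg (fun θ => dt θ ⟨v, mem_zpowers v⟩) e3
  simp only [(χ.2.isCharacter.res _).dt_add ((lf_ch _).natCast_smul _), ((lf_ch _).natCast_smul _).dt_add
    ((lf_ch _).natCast_smul _), (lf_ch _).dt_nsmul, dt_lf, MonoidHom.mul_apply, one_pow,
    χ.2.isCharacter.dt_res, hl1 (dt χ.1), MonoidHom.one_apply, one_mul,
    MonoidHom.pow_apply] at e4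
  have e5 : μ ⟨v, mem_zpowers v⟩ = 1 := by
    refine (pow_eq_one_iff_of_coprime (isPRegular_iff_coprime.1 hr)).1 ⟨?_, e4.symm⟩
    rw [← map_pow, show (⟨v, mem_zpowers v⟩ : zpowers v) ^ orderOf v = 1 from
      Subtype.ext (pow_orderOf_eq_one v), map_one]
  have := hμ ⟨v, mem_zpowers v⟩
  rw [e5, Units.val_one, sub_self, mul_zero, sub_eq_zero, ← hn] at this
  exact χ.2.isCharacter.mem_charKer.2 this

theorem not_le_ker (hχ : χ ∈ X ∪ Y) (h1 : 1 < charDegree χ.1) : ¬ P ≤ charKer χ.1 := fun c => by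
  classical
  have k : ∀ u ∈ P, χ.1 u = charDegree χ.1 := fun u hu =>
    (χ.2.isCharacter.mem_charKer.1 (c hu)).trans (irr_deg χ)
  rcases Finset.mem_union.1 hχ with c | c
  · obtain ⟨u, hu, u1⟩ := h.exists_ne
    have : (charDegree χ.1 : ℤ) = a χ := by exact_mod_cast (k u hu).symm.trans (h.val χ c u hu u1)
    have := h.sa χ c
    omega
  · have := h.sumY χ c
    rw [Finset.sum_congr rfl fun (u : P) _ => k u u.2, sum_ne_one_const h.card] at this
    have a1 : ((p : ℤ) - 1) * charDegree χ.1 = -ε * e := by exact_mod_cast this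
    have a2 : (Y.card : ℤ) * e + 1 = p := by exact_mod_cast h.cY
    have a3 : (0 : ℤ) < Y.card := by exact_mod_cast h.Y_ne.card_pos
    have a4 : (1 : ℤ) < p := by exact_mod_cast hp.1.one_lt
    have a5 : (0 : ℤ) ≤ e := by positivity
    have a6 : (2 : ℤ) ≤ charDegree χ.1 := by exact_mod_cast h1
    rcases h.se with e | e <;> rw [e] at a1 <;> nlinarith

theorem small (hl : ∀ l : G →* ℂˣ, l = 1) (tr : trivChar G ∈ X) {n : ℕ} (hn : NR p n) (n0 : n ≠ 0)
    (hi : (cen P).index = e * (1 + n * p)) :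
    ∃ χ ∈ X ∪ Y, χ ≠ trivChar G ∧ charDegree χ.1 < 2 * p := by
  classical
  by_contra! c
  obtain ⟨ζ, hζ⟩ := h.Y_ne
  have ct := h.cY
  have t0 : 0 < Y.card := h.Y_ne.card_pos
  have ti : Y.card * (cen P).index = (p - 1) * (1 + n * p) := by
    rw [hi, ← mul_assoc, show Y.card * e = p - 1 by omega]
  have nY : ζ ≠ trivChar G := fun e => Finset.disjoint_left.1 h.disj tr (e ▸ hζ)
  have k : ((1 + n * p : ℕ) : ℤ) ∣ ε * charDegree ζ.1 - 1 := by
    rw [h.deg_eq hζ, ← Finset.add_sum_erase _ _ tr, h.a_triv tr, charDegree_trivChar, Nat.cast_one,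
      mul_one, add_sub_cancel_left]
    refine Finset.dvd_sum fun χ hχ => Dvd.dvd.mul_left (Int.natCast_dvd_natCast.2 ?_) _
    obtain ⟨c1, c2⟩ := Finset.mem_erase.1 hχ
    obtain ⟨b1, b2⟩ := hn _ (ti ▸ (h.dvd_X c2).mul_left _)
    have m := h.mod c2
    have := c χ (Finset.mem_union_left _ c2) c1
    rcases h.sa χ c2 with e | e
    · exact ((b1 (by simpa [e] using m)).resolve_left (one_lt_deg' hl c1).ne').symm.dvd
    · exact Dvd.intro_left _ ((b2 (by
        rw [e, ← dvd_neg] at m; simpa [add_comm] using m)).resolve_left (by omega)).symm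
  obtain ⟨b1, b2⟩ := hn _ (ti ▸ Nat.mul_dvd_mul_left _ (h.dvd_Y hζ))
  have m := h.mod_Y hζ
  have f1 := one_lt_deg' hl nY
  have f2 := c ζ (Finset.mem_union_right _ hζ) nY
  rcases h.se with rfl | rfl
  · rcases b2 (by simpa using m) with d | d
    · nlinarith
    · rw [Nat.eq_of_mul_eq_mul_left t0 (d.trans ti.symm), hi, one_mul, Nat.cast_mul,
        dvd_sub_right (Dvd.intro_left _ rfl), Int.natCast_dvd, Int.natAbs_one, Nat.dvd_one] at k
      exact (Nat.mul_ne_zero n0 hp.1.ne_zero) (by omega)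
  · rcases b1 (by rw [← dvd_neg] at m; simpa [add_comm, sub_eq_add_neg] using m) with d | d
    · exact f1.ne' (Nat.eq_one_of_mul_eq_one_left d)
    · rw [← d, Nat.cast_mul] at k
      have := (Dvd.intro_left _ rfl).trans k
      rw [dvd_sub_right (Dvd.intro_left _ rfl), Int.natCast_dvd, Int.natAbs_one, Nat.dvd_one] at this
      omega

end DE

theorem cen_eq_of_nr (hl : ∀ l : G →* ℂˣ, l = 1) (P : Sylow p G) (hP : Nat.card P = p)
    (hK : ∀ K : Subgroup G, K.Normal → ¬ p ∣ Nat.card K → K = ⊥) {n : ℕ}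
    (hS : Nat.card (Sylow p G) = 1 + n * p) (hn : NR p n) (n0 : n ≠ 0) :
    cen (P : Subgroup G) = P := by
  obtain ⟨X, Y, a, ε, h, tr⟩ := exists_DE P hP
  obtain ⟨χ, c1, c2, c3⟩ := h.small hl tr hn n0 (hS ▸ card_eq_syl rfl)
  haveI : IsCyclic P := isCyclic_of_prime_card hP
  obtain ⟨c, hc⟩ : p ∣ Nat.card (cen (P : Subgroup G)) := hP.symm.dvd.trans (card_dvd_of_le
    fun x hx => mem_centralizer_iff.2 fun y hy =>
      congrArg Subtype.val (IsCyclic.commGroup.mul_comm (⟨y, hy⟩ : P) ⟨x, hx⟩))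
  refine cen_eq_of_card hP (hc.trans (congrArg _ ?_))
  by_contra c4
  obtain ⟨q, hq, hd⟩ := Nat.exists_prime_and_dvd c4
  obtain ⟨n, v, hv, ho⟩ := exists_order_cen P hP hc hq hd
  have := h.stanton' hl c1 c3 hv (isPRegular_iff_coprime.2
    (ho ▸ (Nat.coprime_primes hq hp.1).2 n))
  rw [hK _ χ.2.isClassFunction.charKer_normal fun d => h.not_le_ker c1 (one_lt_deg' hl c2)
    (le_of_dvd_card (hK := χ.2.isClassFunction.charKer_normal) hP d),
    mem_bot] at this
  rw [this, orderOf_one] at ho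
  exact hq.ne_one ho.symm

theorem syl_ne_one' (hG : _root_.commutator G = ⊤) (P : Sylow p G) (hP : Nat.card P = p) :
    Nat.card (Sylow p G) ≠ 1 := fun e => by
  classical
  haveI : IsCyclic (P : Subgroup G) := isCyclic_of_prime_card hP
  have a : nrm (P : Subgroup G) = ⊤ := index_eq_one.1 (P.card_eq_index_normalizer.symm.trans e)
  have b : cen (P : Subgroup G) = ⊤ := top_unique (hG.ge.trans (by
    rw [_root_.commutator_def, ← a]; exact der_nrm_le))
  obtain ⟨X, Y, a, ε, h, tr⟩ := exists_DE P hP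
  obtain ⟨ζ, hζ⟩ := h.Y_ne
  have := h.deg_eq hζ
  have f := one_lt_deg' (lin_of_perfect hG) (χ := ζ)
    fun e => Finset.disjoint_left.1 h.disj tr (e ▸ hζ)
  rw [Finset.eq_singleton_iff_unique_mem.2 ⟨tr, fun x hx =>
    Finset.card_le_one.1 (h.cX.trans (by rw [b, relIndex_top_left])).le _ hx _ tr⟩,
    Finset.sum_singleton, h.a_triv tr, charDegree_trivChar] at this
  rcases h.se with e | e <;> rw [e] at this <;> omega

theorem syl_map_dvd {G H : Type*} [Group G] [Finite G] [Group H] {f : G →* H}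
    (hf : Function.Surjective f) : Nat.card (Sylow p H) ∣ Nat.card (Sylow p G) := by
  haveI := Finite.of_surjective f hf
  obtain ⟨P⟩ : Nonempty (Sylow p G) := inferInstance
  rw [P.card_eq_index_normalizer, (P.mapSurjective hf).card_eq_index_normalizer,
    ← index_comap_of_surjective _ hf]
  exact index_dvd_of_le (map_le_iff_le_comap.1 (le_normalizer_map f))

open Classical in
theorem br_main2 [IsSimpleGroup G] (hG : ¬ (Nat.card G).Prime) (P : Sylow p G) (hP : Nat.card P = p)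
    {n : ℕ} (hS : Nat.card (Sylow p G) = 1 + n * p) (hn : NR p n)
    (hc : cen (P : Subgroup G) = P) :
    (∃ (F : Type) (_ : Field F) (_ : Fintype F), Fintype.card F = p ∧ 3 < p ∧
      Nonempty (G ≃* Matrix.ProjectiveSpecialLinearGroup (Fin 2) F)) ∨
    (∃ (m : ℕ) (F : Type) (_ : Field F) (_ : Fintype F), Fintype.card F = 2 ^ m ∧ p = 2 ^ m + 1 ∧
      3 < p ∧ Nonempty (G ≃* Matrix.ProjectiveSpecialLinearGroup (Fin 2) F)) := by
  obtain ⟨X, Y, a, ε, h, tr⟩ := exists_DE P hP
  obtain ⟨ζ, hζ⟩ := h.Y_ne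
  generalize he : (cen (P : Subgroup G)).relIndex (nrm (P : Subgroup G)) = e at h
  have n0 : n ≠ 0 := by
    rintro rfl
    have : (P : Subgroup G).Normal := normalizer_eq_top_iff.1 (index_eq_one.1
      (P.card_eq_index_normalizer.symm.trans (by simpa using hS)))
    refine this.eq_bot_or_eq_top.elim (fun e => hp.1.ne_one ?_) (pgroup_ne_top hG P.isPGroup')
    rw [← hP]; exact card_eq_one.2 e
  have hi := card_eq_syl he
  rw [hS] at hi
  have ct := h.cY
  have p2 := hp.1.two_le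
  have t0 : 0 < Y.card := h.Y_ne.card_pos
  have ti : Y.card * (cen (P : Subgroup G)).index = (p - 1) * (1 + n * p) := by
    rw [hi, ← mul_assoc, show Y.card * e = p - 1 by omega]
  have sq := h.sq_le hζ
  have hn' := hn
  rw [NR, ← ti] at hn'
  have hC : Nat.card (cen (P : Subgroup G)) < (p - 1) * (1 + n * p) := by
    rw [hc, show Nat.card (P : Subgroup G) = p from hP]
    exact lt_of_lt_of_le (by nlinarith [Nat.mul_le_mul_right p (Nat.pos_of_ne_zero n0)])
      (Nat.le_mul_of_pos_left _ (by omega))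
  have lt : Nat.card G < Y.card * (cen (P : Subgroup G)).index ^ 2 := by
    rw [← (cen (P : Subgroup G)).card_mul_index, pow_two, ← mul_assoc, ti]
    exact Nat.mul_lt_mul_of_pos_right hC (Nat.pos_of_ne_zero index_ne_zero_of_finite)
  have nY : ∀ χ ∈ Y, χ ≠ trivChar G := fun χ hχ e => Finset.disjoint_left.1 h.disj tr (e ▸ hχ)
  have dX : ∀ χ ∈ X.erase (trivChar G), a χ = 1 ∧ charDegree χ.1 = 1 + n * p ∨
      a χ = -1 ∧ charDegree χ.1 + 1 = p := fun χ hχ => by
    obtain ⟨c1, c2⟩ := Finset.mem_erase.1 hχ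
    obtain ⟨b1, b2⟩ := hn' _ ((h.dvd_X c2).mul_left _)
    have m := h.mod c2
    refine (h.sa χ c2).imp (fun e => ⟨e, (b1 (by simpa [e] using m)).resolve_left
      (one_lt_deg hG c1).ne'⟩) fun e => ⟨e, (b2 (by
        rw [e, ← dvd_neg] at m; simpa [add_comm] using m)).resolve_right fun c => ?_⟩
    have := Finset.single_le_sum (f := fun χ : IrrCharacter G => charDegree χ.1 ^ 2)
      (fun _ _ => Nat.zero_le _) c2
    rw [c, mul_pow] at this
    have := Nat.mul_le_mul_right ((cen (P : Subgroup G)).index ^ 2) (Nat.le_self_pow two_ne_zero Y.card)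
    omega
  have dY : ε = 1 ∧ charDegree ζ.1 = e ∨ ε = -1 ∧ Y.card * charDegree ζ.1 = 1 + n * p := by
    obtain ⟨b1, b2⟩ := hn' _ (Nat.mul_dvd_mul_left _ (h.dvd_Y hζ))
    have m := h.mod_Y hζ
    refine h.se.imp (fun e => ⟨e, (b2 (by simpa [e] using m)).elim
      (fun c => Nat.eq_of_mul_eq_mul_left t0 (by omega)) fun c => ?_⟩) fun e => ⟨e, (b1 (by
        rw [e, ← dvd_neg] at m; simpa [add_comm, sub_eq_add_neg] using m)).resolve_left fun c => ?_⟩
    · rw [Nat.eq_of_mul_eq_mul_left t0 c] at sq; omega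
    · exact (one_lt_deg hG (nY ζ hζ)).ne' (Nat.eq_one_of_mul_eq_one_left c)
  have de := h.deg_eq hζ
  have ce := Finset.card_filter_add_card_filter_not (s := X.erase (trivChar G)) (a · = 1)
  rw [← Finset.add_sum_erase _ _ tr, h.a_triv tr, charDegree_trivChar, Finset.sum_congr rfl
    (g := fun χ => if a χ = 1 then (1 + n * p : ℤ) else 1 - p) (fun χ c => by
      rcases dX χ c with ⟨c1, c2⟩ | ⟨c1, c2⟩
      · simp [c1, c2]
      · simp [c1, ← c2]), Finset.sum_ite, Finset.sum_const, Finset.sum_const] at de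
  rw [Finset.card_erase_of_mem tr, h.cX] at ce
  have e0 : 0 < e := h.cX ▸ Finset.card_pos.2 ⟨_, tr⟩
  have exA : ∀ _ : Unit, ((X.erase (trivChar G)).filter (a · = 1)).card ≠ 0 →
      ∃ χ ∈ X, a χ = 1 ∧ charDegree χ.1 = 1 + n * p := fun _ c => by
    obtain ⟨χ, c⟩ := Finset.card_ne_zero.1 c
    obtain ⟨c1, c2⟩ := Finset.mem_filter.1 c
    exact ⟨χ, Finset.mem_of_mem_erase c1, (dX χ c1).resolve_right (by omega)⟩
  generalize ((X.erase (trivChar G)).filter (a · = 1)).card = A at de ce exA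
  generalize ((X.erase (trivChar G)).filter (¬ a · = 1)).card = B at de ce
  simp only [nsmul_eq_mul, Nat.cast_one, mul_one] at de
  have f1 := one_lt_deg hG (nY ζ hζ)
  have B0 : ε = -1 → B ≠ 0 := by
    rintro rfl rfl
    have : (0 : ℤ) ≤ A * (1 + n * p) := by positivity
    simp at de; omega
  have ep : e < p := by nlinarith
  have e1 : 1 < e := dY.elim (fun c => by omega) fun c => by have := B0 c.1; omega
  obtain ⟨q, sc⟩ := exists_SC hP hc he e1.ne' hS
  suffices (n = 1 ∧ Y.card = 2) ∨ ∃ m, 2 ≤ m ∧ p = 2 ^ m + 1 ∧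
      Nonempty (G ≃* Matrix.ProjectiveSpecialLinearGroup (Fin 2) (GaloisField 2 m)) by
    refine this.imp (fun ⟨c1, c2⟩ => ⟨ZMod p, inferInstance, inferInstance, ZMod.card p,
      by rw [c2] at ct; omega,
      psl_of_sylow (d := e) (by rw [hS, c1]; ring) (by rw [sc.ord, c1]; ring) (c2 ▸ ct) _
        (Nat.card_zmod p)⟩) fun ⟨m, c1, c2, c3⟩ => ⟨m, _, _, Fintype.ofFinite _, by
      rw [← @Nat.card_eq_fintype_card _ (Fintype.ofFinite _), GaloisField.card 2 _ (by omega)],
      c2, ?_, c3⟩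
    have := Nat.pow_le_pow_right two_pos c1
    omega
  have ce' : (A : ℤ) + B + 1 = e := by omega
  have ct' : (Y.card : ℤ) * e + 1 = p := by exact_mod_cast ct
  have p0 : (p : ℤ) ≠ 0 := by omega
  rcases dY with ⟨rfl, d⟩ | ⟨rfl, d⟩
  · have k : e = 1 + (n + 1) * A := by
      have : (B : ℤ) = n * A := mul_left_cancel₀ p0 (by rw [d] at de; linear_combination de + ce')
      zify; linear_combination this - ce'
    rcases (show Y.card = 1 ∨ 2 ≤ Y.card by omega) with t1 | t2
    · obtain ⟨A, rfl⟩ : ∃ A', A = A' + 1 := ⟨A - 1, by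
        have : A ≠ 0 := by rintro rfl; omega
        omega⟩
      obtain ⟨χ, c1, c2, c3⟩ := exA () (by omega)
      rw [t1, one_mul] at ct
      refine sc.core hG χ (s := n + 1) (a := A) (by rw [t1, one_mul]) (by rw [t1, one_mul, ct])
        (by rw [c3, add_mul]; omega) (le_of_eq ?_) (by rw [t1, mul_one]; exact k) n0
      rw [Finset.sum_congr rfl (g := fun _ => (1 : ℝ)) fun u hu => by
        rw [h.val χ c1 u u.2 (by simpa using hu), c2]; simp, Finset.sum_const, Finset.filter_ne',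
        Finset.card_erase_of_mem (Finset.mem_univ _), Finset.card_univ, ← Nat.card_eq_fintype_card,
        hP, ← ct]
      simp
    · have := h.prod_ineq hc tr (n := n) rfl (fun χ c1 c2 c3 =>
        ((dX χ (Finset.mem_erase.2 ⟨c2, c1⟩)).resolve_right (by omega)).2.ge)
        (fun χ c => (h.deg_Y hζ c).trans d) e1
      have n1 : n = 1 := by nlinarith [Nat.pos_of_ne_zero n0]
      exact Or.inl ⟨n1, by subst n1; omega⟩
  · obtain ⟨θ, hθ, b⟩ := h.exists_big hc
    rw [← h.deg_Y hζ hθ] at d de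
    have k : Y.card * (charDegree θ.1 + e) = (n + 1) * p := by rw [mul_add, d, add_mul]; omega
    obtain ⟨s, hs⟩ : Y.card ∣ n + 1 := (Nat.Coprime.symm ((Nat.Prime.coprime_iff_not_dvd hp.1).2
      (Nat.not_dvd_of_pos_of_lt t0 (by nlinarith)))).dvd_of_dvd_mul_right (Dvd.intro _ k)
    rw [hs, mul_assoc] at k
    have k2 := Nat.eq_of_mul_eq_mul_left t0 k
    refine sc.core hG θ (a := A) hs ct k2 (by convert b) ?_ n0
    zify at d k2 ⊢
    exact mul_left_cancel₀ p0 (by
      linear_combination de - (p - 1) * ce' + (A * Y.card + 1) * k2 - A * d - A * ct')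


theorem br_perfect (hG : _root_.commutator G = ⊤) (hO : pPrimeCore p G = ⊥) (h1 : p ∣ Nat.card G)
    (h2 : ¬ p ^ 2 ∣ Nat.card G) {n : ℕ} (hn : NR p n) (hd : Nat.card (Sylow p G) ∣ 1 + n * p) :
    (∃ (F : Type) (_ : Field F) (_ : Fintype F), Fintype.card F = p ∧ 3 < p ∧
      Nonempty (G ≃* Matrix.ProjectiveSpecialLinearGroup (Fin 2) F)) ∨
    (∃ (m : ℕ) (F : Type) (_ : Field F) (_ : Fintype F), Fintype.card F = 2 ^ m ∧ p = 2 ^ m + 1 ∧
      3 < p ∧ Nonempty (G ≃* Matrix.ProjectiveSpecialLinearGroup (Fin 2) F)) := by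
  obtain ⟨P⟩ : Nonempty (Sylow p G) := inferInstance
  have hP := card_sylow_of_not_sq h1 h2 P
  have s1 := syl_ne_one' hG P hP
  have hS := ((hn _ (hd.mul_left _)).1 (by
    simpa using (card_sylow_modEq_one p G).symm.dvd)).resolve_left s1
  have hK : ∀ K : Subgroup G, K.Normal → ¬ p ∣ Nat.card K → K = ⊥ := fun K _ c =>
    eq_bot_iff.2 (hO ▸ H1.le_pPrimeCore ((Nat.Prime.coprime_iff_not_dvd hp.1).2 c).symm)
  have hc := cen_eq_of_nr (lin_of_perfect hG) P hP hK hS hn (by rintro rfl; exact s1 (by simpa using hS))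
  haveI : Nontrivial G := Finite.one_lt_card_iff_nontrivial.1
    (hp.1.one_lt.trans_le (Nat.le_of_dvd Nat.card_pos h1))
  haveI : IsSimpleGroup G := ⟨fun K hK' => (em (p ∣ Nat.card K)).symm.imp (hK K hK') fun c =>
    top_of_sup hG hP hc (P.normalizer_sup_eq_top' (le_of_dvd_card hP c))⟩
  refine br_main2 (fun h => ?_) P hP hS hn hc
  haveI := Fact.mk h
  haveI := isCyclic_of_prime_card (α := G) rfl
  have : _root_.commutator G = ⊥ := (commutator_eq_bot_iff_center_eq_top G).2
    (eq_top_iff.2 fun x _ => Subgroup.mem_center_iff.2 fun y => IsCyclic.commGroup.mul_comm y x)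
  exact bot_ne_top (this.symm.trans hG)

end H8
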