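import Cfsg.Agent.H8.BRf
import Cfsg.Agent.H8.SylNum
import Cfsg.Agent.H1.Misc
import Cfsg.Agent.S1009

/-! Simple groups with fewer than `p²` Sylow subgroups. -/

set_option autoImplicit false
set_option linter.style.haveILetI false
set_option linter.unusedSectionVars false

namespace H8
open Cfsg H3 H9 Subgroup
open scoped Pointwise

variable {G : Type*} [Group G] [Finite G] {p : ℕ} [hp : Fact p.Prime]

theorem relIndex_nrm_of_lt (h : Nat.card (Sylow p G) < p ^ 2) (P Q : Sylow p G) :
    (nrm (Q : Subgroup G)).relIndex P ∣ p := by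
  obtain ⟨k, hk⟩ := P.isPGroup'.index ((nrm (Q : Subgroup G)).subgroupOf P)
  have := relIndex_le_of_le_right (H := nrm (Q : Subgroup G)) (le_top (a := (P : Subgroup G)))
    index_ne_zero_of_finite
  rw [relIndex_top_right, show (nrm (Q : Subgroup G)).index = _ from
    Q.card_eq_index_normalizer.symm] at this
  have := (Nat.pow_lt_pow_iff_right hp.1.one_lt).1 (hk.ge.trans_lt (this.trans_lt h))
  exact hk.dvd.trans ((pow_dvd_pow p (by omega)).trans (pow_one p).dvd)

theorem card_sylow_of_lt [IsSimpleGroup G] (h1 : Nat.card (Sylow p G) ≠ 1)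
    (h : Nat.card (Sylow p G) < p ^ 2) (P : Sylow p G) : Nat.card P = p := by
  have core : ∀ K : Subgroup G, (∀ Q : Sylow p G, K ≤ nrm (Q : Subgroup G)) → K = ⊥ := fun K c => by
    rcases (nrm (P : Subgroup G)).normalCore_normal.eq_bot_or_eq_top with e | e
    · refine eq_bot_iff.2 fun x hx => e.le fun y => mem_fx.1 (fx_conj.2 (mem_fx.2 (c _ hx)))
    · exact absurd (P.card_eq_index_normalizer.trans (index_eq_one.2
        (top_unique (e.ge.trans (normalCore_le _))))) h1
  have ab : ∀ P : Sylow p G, IsMulCommutative (P : Subgroup G) := fun P => by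
    have : ⁅(P : Subgroup G), (P : Subgroup G)⁆ = ⊥ := core _ fun Q => by
      rcases (Nat.dvd_prime hp.1).1 (relIndex_nrm_of_lt h P Q) with e | e
      · exact (commutator_le_self _).trans (relIndex_eq_one.1 e)
      · rw [← inf_relIndex_right] at e
        haveI := P.isPGroup'.isNilpotent
        exact (H1.commutator_le_of_relIndex_prime (e.symm ▸ hp.1) inf_le_right
          (H1.le_normalizer_of_relIndex_prime (e.symm ▸ hp.1) inf_le_right)).trans inf_le_left
    exact ⟨⟨fun x y => Subtype.ext (mem_centralizer_iff.1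
      (commutator_eq_bot_iff_le_centralizer.1 this y.2) x x.2)⟩⟩
  obtain ⟨Q, R, e⟩ := Cfsg.Agent.S1009.result p ab
  rw [core _ fun S => (iInf_le _ S).trans le_normalizer] at e
  have a := relIndex_nrm_of_lt h Q R
  rw [← inf_relIndex_right, inf_comm, show (Q : Subgroup G) ⊓ nrm (R : Subgroup G) = (Q : Subgroup G) ⊓ R from
    Q.isPGroup'.inf_normalizer_sylow R, e, relIndex_bot_left] at a
  rw [Nat.card_congr (Sylow.equiv P Q).toEquiv]
  refine ((Nat.dvd_prime hp.1).1 a).resolve_left fun c => h1 ?_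
  have : (Q : Subgroup G).Normal := by rw [card_eq_one.1 c]; infer_instance
  haveI := Sylow.unique_of_normal Q this
  exact Nat.card_unique

theorem DE.cen_eq_of_small [Fintype G] [IsSimpleGroup G] (hG : ¬ (Nat.card G).Prime) {P : Sylow p G}
    {e : ℕ} {X Y : Finset (IrrCharacter G)} {a : IrrCharacter G → ℤ} {ε : ℤ}
    (h : DE p (P : Subgroup G) e X Y a ε) {χ : IrrCharacter G} (c1 : χ ∈ X ∪ Y)
    (c2 : χ ≠ trivChar G) (c3 : charDegree χ.1 < 2 * p) : cen (P : Subgroup G) = P := by
  have hP := h.card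
  haveI : IsCyclic P := isCyclic_of_prime_card hP
  obtain ⟨c, hc⟩ : p ∣ Nat.card (cen (P : Subgroup G)) := hP.symm.dvd.trans (card_dvd_of_le
    fun x hx => mem_centralizer_iff.2 fun y hy =>
      congrArg Subtype.val (IsCyclic.commGroup.mul_comm (⟨y, hy⟩ : P) ⟨x, hx⟩))
  refine cen_eq_of_card hP (hc.trans (congrArg _ ?_))
  by_contra c4
  obtain ⟨q, hq, hd⟩ := Nat.exists_prime_and_dvd c4
  obtain ⟨n, v, hv, ho⟩ := exists_order_cen P hP hc hq hd
  have := h.stanton hG c1 c2 c3 hv (isPRegular_iff_coprime.2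
    (ho ▸ (Nat.coprime_primes hq hp.1).2 n))
  rw [this, orderOf_one] at ho
  exact hq.ne_one ho.symm

theorem syl5_ne [Fact (Nat.Prime 5)] [IsSimpleGroup G] : Nat.card (Sylow 5 G) ≠ 21 := fun hS => by
  classical
  haveI := Fintype.ofFinite G
  obtain ⟨P⟩ : Nonempty (Sylow 5 G) := inferInstance
  have hP := card_sylow_of_lt (by omega) (by omega) P
  have hG : ¬ (Nat.card G).Prime := fun h => by
    have := (Nat.dvd_prime h).1 (P.card_dvd_index.trans (P : Subgroup G).index_dvd_card)
    rw [hS] at this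
    exact this.elim (by omega) fun e => by rw [← e] at h; norm_num at h
  obtain ⟨X, Y, a, ε, h, tr⟩ := exists_DE P hP
  obtain ⟨ζ, hζ⟩ := h.Y_ne
  have hi := card_eq_syl (P := P) rfl
  have he := relIndex_centralizer_normalizer_dvd_of_prime _ (by norm_num) hP
  have h84 : (cen (P : Subgroup G)).index ∣ 84 := by rw [hi, hS]; exact Nat.mul_dvd_mul_right he 21
  have hc : cen (P : Subgroup G) = P := by
    by_contra c
    have k : ∀ χ ∈ X ∪ Y, χ ≠ trivChar G → 10 ≤ charDegree χ.1 := fun χ c1 c2 =>
      not_lt.1 fun c3 => c (h.cen_eq_of_small hG c1 c2 c3)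
    have k1 : (7 : ℤ) ∣ ε * charDegree ζ.1 - 1 := by
      rw [h.deg_eq hζ, ← Finset.add_sum_erase _ _ tr, h.a_triv tr, charDegree_trivChar, Nat.cast_one,
        mul_one, add_sub_cancel_left]
      refine Finset.dvd_sum fun χ hχ => ?_
      obtain ⟨c1, c2⟩ := Finset.mem_erase.1 hχ
      have b1 := h.mod c2
      have b2 := (h.dvd_X c2).trans h84
      have b3 := k χ (Finset.mem_union_left _ c2) c1
      have b4 := Nat.le_of_dvd (by norm_num) b2
      generalize charDegree χ.1 = d at b1 b2 b3 b4
      rcases h.sa χ c2 with e | e <;> rw [e] at b1 ⊢ <;> interval_cases d <;> omega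
    have b2 := (h.dvd_Y hζ).trans h84
    have b3 := k ζ (Finset.mem_union_right _ hζ) fun e => Finset.disjoint_left.1 h.disj tr (e ▸ hζ)
    have b4 := Nat.le_of_dvd (by norm_num) b2
    generalize charDegree ζ.1 = d at k1 b2 b3 b4
    rcases h.se with e | e <;> rw [e] at k1 <;> interval_cases d <;> omega
  have N := (cen (P : Subgroup G)).card_mul_index
  rw [hi, hS, show Nat.card (cen (P : Subgroup G)) = 5 by rw [hc]; exact hP] at N
  have : (cen (P : Subgroup G)).relIndex (nrm (P : Subgroup G)) ≤ 4 := Nat.le_of_dvd (by norm_num) he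
  have s := DC.small_orders hG (by omega)
  rw [← N] at s
  simp only [List.mem_cons, List.not_mem_nil, or_false] at s
  omega

end H8
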