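import Cfsg.Agent.H8.BRg
import Cfsg.Agent.H1.BG4

/-! No simple group has 22 Sylow 3-subgroups. -/

set_option autoImplicit false
set_option linter.style.haveILetI false
set_option linter.unusedSectionVars false

namespace H8
open Cfsg H3 H9 Subgroup MulAction
open scoped Pointwise

variable {G : Type*} [Group G] [Finite G] {p : ℕ} [hp : Fact p.Prime]

theorem pow23 {a b : ℕ} (h : 2 ^ a = 3 ^ b + 1 ∨ 3 ^ b = 2 ^ a + 1) : a ≤ 3 ∧ b ≤ 2 := by
  have k : ∀ n, 3 ^ n % 8 = 1 ∨ 3 ^ n % 8 = 3 := fun n => by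
    induction n with
    | zero => simp
    | succ n ih => rw [pow_succ]; omega
  have a3 : a ≤ 3 := by
    by_contra! c
    obtain ⟨a, rfl⟩ := Nat.exists_eq_add_of_lt c
    have e : 2 ^ (3 + a + 1) = 16 * 2 ^ a := by ring
    rcases h with h | h
    · have := k b; omega
    obtain ⟨l, rfl | rfl⟩ := Nat.even_or_odd' b
    · obtain ⟨m, hm⟩ : ∃ m, 3 ^ l = m + 1 := ⟨3 ^ l - 1, by have := Nat.one_le_pow l 3 (by omega); omega⟩
      have h1 : m * (m + 2) = 2 ^ (3 + a + 1) := by rw [mul_comm 2, pow_mul, hm] at h; nlinarith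
      obtain ⟨i, -, hi⟩ := (Nat.dvd_prime_pow Nat.prime_two).1 (Dvd.intro _ h1)
      obtain ⟨j, -, hj⟩ := (Nat.dvd_prime_pow Nat.prime_two).1 (Dvd.intro_left _ h1)
      have m4 : 4 ≤ m := by nlinarith [Nat.one_le_two_pow (n := a)]
      obtain _ | _ | i := i
      · omega
      · omega
      obtain _ | _ | j := j
      · omega
      · omega
      rw [pow_succ, pow_succ] at hi hj; omega
    · have : 3 ^ (2 * l) % 8 = 1 := by rw [pow_mul, Nat.pow_mod]; simp
      rw [pow_succ] at h; omega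
  refine ⟨a3, ?_⟩
  by_contra! c
  have := Nat.pow_le_pow_right (show 0 < 3 by omega) c
  have := Nat.pow_le_pow_right (show 0 < 2 by omega) a3
  omega

theorem not_card_2_3_11 [IsSimpleGroup G] {a b : ℕ} (hG : ¬ (Nat.card G).Prime)
    (hN : Nat.card G = 2 ^ a * 3 ^ b * 11) : False := by
  have a0 : a ≠ 0 := by
    rintro rfl
    exact solv_pq hG Nat.prime_three (q := 11) (by norm_num) (a := b) (b := 1) (by rw [hN]; simp)
  have b0 : b ≠ 0 := by
    rintro rfl
    exact solv_pq hG Nat.prime_two (q := 11) (by norm_num) (a := a) (b := 1) (by rw [hN]; simp)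
  obtain ⟨n, t, s, s0, -, e1, e2, h⟩ := pqr_num hG Nat.prime_two Nat.prime_three (by norm_num)
    (by norm_num) (by norm_num) hN
  have s1 : s.card = 1 := by
    have d : s.card + 1 ∣ 10 := Dvd.intro_left t (by omega)
    have d5 : ¬ 5 ∣ s.card + 1 := fun c => by
      rcases (Nat.Prime.dvd_mul (by norm_num)).1 (c.trans (Dvd.intro_left n e1.symm)) with c | c <;>
        have := Nat.Prime.dvd_of_dvd_pow (by norm_num) c <;> omega
    have := Nat.le_of_dvd (by norm_num) d
    generalize s.card = k at *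
    have : k ≤ 9 := by omega
    interval_cases k <;> omega
  obtain ⟨x, rfl⟩ := Multiset.card_eq_one.1 s1
  obtain ⟨h1, h2⟩ := pow23 (two_deg Nat.prime_two Nat.prime_three (by norm_num) (by norm_num)
    (by norm_num) hN a0 b0 h)
  have := DC.small_orders hG (by rw [hN]; interval_cases a <;> interval_cases b <;> norm_num)
  rw [hN] at this
  interval_cases a <;> interval_cases b <;> simp at this

theorem eq_bot_of_le_nrm [IsSimpleGroup G] (h1 : Nat.card (Sylow p G) ≠ 1) {K : Subgroup G}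
    (c : ∀ Q : Sylow p G, K ≤ nrm (Q : Subgroup G)) : K = ⊥ := by
  obtain ⟨P⟩ : Nonempty (Sylow p G) := inferInstance
  rcases (nrm (P : Subgroup G)).normalCore_normal.eq_bot_or_eq_top with e | e
  · refine eq_bot_iff.2 fun x hx => e.le fun y => mem_fx.1 (fx_conj.2 (mem_fx.2 (c _ hx)))
  · exact absurd (P.card_eq_index_normalizer.trans (index_eq_one.2
      (top_unique (e.ge.trans (normalCore_le _))))) h1

theorem card_sylow_of_dvd [IsSimpleGroup G] (h1 : Nat.card (Sylow p G) ≠ 1)
    (h : ∀ P Q : Sylow p G, (nrm (Q : Subgroup G)).relIndex P ∣ p) (P : Sylow p G) :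
    Nat.card P = p := by
  have ab : ∀ P : Sylow p G, IsMulCommutative (P : Subgroup G) := fun P => by
    have : ⁅(P : Subgroup G), (P : Subgroup G)⁆ = ⊥ := eq_bot_of_le_nrm h1 fun Q => by
      rcases (Nat.dvd_prime hp.1).1 (h P Q) with e | e
      · exact (commutator_le_self _).trans (relIndex_eq_one.1 e)
      · rw [← inf_relIndex_right] at e
        haveI := P.isPGroup'.isNilpotent
        exact (H1.commutator_le_of_relIndex_prime (e.symm ▸ hp.1) inf_le_right
          (H1.le_normalizer_of_relIndex_prime (e.symm ▸ hp.1) inf_le_right)).trans inf_le_left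
    exact ⟨⟨fun x y => Subtype.ext (mem_centralizer_iff.1
      (commutator_eq_bot_iff_le_centralizer.1 this y.2) x x.2)⟩⟩
  obtain ⟨Q, R, e⟩ := Cfsg.Agent.S1009.result p ab
  rw [eq_bot_of_le_nrm h1 fun S => (iInf_le _ S).trans le_normalizer] at e
  have a := h Q R
  rw [← inf_relIndex_right, inf_comm, show (Q : Subgroup G) ⊓ nrm (R : Subgroup G) =
    (Q : Subgroup G) ⊓ R from Q.isPGroup'.inf_normalizer_sylow R, e, relIndex_bot_left] at a
  rw [Nat.card_congr (Sylow.equiv P Q).toEquiv]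
  refine ((Nat.dvd_prime hp.1).1 a).resolve_left fun c => h1 ?_
  have : (Q : Subgroup G).Normal := by rw [card_eq_one.1 c]; infer_instance
  haveI := Sylow.unique_of_normal Q this
  exact Nat.card_unique

theorem ncard_orbit_syl (H : Subgroup G) (Q : Sylow p G) :
    (orbit H Q).ncard = (nrm (Q : Subgroup G)).relIndex H := by
  rw [← index_stabilizer, relIndex]
  congr 1; ext x
  exact Sylow.smul_eq_iff_mem_normalizer

theorem relIndex_smul_syl {H : Subgroup G} {g : G} (hg : g ∈ nrm H) (Q : Sylow p G) :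
    (nrm ((g • Q : Sylow p G) : Subgroup G)).relIndex H = (nrm (Q : Subgroup G)).relIndex H := by
  rw [← ncard_orbit_syl, ← ncard_orbit_syl]
  refine Set.ncard_congr (fun R _ => g⁻¹ • R) ?_ (fun a b _ _ h => smul_left_cancel _ h) ?_
  · rintro _ ⟨x, rfl⟩
    exact ⟨⟨g⁻¹ * x * g⁻¹⁻¹, (mem_normalizer_iff.1 (inv_mem hg) _).1 x.2⟩, by
      simp [Subgroup.smul_def, mul_smul]⟩
  · rintro _ ⟨x, rfl⟩
    exact ⟨g • (x : G) • Q, ⟨⟨g * x * g⁻¹, (mem_normalizer_iff.1 hg _).1 x.2⟩, by
      simp [Subgroup.smul_def, mul_smul]⟩, by simp [Subgroup.smul_def]⟩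

theorem syl3_fix [Fact (Nat.Prime 3)] (hS : Nat.card (Sylow 3 G) = 22) {P Q₀ : Sylow 3 G}
    (h0 : ¬ (nrm (Q₀ : Subgroup G)).relIndex P ∣ 3) {g : G} (hg : g ∈ nrm (P : Subgroup G))
    {r : ℕ} (hr : r.Prime) (r5 : 5 ≤ r) (ho : orderOf g = r) (Q : Sylow 3 G) : g • Q = Q := by
  haveI := Fact.mk hr
  have le : ∀ (H : Subgroup G) (Q : Sylow 3 G), (nrm (Q : Subgroup G)).relIndex H ≤ 22 :=
    fun H Q => by rw [← ncard_orbit_syl, ← hS]; exact Set.ncard_le_card _
  have o : ∀ H ≤ (P : Subgroup G), ∀ Q : Sylow 3 G, (nrm (Q : Subgroup G)).relIndex H = 1 ∨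
      (nrm (Q : Subgroup G)).relIndex H = 3 ∨ (nrm (Q : Subgroup G)).relIndex H = 9 := fun H c Q => by
    obtain ⟨k, hk⟩ := (P.isPGroup'.to_le c).index ((nrm (Q : Subgroup G)).subgroupOf H)
    have := le H Q
    rw [relIndex, hk] at this ⊢
    have : k < 3 := (Nat.pow_lt_pow_iff_right (show 1 < 3 by omega)).1 (by omega)
    interval_cases k <;> simp
  have o9 : (nrm (Q₀ : Subgroup G)).relIndex P = 9 := by
    rcases o _ le_rfl Q₀ with c | c | c <;> simp_all
  have zn : zpowers g ≤ nrm (P : Subgroup G) := zpowers_le_of_mem hg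
  have cop : (Nat.card (zpowers g)).Coprime (Nat.card (P : Subgroup G)) := by
    obtain ⟨k, hk⟩ := P.isPGroup'.exists_card_eq
    rw [Nat.card_zpowers, ho, hk]
    exact ((Nat.coprime_primes hr Nat.prime_three).2 (by omega)).pow_right k
  have gP : g ∉ (P : Subgroup G) := fun c => hr.ne_one (by
    rw [Nat.card_zpowers] at cop
    exact ho ▸ Nat.Coprime.eq_one_of_dvd cop (Subgroup.orderOf_dvd_natCard _ c))
  have A : ∃ k ∈ (P : Subgroup G), k • Q = g • Q := by
    have i := H1.relIndex_sup_zpowers hr hg gP (by rw [← ho, pow_orderOf_eq_one]; exact one_mem _)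
    have Hn : (P : Subgroup G) ⊔ zpowers g ≤ nrm (P : Subgroup G) := sup_le le_normalizer zn
    generalize hH : (P : Subgroup G) ⊔ zpowers g = H at i Hn
    have PH : (P : Subgroup G) ≤ H := hH ▸ le_sup_left
    rcases H1.eq_or_eq_of_relIndex_prime (U := (P : Subgroup G) ⊔ (H ⊓ nrm (Q : Subgroup G)))
      (i.symm ▸ hr) le_sup_left (sup_le PH inf_le_left) with e | e
    · have s : (nrm (Q : Subgroup G)).relIndex H = (nrm (Q : Subgroup G)).relIndex P * r := by
        rw [← i, ← inf_relIndex_right _ (P : Subgroup G), relIndex_mul_relIndex _ _ _ inf_le_right PH,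
          ← inf_relIndex_right _ H]
        congr 1
        exact le_antisymm (le_inf inf_le_left ((inf_comm _ _).le.trans (le_sup_right.trans e.le)))
          (inf_le_inf_left _ PH)
      rcases o _ le_rfl Q with c | c | c
      · have := P.isPGroup'.inf_normalizer_sylow Q
        obtain rfl : P = Q := Sylow.ext (P.3 Q.isPGroup'
          (((le_inf le_rfl (relIndex_eq_one.1 c)).trans this.le).trans inf_le_right)).symm
        exact ⟨1, one_mem _, by rw [one_smul, eq_comm]; exact mem_fx.2 hg⟩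
      · have d : Disjoint (orbit H Q) (orbit (P : Subgroup G) Q₀) := Set.disjoint_left.2 (by
          rintro _ ⟨x, rfl⟩ ⟨y, e⟩
          have := relIndex_smul_syl (Hn x.2) Q
          rw [show (x : G) • Q = (y : G) • Q₀ from e.symm,
            relIndex_smul_syl (le_normalizer y.2), o9, c] at this
          omega)
        have := Set.ncard_le_card (orbit H Q ∪ orbit (P : Subgroup G) Q₀)
        rw [Set.ncard_union_eq d, ncard_orbit_syl, ncard_orbit_syl, s, c, o9, hS] at this
        omega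
      · have := le H Q
        rw [s, c] at this; omega
    · obtain ⟨k, hk, y, hy, e⟩ := (H1.mem_sup_of_le_normalizer' (inf_le_left.trans Hn)).1
        (e.ge (hH ▸ mem_sup_right (mem_zpowers g)))
      exact ⟨k, hk, by rw [← e, mul_smul, (mem_fx.2 hy.2 : y • Q = Q)]⟩
  obtain ⟨k, hk, B⟩ := H1.glauberman_fixedPoint (X := Sylow 3 G) zn cop (Or.inl inferInstance) (x := Q)
    (fun a ha => by
      obtain ⟨i, rfl⟩ := mem_powers_iff_mem_zpowers.2 ha
      clear ha
      induction i with
      | zero => exact ⟨1, one_mem _, by simp⟩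
      | succ i ih =>
        obtain ⟨k, hk, e⟩ := A
        obtain ⟨l, hl, e'⟩ := ih
        refine ⟨g * l * g⁻¹ * k, mul_mem ((mem_normalizer_iff.1 hg _).1 hl) hk, ?_⟩
        simp only [pow_succ', mul_smul, e, inv_smul_smul, e'])
  have gz : IsPGroup r (zpowers g) := IsPGroup.of_card (n := 1) (by rw [Nat.card_zpowers, ho, pow_one])
  have c1 := H1B.card_modEq_cen gz zn
  have c2 := H1B.card_modEq_cen gz (V := nrm ((k • Q : Sylow 3 G) : Subgroup G) ⊓ P)
    (fun a ha => mem_normalizer_iff.2 fun x => and_congr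
      (mem_normalizer_iff.1 (le_normalizer (mem_fx.1 (B a ha))) x) (mem_normalizer_iff.1 (zn ha) x))
  have c3 := H7.card_le_relIndex_mul (nrm ((k • Q : Sylow 3 G) : Subgroup G)) P
  have c4 := H7.card_le_relIndex_mul (nrm ((k • Q : Sylow 3 G) : Subgroup G))
    ((P : Subgroup G) ⊓ cen (zpowers g))
  rw [← inf_assoc] at c4
  rw [c3, c4] at c1
  have c5 := Nat.ModEq.cancel_right_of_coprime (cop.coprime_dvd_right (card_dvd_of_le inf_le_right)
    |>.coprime_dvd_left (by rw [Nat.card_zpowers, ho])) (c1.trans (c2.symm.mul_left _))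
  have c6 : orbit ((P : Subgroup G) ⊓ cen (zpowers g) : Subgroup G) (k • Q) =
      orbit (P : Subgroup G) (k • Q) := by
    have sub : orbit ((P : Subgroup G) ⊓ cen (zpowers g) : Subgroup G) (k • Q) ⊆
        orbit (P : Subgroup G) (k • Q) := by
      rintro _ ⟨x, rfl⟩; exact ⟨⟨x, x.2.1⟩, rfl⟩
    refine Set.eq_of_subset_of_ncard_le sub ?_
    rw [ncard_orbit_syl, ncard_orbit_syl]
    have d := (Nat.modEq_iff_dvd.1 c5)
    have q : ∀ m : ℤ, (r : ℤ) ∣ m → m ≠ -2 ∧ m ≠ -6 ∧ m ≠ -8 := fun m c => by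
      have k : ∀ n : ℕ, n ∣ 24 → m ≠ -n := fun n c' e => by
        rw [e, dvd_neg, Int.natCast_dvd_natCast] at c
        rcases (Nat.Prime.dvd_mul hr (m := 2 ^ 3) (n := 3)).1 (c.trans c') with c | c
        · have := Nat.le_of_dvd two_pos (hr.dvd_of_dvd_pow c); omega
        · have := Nat.le_of_dvd three_pos c; omega
      exact ⟨k 2 (by norm_num), k 6 (by norm_num), k 8 (by norm_num)⟩
    have := q _ d
    have := o _ le_rfl (k • Q)
    have := o _ (inf_le_left : (P : Subgroup G) ⊓ cen (zpowers g) ≤ _) (k • Q)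
    omega
  obtain ⟨⟨c, hc⟩, e⟩ := c6.ge (⟨⟨k⁻¹, inv_mem hk⟩, by simp [Subgroup.smul_def]⟩ :
    Q ∈ orbit (P : Subgroup G) (k • Q))
  change c • k • Q = Q at e
  rw [← e, ← mul_smul, mem_centralizer_iff.1 hc.2 g (mem_zpowers g), mul_smul, B g (mem_zpowers g)]

theorem syl3_ne [Fact (Nat.Prime 3)] [IsSimpleGroup G] : Nat.card (Sylow 3 G) ≠ 22 := fun hS => by
  classical
  haveI := Fintype.ofFinite G
  have hG : ¬ (Nat.card G).Prime := fun h => by
    obtain ⟨P⟩ : Nonempty (Sylow 3 G) := inferInstance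
    have := (Nat.dvd_prime h).1 (P.card_dvd_index.trans (P : Subgroup G).index_dvd_card)
    rw [hS] at this
    exact this.elim (by omega) fun e => by rw [← e] at h; norm_num at h
  by_cases c : ∀ P Q : Sylow 3 G, (nrm (Q : Subgroup G)).relIndex P ∣ 3
  · obtain ⟨P⟩ : Nonempty (Sylow 3 G) := inferInstance
    have hP := card_sylow_of_dvd (by omega) c P
    obtain ⟨X, Y, a, ε, h, tr⟩ := exists_DE P hP
    obtain ⟨ζ, hζ⟩ := h.Y_ne
    have hi := card_eq_syl (P := P) rfl
    have he : (cen (P : Subgroup G)).relIndex (nrm (P : Subgroup G)) = 2 :=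
      ((Nat.dvd_prime Nat.prime_two).1 (relIndex_centralizer_normalizer_dvd_of_prime _
        (by norm_num) hP)).resolve_left (relIndex_ne_one hG hP)
    rw [he, hS] at hi
    obtain ⟨χ, hχ⟩ := Finset.card_eq_one.1 (show (X.erase (trivChar G)).card = 1 by
      rw [Finset.card_erase_of_mem tr, h.cX, he])
    obtain ⟨x1, x2⟩ := Finset.mem_erase.1 (hχ.ge (Finset.mem_singleton_self χ))
    have d1 := h.deg_eq hζ
    rw [← Finset.add_sum_erase _ _ tr, hχ, Finset.sum_singleton, h.a_triv tr,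
      charDegree_trivChar] at d1
    have d2 := hi ▸ h.dvd_X x2
    have d3 := hi ▸ h.dvd_Y hζ
    have d4 := h.mod x2
    have d5 := one_lt_deg hG x1
    have d6 := one_lt_deg hG (χ := ζ) fun e => Finset.disjoint_left.1 h.disj tr (e ▸ hζ)
    have d7 := Nat.le_of_dvd (by norm_num) d2
    generalize charDegree χ.1 = d at *
    generalize charDegree ζ.1 = f at *
    rcases h.sa χ x2 with e | e <;> rcases h.se with e' | e' <;> rw [e] at d1 d4 <;> rw [e'] at d1
    · obtain rfl : f = d + 1 := by omega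
      interval_cases d <;> omega
    · omega
    · omega
    · obtain rfl : d = f + 1 := by omega
      have : f ≤ 44 := by omega
      interval_cases f <;> omega
  push Not at c
  obtain ⟨P, Q, c⟩ := c
  have N := (nrm (P : Subgroup G)).card_mul_index
  rw [show (nrm (P : Subgroup G)).index = _ from P.card_eq_index_normalizer.symm, hS] at N
  have k : ∀ r : ℕ, r.Prime → r ∣ Nat.card (nrm (P : Subgroup G)) → r = 2 ∨ r = 3 := fun r hr d => by
    by_contra! c'
    haveI := Fact.mk hr
    obtain ⟨g, hg⟩ := exists_prime_orderOf_dvd_card' r d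
    have r5 := hr.five_le_of_ne_two_of_ne_three c'.1 c'.2
    rw [← orderOf_coe] at hg
    have := eq_bot_of_le_nrm (p := 3) (by omega) fun R =>
      zpowers_le_of_mem (mem_fx.1 (syl3_fix hS c g.2 hr r5 hg R))
    rw [zpowers_eq_bot.1 this, orderOf_one] at hg
    omega
  obtain ⟨a, m, m2, e⟩ := Nat.exists_eq_pow_mul_and_not_dvd
    (Nat.card_pos (α := nrm (P : Subgroup G))).ne' 2 (by norm_num)
  have := Nat.eq_prime_pow_of_unique_prime_dvd (n := m) (p := 3) (by rintro rfl; simp at m2)
    fun {r} hr d => (k r hr (e ▸ d.mul_left _)).resolve_left (by rintro rfl; exact m2 d)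
  exact not_card_2_3_11 hG (a := a + 1) (b := m.primeFactorsList.length)
    (by rw [← N, e, ← this]; ring)

end H8
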