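import Mathlib
import Cfsg.Agent.H8.Cls2
import Cfsg.Agent.H1.Kaz
import Cfsg.Agent.H1.FrobK
import Cfsg.Agent.H7.FTc
import Cfsg.Agent.H2.Transfer

/-! Class sizes not divisible by four. -/

set_option autoImplicit false

namespace H8
open Subgroup H7
open scoped commutatorElement

universe u

/-- Induction over normal subgroups and quotients for solvability. -/
theorem solv_induction {C : ∀ (G : Type u) [Group G], Prop}
    (h1 : ∀ (G : Type u) [Group G] [Finite G] (N : Subgroup G) [N.Normal], C G → C N)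
    (h2 : ∀ (G : Type u) [Group G] [Finite G] (N : Subgroup G) [N.Normal], C G → C (G ⧸ N))
    (h3 : ∀ (G : Type u) [Group G] [Finite G], IsSimpleGroup G → C G → Group.IsSolvable G)
    (G : Type u) [Group G] [Finite G] (h : C G) : Group.IsSolvable G := by
  induction hn : Nat.card G using Nat.strong_induction_on generalizing G with | _ n ih => ?_
  subst hn
  rcases subsingleton_or_nontrivial G with h0 | h0
  · infer_instance
  by_cases hs : IsSimpleGroup G
  · exact h3 G hs h
  obtain ⟨K, hKn, hK1, hK2⟩ : ∃ K : Subgroup G, K.Normal ∧ K ≠ ⊥ ∧ K ≠ ⊤ := by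
    by_contra h
    push Not at h
    exact hs ⟨fun K hK => by by_cases h1 : K = ⊥; exacts [Or.inl h1, Or.inr (h K hK h1)]⟩
  haveI := ih _ (H1.card_quotient_lt hK1) _ (h2 G K h) rfl
  haveI := ih (Nat.card K) (by
    rw [← card_top (G := G)]; exact card_lt_of_lt (lt_top_iff_ne_top.2 hK2)) _ (h1 G K h) rfl
  exact Group.isSolvable_of_ker_le_range K.subtype (QuotientGroup.mk' K) (by simp)

theorem solv_of_not_four (G : Type u) [Group G] [Finite G]
    (h : ∀ x : G, ¬ 4 ∣ (cen1 x).index) : Group.IsSolvable G := by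
  refine solv_induction (C := fun G _ => ∀ x : G, ¬ 4 ∣ (cen1 x).index)
    (fun G _ _ N _ h x hx => h x (hx.trans (H1B.index_cen1_coe x))) (fun G _ _ N _ h x hx => ?_)
    (fun G _ _ hs h => ?_) G h
  · obtain ⟨x, rfl⟩ := QuotientGroup.mk'_surjective N x
    exact h x (hx.trans (H1B.index_cen1_map _ (QuotientGroup.mk'_surjective N) x))
  haveI : Fact (Nat.Prime 2) := ⟨Nat.prime_two⟩
  by_cases h2 : 2 ∣ Nat.card G
  swap
  · haveI := H7.solv_of_coprime_two (A := (⊤ : Subgroup G))
      (by rw [card_top]; exact coprime_iff_not_dvd.2 h2)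
    exact Group.isSolvable_of_surjective (f := (⊤ : Subgroup G).subtype)
      fun x => ⟨⟨x, trivial⟩, rfl⟩
  obtain ⟨u, hu⟩ := exists_prime_orderOf_dvd_card' 2 h2
  have hu2 : u ^ 2 = 1 := hu ▸ pow_orderOf_eq_one u
  by_cases hG : ∀ H : Subgroup G, H.index ≠ 2
  swap
  · push Not at hG
    obtain ⟨H, hH⟩ := hG
    rcases (normal_of_index_eq_two hH).eq_bot_or_eq_top with rfl | rfl
    · rw [index_bot] at hH
      haveI := isCyclic_of_prime_card hH
      exact Group.isSolvable_of_comm IsCyclic.isMulCommutative.is_comm.comm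
    · simp at hH
  have key : cen1 u = ⊤ := H1.eq_top_of_forall_conj_mem fun x => by
    obtain ⟨R, hR⟩ := H2.exists_isSylowIn 2 (cen1 x)
    obtain ⟨P, hP, hRP⟩ := H2.exists_isSylowIn_ge hR.isPGroup (le_top : R ≤ ⊤)
    suffices ∃ g, g * u * g⁻¹ ∈ R by
      obtain ⟨g, hg⟩ := this
      have := mem_cen1.1 (hR.le hg)
      refine ⟨g, mem_cen1.2 ?_⟩
      calc _ = g⁻¹ * (x * (g * u * g⁻¹)) * g := by group
        _ = _ := by rw [← this]; group
    obtain ⟨k, hk⟩ := H2.relIndex_eq_pow (Q := R) hP.isPGroup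
    have h3 : 2 ^ k ∣ R.relIndex (cen1 x) * (cen1 x).index := by
      rw [relIndex_mul_index hR.le, ← hk]; exact ⟨_, (relIndex_mul_index hRP).symm⟩
    have h4 : 2 ^ k ∣ (cen1 x).index :=
      ((coprime_iff_not_dvd.2 hR.not_dvd).symm.pow_left k).dvd_of_dvd_mul_left h3
    have h5 : k ≤ 1 := by
      by_contra hc
      exact h x ((pow_dvd_pow 2 (by omega : 2 ≤ k)).trans h4)
    interval_cases k
    · obtain ⟨g, -, hg⟩ := hP.exists_cj_le (isPGroup_zpowers (k := 1) (by simpa using hu2)) le_top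
      exact ⟨g, relIndex_eq_one.1 hk (hg (conj_mem_cj.2 (mem_zpowers u)))⟩
    · exact H2.exists_conj_mem_of_no_index_two hG hP.toSylowTop hk hu2
  have h6 : u ∈ center G := index_cen1_eq_one.1 (by rw [key, index_top])
  rcases (inferInstance : (center G).Normal).eq_bot_or_eq_top with e | e
  · rw [e, mem_bot] at h6; simp [h6] at hu
  · exact Group.isSolvable_of_comm fun a b => mem_center_iff.1 (e ▸ mem_top b) a

end H8
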