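import Mathlib
import Cfsg.Agent.H8.Cls3
import Cfsg.Agent.H1.SS
import Cfsg.Agent.H1.Misc
import Cfsg.Agent.H8.Misc1

/-! Square-free class sizes. -/

set_option autoImplicit false

namespace H8
open Subgroup H7
open scoped commutatorElement

universe u
variable {G : Type*} [Group G] [Finite G] {p : ℕ} {P : Subgroup G}

omit [Finite G] in
theorem exists_not_mem_two {A B : Subgroup G} (hA : ¬ P ≤ A) (hB : ¬ P ≤ B) :
    ∃ x ∈ P, x ∉ A ∧ x ∉ B := by
  obtain ⟨a, ha, ha'⟩ := SetLike.not_le_iff_exists.1 hA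
  obtain ⟨b, hb, hb'⟩ := SetLike.not_le_iff_exists.1 hB
  by_cases h1 : a ∈ B
  · by_cases h2 : b ∈ A
    · exact ⟨a * b, mul_mem ha hb, fun h => ha' ((mul_mem_cancel_right h2).1 h),
        fun h => hb' ((mul_mem_cancel_left h1).1 h)⟩
    · exact ⟨b, hb, h2, hb'⟩
  · exact ⟨a, ha, ha', h1⟩

theorem eq_zpowers_of_dvd_prime {L : Subgroup G} (hp : p.Prime) (h : ord L ∣ p) {z : G}
    (hz : z ∈ L) (h1 : z ≠ 1) : L = zpowers z := by
  refine (eq_of_le_of_card_le (zpowers_le.2 hz) ?_).symm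
  have h2 := card_dvd_of_le (zpowers_le.2 hz)
  rcases (Nat.dvd_prime hp).1 (h2.trans h) with e | e
  · rw [card_eq_one, zpowers_eq_bot] at e; exact absurd e h1
  · exact e ▸ Nat.le_of_dvd hp.pos h

/-- Knoche: a `p`-group of breadth at most one has derived subgroup of order at most `p`. -/
theorem knoche [hp : Fact p.Prime] (hP : IsPGroup p P)
    (h : ∀ x ∈ P, (cen1 x).relIndex P ∣ p) : ord ⁅P, P⁆ ∣ p := by
  haveI := hP.isNilpotent
  have h1 : ∀ x ∈ P, ⁅P, P⁆ ≤ cen1 x := fun x hx => by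
    rcases (Nat.dvd_prime hp.out).1 (h x hx) with e | e
    · exact (comm_le_of_le le_rfl le_rfl).trans (relIndex_eq_one.1 e)
    · rw [← inf_relIndex_right] at e
      have e' := e ▸ hp.out
      exact (H1.commutator_le_of_relIndex_prime e' inf_le_right
        (H1.le_normalizer_of_relIndex_prime e' inf_le_right)).trans inf_le_left
  have h2 : ∀ x ∈ P, ∃ L : Subgroup G, ord L ∣ p ∧ ∀ y ∈ P, ⁅x, y⁆ ∈ L := fun x hx => by
    let φ : P →* G := MonoidHom.mk' (fun y => ⁅x, (y : G)⁆) fun a b => by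
      have := mem_cen1.1 (h1 a a.2 (commutator_mem_commutator hx b.2))
      calc ⁅x, (a : G) * b⁆ = ⁅x, (a : G)⁆ * (a * ⁅x, (b : G)⁆) * (a : G)⁻¹ := by group
        _ = _ := by rw [← this]; group
    refine ⟨φ.range, ?_, fun y hy => ⟨⟨y, hy⟩, rfl⟩⟩
    rw [← index_ker]
    have : φ.ker = (cen1 x).subgroupOf P := by
      ext y
      rw [MonoidHom.mem_ker, mem_subgroupOf, mem_cen1, eq_comm (a := (y : G) * x)]
      exact commutatorElement_eq_one_iff_mul_comm
    rw [this]; exact h x hx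
  choose! L hL hm using h2
  by_cases hc : P ≤ cen P
  · rw [comm_eq_bot.2 hc, card_bot]; exact one_dvd _
  obtain ⟨x, hx, hx'⟩ := SetLike.not_le_iff_exists.1 hc
  refine (card_dvd_of_le (commutator_le.2 fun a ha b hb => ?_)).trans (hL x hx)
  by_cases ha' : P ≤ cen1 a
  · rw [commutatorElement_eq_one_iff_mul_comm.2 (mem_cen1.1 (ha' hb)).symm]; exact one_mem _
  obtain ⟨y, hy, h3, h4⟩ := exists_not_mem_two ha' (mt le_cen1_iff.1 hx')
  have k : ∀ u ∈ P, y ∉ cen1 u → L u = L y := fun u hu hy' => by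
    have h5 : ⁅u, y⁆ ≠ 1 := fun e => hy' (mem_cen1.2 (commutatorElement_eq_one_iff_mul_comm.1 e).symm)
    rw [eq_zpowers_of_dvd_prime hp.out (hL u hu) (hm u hu y hy) h5,
      eq_zpowers_of_dvd_prime hp.out (hL y hy) (commutatorElement_inv y u ▸ inv_mem (hm y hy u hu)) h5]
  rw [k x hx h4, ← k a ha h3]
  exact hm a ha b hb

theorem breadth_cop [hp : Fact p.Prime] (hP : IsPGroup p P) [P.Normal]
    (h : ∀ x : G, (cen1 x).relIndex P ∣ p) {x : G} (hx : (orderOf x).Coprime p)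
    (h1 : ¬ P ≤ cen1 x) :
    IsMulCommutative P ∧ ord ⁅P, zpowers x⁆ = p ∧ ⁅P, zpowers x⁆ ⊓ cen1 x = ⊥ := by
  haveI := hP.isNilpotent
  have e : (cen1 x ⊓ P).relIndex P = p := by
    rw [inf_relIndex_right]
    exact ((Nat.dvd_prime hp.out).1 (h x)).resolve_left (mt relIndex_eq_one.1 h1)
  have e' := e ▸ hp.out
  have hc := cop_of_pgroup' (A := zpowers x) (by rwa [Nat.card_zpowers]) hP (le_nrm_of_normal _ _)
  have h2 : cen1 x ⊓ P ≤ cen (cen1 x ⊓ P) := by
    intro y hy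
    obtain ⟨k, hk⟩ := H2.orderOf_eq_pow_of_mem hP hy.2
    have h3 := cen1_mul (mem_cen1.1 hy.1).symm (hk ▸ hx.pow_right k)
    have h4 := h (x * y)
    rw [h3, ← inf_relIndex_right] at h4
    have h5 : cen1 x ⊓ cen1 y ⊓ P ≤ cen1 x ⊓ P := inf_le_inf_right _ inf_le_left
    have h6 := relIndex_mul_relIndex _ _ _ h5 (inf_le_right : _ ≤ P)
    rw [e] at h6
    rw [← h6] at h4
    have h7 := relIndex_eq_one.1 (Nat.dvd_one.1 (Nat.dvd_of_mul_dvd_mul_right hp.out.pos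
      (by rwa [one_mul])))
    exact le_cen1_iff.1 (h7.trans (inf_le_left.trans inf_le_right))
  have h3 := hc.comm_sup_cen
  rw [cen_zpowers, inf_comm] at h3
  have h4 : ⁅P, zpowers x⁆ ≤ cen (cen1 x ⊓ P) := comm_le_of_le_nrm
    (le_cen_symm (inf_le_left.trans (cen_zpowers x).ge))
    (nrm_cen (H1.le_normalizer_of_relIndex_prime e' inf_le_right))
  have h5 : IsMulCommutative P := H1.isMulCommutative_of_relIndex_prime e' inf_le_right
    (le_cen_symm (h3.ge.trans (sup_le h4 h2)))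
  have h6 := comm_inf_cen_of_comm h5 hc.1 hc.2
  rw [cen_zpowers] at h6
  refine ⟨h5, ?_, h6⟩
  have h7 := card_sup_of_inf_eq_bot (le_nrm_of_le_cen h4)
    (eq_bot_iff.2 ((inf_le_inf_left _ inf_le_left).trans h6.le))
  rw [h3, ← relIndex_mul_card' (inf_le_right : cen1 x ⊓ P ≤ P), e] at h7
  exact (Nat.eq_of_mul_eq_mul_right (card_pos' _) h7).symm

theorem card_der_dvd [hp : Fact p.Prime] (hD : IsPGroup p (⁅(⊤ : Subgroup G), (⊤ : Subgroup G)⁆ : Subgroup G))
    (h : ∀ x : G, ¬ p * p ∣ (cen1 x).index) : ord (⁅(⊤ : Subgroup G), (⊤ : Subgroup G)⁆ : Subgroup G) ∣ p := by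
  obtain ⟨P, hP, hDP⟩ := H2.exists_isSylowIn_ge hD le_top
  have nm : ∀ K : Subgroup G, P ≤ K → K.Normal := fun K hK =>
    normal_iff_top_le_nrm.2 (le_nrm_of_comm_le' le_top (hDP.trans hK))
  haveI := nm P le_rfl
  have h1 : ∀ x : G, (cen1 x).relIndex P ∣ p := fun x => by
    obtain ⟨k, hk⟩ := H2.relIndex_eq_pow (Q := cen1 x) hP.isPGroup
    have h2 := relIndex_dvd_index_of_normal_right (cen1 x) P
    rw [hk] at h2 ⊢
    rcases k with _ | _ | k
    · simp
    · simp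
    · exact absurd (Dvd.dvd.trans ⟨p ^ k, by ring⟩ h2) (h x)
  obtain ⟨H, e1, e2, e3⟩ := exists_compl (le_top : P ≤ ⊤) (le_nrm_of_normal _ _) (syl_coprime hP)
  have hH : ∀ x ∈ H, (orderOf x).Coprime p := fun x hx =>
    Nat.Coprime.coprime_dvd_left (orderOf_dvd_card' hx) (e3 ▸ coprime_iff_not_dvd.2 hP.not_dvd)
  have hHc : ⁅H, H⁆ = ⊥ := eq_bot_iff.2 (e2 ▸ le_inf (comm_le_of_le le_rfl le_rfl)
    ((commutator_mono le_top le_top).trans hDP))
  have fin : ∀ L : Subgroup G, L.Normal → ⁅P, P⁆ ≤ L → ⁅P, H⁆ ≤ L →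
      ⁅(⊤ : Subgroup G), (⊤ : Subgroup G)⁆ ≤ L := by
    intro L _ a b
    have n := fun K : Subgroup G => le_nrm_of_normal K L
    rw [← e1]
    exact comm_sup_le (n _) (n _) (comm_sup_le' (n _) (n _) (hHc ▸ bot_le) (commutator_comm P H ▸ b))
      (comm_sup_le' (n _) (n _) b a)
  by_cases hc : ∀ x ∈ H, P ≤ cen1 x
  · refine (card_dvd_of_le (fin _ inferInstance le_rfl ?_)).trans
      (knoche hP.isPGroup fun x _ => h1 x)
    rw [comm_eq_bot'.2 fun x hx => le_cen1_iff.1 (hc x hx)]; exact bot_le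
  push Not at hc
  obtain ⟨x, hx, hx'⟩ := hc
  obtain ⟨a1, a2, a3⟩ := breadth_cop hP.isPGroup h1 (hH x hx) hx'
  have nL : ∀ y : G, (⁅P, zpowers y⁆ : Subgroup G).Normal := fun y => by
    haveI := nm (zpowers y ⊔ P) le_sup_right
    rw [commutator_comm, ← comm_sup_cen (isComm_iff.1 a1) (le_nrm_of_le_cen
      (le_cen_symm ((comm_le_right (le_nrm_of_normal _ _)).trans (isComm_iff.1 a1))))]
    infer_instance
  refine (card_dvd_of_le (fin _ (nL x) ?_ ?_)).trans a2.dvd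
  · rw [comm_eq_bot.2 (isComm_iff.1 a1)]; exact bot_le
  refine commutator_le.2 fun u hu y hy => ?_
  by_cases hy' : P ≤ cen1 y
  · rw [commutatorElement_eq_one_iff_mul_comm.2 (mem_cen1.1 (hy' hu))]; exact one_mem _
  obtain ⟨-, b2, b3⟩ := breadth_cop hP.isPGroup h1 (hH y hy) hy'
  suffices ⁅P, zpowers y⁆ ≤ ⁅P, zpowers x⁆ from this (commutator_mem_commutator hu (mem_zpowers y))
  by_contra hne
  set L := ⁅P, zpowers x⁆
  set L' := ⁅P, zpowers y⁆
  haveI := nL x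
  haveI := nL y
  have hLP : L ≤ P := comm_le_left (le_nrm_of_normal _ _)
  have hLP' : L' ≤ P := comm_le_left (le_nrm_of_normal _ _)
  have c0 : L ⊓ L' = ⊥ := by
    rcases (Nat.dvd_prime hp.out).1 (b2 ▸ card_dvd_of_le (inf_le_right : L ⊓ L' ≤ L')) with e | e
    · exact card_eq_one.1 e
    · exact absurd ((eq_of_le_of_card_le inf_le_right (b2.trans e.symm).le).ge.trans inf_le_left) hne
  have c1 : L ≤ cen1 y := by
    rw [← cen_zpowers, ← comm_eq_bot, eq_bot_iff, ← c0]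
    exact le_inf (comm_le_left (le_nrm_of_normal _ _)) (commutator_mono hLP le_rfl)
  have c2 : L' ≤ cen1 x := by
    rw [← cen_zpowers, ← comm_eq_bot, eq_bot_iff, ← c0]
    exact le_inf (commutator_mono hLP' le_rfl) (comm_le_left (le_nrm_of_normal _ _))
  have c3 : cen1 (x * y) ⊓ (L ⊔ L') = ⊥ := by
    rw [eq_bot_iff]
    intro w hw0
    obtain ⟨hw, hw'⟩ := mem_inf.1 hw0
    obtain ⟨a, ha, b, hb, rfl⟩ := (mem_sup_nrm (le_nrm_of_normal _ _)).1 hw'
    have d1 := mem_cen1.1 (c1 ha)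
    have d2 := mem_cen1.1 (c2 (Normal.conj_mem inferInstance b hb y))
    have d3 : a⁻¹ * (x * a * x⁻¹) = b * (y * b * y⁻¹)⁻¹ := by
      have d4 : x * y * (a * b) * (x * y)⁻¹ = a * b := by rw [← mem_cen1.1 hw]; group
      calc a⁻¹ * (x * a * x⁻¹)
          = a⁻¹ * (x * (a * y) * b * y⁻¹ * x⁻¹) * (x * (y * b * y⁻¹)⁻¹ * x⁻¹) := by group
        _ = a⁻¹ * (x * y * (a * b) * (x * y)⁻¹) * (x * (y * b * y⁻¹) * x⁻¹)⁻¹ := by rw [d1]; group
        _ = _ := by rw [d4, ← d2]; group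
    have d5 : a⁻¹ * (x * a * x⁻¹) ∈ L ⊓ L' := ⟨L.mul_mem (L.inv_mem ha) (Normal.conj_mem inferInstance a ha x),
      d3 ▸ L'.mul_mem hb (L'.inv_mem (Normal.conj_mem inferInstance b hb y))⟩
    rw [c0, mem_bot] at d5
    have d6 : a = 1 := mem_bot.1 (a3 ▸ ⟨ha, mem_cen1.2 (by
      rw [inv_mul_eq_one, eq_mul_inv_iff_mul_eq] at d5; exact d5)⟩)
    rw [d5, eq_comm, mul_inv_eq_one, eq_mul_inv_iff_mul_eq] at d3
    have d7 : b = 1 := mem_bot.1 (b3 ▸ ⟨hb, mem_cen1.2 d3⟩)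
    rw [d6, d7, mul_one]; exact one_mem _
  have c4 := relIndex_mul_card_inf (cen1 (x * y)) (L ⊔ L')
  rw [c3, card_bot, mul_one, card_sup_of_inf_eq_bot (le_nrm_of_normal _ _) c0, a2, b2] at c4
  exact h (x * y) (c4 ▸ relIndex_dvd_index_of_normal_right _ _)

theorem sqfree_quot (N : Subgroup G) [N.Normal] (h : ∀ x : G, Squarefree (cen1 x).index)
    (x : G ⧸ N) : Squarefree (cen1 x).index := by
  obtain ⟨x, rfl⟩ := QuotientGroup.mk'_surjective N x
  exact (h x).squarefree_of_dvd (H1B.index_cen1_map _ (QuotientGroup.mk'_surjective N) x)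

theorem ss_of_sqfree (G : Type u) [Group G] [Finite G] (h : ∀ x : G, Squarefree (cen1 x).index) :
    H1.SS G := by
  induction hn : Nat.card G using Nat.strong_induction_on generalizing G with | _ n ih => ?_
  subst hn
  rcases subsingleton_or_nontrivial G with h0 | h0
  · exact H1.ss_of_subsingleton
  haveI := solv_of_not_four G fun x hx => by simpa using h x 2 hx
  obtain ⟨N, hN⟩ := H1.exists_isMinNormal (G := G)
  haveI := hN.normal
  have h1 := ih _ (H1.card_quotient_lt hN.ne_bot) _ (sqfree_quot N h) rfl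
  refine H1.SS.of_quotient ?_ h1
  by_cases hC : cen N = ⊤
  · exact H1.ssTo_of_le_center (cen_top (G := G) ▸ le_cen_symm hC.ge)
  obtain ⟨h2, p, hp, hd, h3⟩ := hN.elementary
  haveI := Fact.mk hp
  haveI : Nontrivial (G ⧸ cen N) := QuotientGroup.nontrivial_iff.2 hC
  have h4 : H1.SS (G ⧸ cen N) := h1.of_surjective (f := QuotientGroup.map N (cen N) (MonoidHom.id G)
    (isComm_iff.1 h2)) fun x => by
      obtain ⟨x, rfl⟩ := QuotientGroup.mk_surjective x; exact ⟨x, rfl⟩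
  obtain ⟨L, hL, hL'⟩ := h4.exists_prime
  obtain ⟨y, hy, hy1⟩ := exists_ne_one (H := L) fun e => by simp [e] at hL'; exact Nat.not_prime_one hL'
  obtain ⟨x, rfl⟩ := QuotientGroup.mk_surjective y
  have h5 := eq_zpowers_of_dvd_prime hL' dvd_rfl hy hy1
  have h6 : L.comap (QuotientGroup.mk' (cen N)) = zpowers x ⊔ cen N := by
    rw [h5, ← QuotientGroup.mk'_apply, ← MonoidHom.map_zpowers, comap_map_eq, QuotientGroup.ker_mk']
  have h7 : N ⊓ cen (zpowers x ⊔ cen N) = N ⊓ cen1 x := by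
    rw [cen_sup, cen_zpowers, inf_comm (cen1 x), ← inf_assoc, inf_eq_left.2 (le_cen_symm le_rfl)]
  have h8 : (N ⊓ cen1 x).Normal := by rw [← h7, ← h6]; infer_instance
  have h9 : N ⊓ cen1 x = ⊥ := (hN.min _ h8 inf_le_left).resolve_right fun e =>
    hy1 ((QuotientGroup.eq_one_iff x).2 (le_cen1_iff.1 (e.ge.trans inf_le_right)))
  have h10 := relIndex_mul_card_inf (cen1 x) N
  rw [inf_comm, h9, card_bot, mul_one] at h10
  have h11 := (h x).squarefree_of_dvd (h10 ▸ relIndex_dvd_index_of_normal_right (cen1 x) N)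
  obtain ⟨k, hk⟩ := (isPGroup_iff_mem.2 fun a ha => ⟨1, by simpa using h3 a ha⟩ :
    IsPGroup p N).exists_card_eq
  refine H1.SSTo.of_card_prime ?_
  rw [hk] at h11 hd ⊢
  rcases k with _ | k
  · exact absurd (Nat.dvd_one.1 hd) hp.one_lt.ne'
  · rwa [((Nat.squarefree_pow_iff hp.one_lt.ne' (k := k + 1) (Nat.succ_ne_zero k)).1 h11).2, pow_one]

theorem sqfree_der (h : ∀ x : G, Squarefree (cen1 x).index) :
    Squarefree (ord (⁅(⊤ : Subgroup G), (⊤ : Subgroup G)⁆ : Subgroup G)) := by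
  rw [Nat.squarefree_iff_prime_squarefree]
  intro p hp hd
  haveI := Fact.mk hp
  set D : Subgroup G := ⁅(⊤ : Subgroup G), (⊤ : Subgroup G)⁆ with hD
  have hn : Group.IsNilpotent D := (ss_of_sqfree G h).isNilpotent_commutator
  haveI : (Op' p D).Normal := normal_iff_top_le_nrm.2 (nrm_Opi _ (le_nrm_of_normal _ _))
  have h1 : D.map (QuotientGroup.mk' (Op' p D)) =
      ⁅(⊤ : Subgroup (G ⧸ Op' p D)), (⊤ : Subgroup (G ⧸ Op' p D))⁆ := by
    exact (map_commutator _ _ _).trans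
      (by rw [map_top_of_surjective _ (QuotientGroup.mk'_surjective _)])
  have h2 : ord (D.map (QuotientGroup.mk' (Op' p D))) = (Op' p D).relIndex D := by
    rw [← relIndex_ker, QuotientGroup.ker_mk']
  have h3 := nilp_relIndex_Opi hn {p}ᶜ
  rw [compl_compl, piN_single_iff (relIndex_pos _ _).ne'] at h3
  obtain ⟨k, hk⟩ := h3
  have h4 := card_der_dvd (p := p) (h1 ▸ IsPGroup.of_card (h2.trans hk))
    fun x hx => hp.one_lt.ne' (Nat.isUnit_iff.1 (sqfree_quot _ h x p hx))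
  rw [← h1, h2] at h4
  rw [← relIndex_mul_card' (Opi_le {p}ᶜ D)] at hd
  have h5 := ((coprime_Op' p D).symm.mul_left (coprime_Op' p D).symm).dvd_of_dvd_mul_right hd
  have := Nat.le_of_dvd hp.pos (h5.trans h4)
  nlinarith [hp.one_lt]

end H8
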