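import Cfsg.Agent.H8.FC4
import Cfsg.Agent.H8.Frob
import Cfsg.Agent.H4.Small
import Cfsg.Agent.H9.BS

set_option autoImplicit false

namespace H8
open Subgroup Cfsg H7 H1B
open scoped MatrixGroups commutatorElement

variable {G : Type*} [Group G]

theorem mem_of_sq_not_dvd [Finite G] {K : Subgroup G} [K.Normal] {p : ℕ} (hp : p.Prime)
    (h1 : p ∣ Nat.card K) (h2 : ¬ p * p ∣ Nat.card G) {x : G} (hx : x ^ p = 1) : x ∈ K := by
  rw [← QuotientGroup.eq_one_iff, ← orderOf_eq_one_iff]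
  have d : orderOf (x : G ⧸ K) ∣ p :=
    orderOf_dvd_of_pow_eq_one (by rw [← QuotientGroup.mk_pow, hx, QuotientGroup.mk_one])
  refine ((Nat.dvd_prime hp).1 d).resolve_right fun e => h2 ?_
  rw [card_eq_card_quotient_mul_card_subgroup K]
  exact Nat.mul_dvd_mul (e ▸ orderOf_dvd_natCard _) h1

theorem sl25_inj {φ : SL(2, ZMod 5) →* G} (h : φ slA * φ slA ≠ 1) : Function.Injective φ := by
  obtain ⟨r1, r2, r3, -⟩ := sl_rel
  rw [← MonoidHom.ker_eq_bot_iff]
  by_contra hK
  obtain ⟨p, hp, hd⟩ := Nat.exists_prime_and_dvd (fun e => hK (card_eq_one.1 e))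
  have d := hd.trans (card_subgroup_dvd_card φ.ker)
  have a4 : φ slA ^ 4 = 1 := by
    rw [← map_pow, show slA ^ 4 = slA * slA * (slA * slA) by simp [pow_succ, mul_assoc], r1, map_one]
  have a3 : φ slA ^ 3 ≠ 1 := fun e => h (by
    rw [pow_succ, e, one_mul] at a4; rw [a4, one_mul])
  have b3 : φ slB ^ 3 = 1 := by rw [← map_pow, r2, map_one]
  have ab : (φ slA * φ slB) ^ 5 = φ slA ^ 2 := by rw [← map_mul, ← map_pow, r3, map_mul, sq]
  rw [card_sl25, show 120 = 2 ^ 3 * 3 * 5 by rfl, hp.dvd_mul, hp.dvd_mul,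
    Nat.prime_dvd_prime_iff_eq hp Nat.prime_three, Nat.prime_dvd_prime_iff_eq hp Nat.prime_five] at d
  rcases d with (d | rfl) | rfl
  · obtain rfl := (Nat.prime_dvd_prime_iff_eq hp Nat.prime_two).1 (hp.dvd_of_dvd_pow d)
    obtain ⟨t, ht⟩ := exists_prime_orderOf_dvd_card' 2 hd
    have := ord2.1 ((orderOf_coe t).trans ht)
    rcases H4.sl2_invol (by decide) this.1 with e | e
    · exact this.2 e
    · rw [← map_mul, show slA * slA = -1 by decide, ← e] at h
      exact h t.2
  · have : φ slB = 1 := mem_of_sq_not_dvd hp hd (by rw [card_sl25]; norm_num) r2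
    rw [this, mul_one] at ab
    exact a3 (mul_eq_left.1 ((pow_add _ 2 3).symm.trans ab))
  · have : φ ((slA * slB) ^ 2) = 1 := mem_of_sq_not_dvd hp hd (by rw [card_sl25]; norm_num)
      (by rw [← pow_mul, mul_comm 2 5, pow_mul, r3, sq, r1])
    rw [map_pow, map_mul] at this
    replace ab : (φ slA * φ slB) ^ (2 * 2 + 1) = φ slA ^ 2 := ab
    rw [pow_succ, pow_mul, this, one_pow, one_mul, sq, mul_right_inj] at ab
    exact a3 (ab ▸ b3)

theorem solv_of_dvd_120 [Finite G] (h : Nat.card G ∣ 120) (h1 : Nat.card G ≠ 60)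
    (h2 : Nat.card G ≠ 120) : Group.IsSolvable G := by
  by_cases e : Nat.card G = 30
  · haveI := IsZGroup.of_squarefree (G := G) (by rw [e]; decide +kernel)
    infer_instance
  have : Nat.card G ∣ 2 ^ 3 * 3 ^ 1 ∨ Nat.card G ∣ 2 ^ 3 * 5 ^ 1 ∨ Nat.card G ∣ 3 ^ 1 * 5 ^ 1 := by
    have := Nat.le_of_dvd (by norm_num) h
    generalize Nat.card G = n at *
    interval_cases n <;> omega
  rcases this with d | d | d
  · exact H3.burnside_pq Nat.prime_two Nat.prime_three d
  · exact H3.burnside_pq Nat.prime_two Nat.prime_five d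
  · exact H3.burnside_pq Nat.prime_three Nat.prime_five d

theorem a5_of_sixty [Finite G] (h : Nat.card G = 60) (hs : ¬ Group.IsSolvable G) :
    Nonempty (G ≃* alternatingGroup (Fin 5)) := by
  haveI : Nontrivial G := Finite.one_lt_card_iff_nontrivial.1 (by omega)
  haveI : IsSimpleGroup G := ⟨fun N hN => by
    by_contra! hne
    have e := card_eq_card_quotient_mul_card_subgroup N
    have n1 : Nat.card N ≠ 1 := fun e => hne.1 (card_eq_one.1 e)
    have n2 : Nat.card (G ⧸ N) ≠ 1 := fun e => hne.2 (index_eq_one.1 e)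
    rw [h] at e
    have p1 : 0 < Nat.card N := Nat.card_pos
    have p2 : 0 < Nat.card (G ⧸ N) := Nat.card_pos
    haveI := solv_of_dvd_120 (G := N) ((Dvd.intro_left _ e.symm).trans (by norm_num))
      (fun e' => n2 (by rw [e'] at e; omega)) (fun e' => by rw [e'] at e; omega)
    haveI := solv_of_dvd_120 (G := G ⧸ N) ((Dvd.intro _ e.symm).trans (by norm_num))
      (fun e' => n1 (by rw [e'] at e; omega)) (fun e' => by rw [e'] at e; omega)
    exact hs (Group.isSolvable_of_ker_le_range N.subtype (QuotientGroup.mk' N) (by simp))⟩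
  exact H4.equiv_alt5_of_simple h

theorem sl25_of_ui [Finite G] (h : Nat.card G = 120) (hs : ¬ Group.IsSolvable G)
    (ui : H9.UI (⊤ : Subgroup G)) : Nonempty (G ≃* SL(2, ZMod 5)) := by
  have hO : pPrimeCore 2 G = ⊥ := H9.pPrimeCore_two_eq_bot fun N hN ho => by
    by_contra hne
    have e := card_eq_card_quotient_mul_card_subgroup N
    have n1 : Nat.card N ≠ 1 := fun e => hne (card_eq_one.1 e)
    rw [h] at e
    haveI := solv_of_dvd_120 (G := N) (Dvd.intro_left _ e.symm)
      (fun e' => absurd (e' ▸ ho) (by decide)) (fun e' => absurd (e' ▸ ho) (by decide))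
    haveI := solv_of_dvd_120 (G := G ⧸ N) (Dvd.intro _ e.symm)
      (fun e' => by rw [e'] at e; rw [show Nat.card N = 2 by omega] at ho; exact absurd ho (by decide))
      (fun e' => n1 (by rw [e'] at e; omega))
    exact hs (Group.isSolvable_of_ker_le_range N.subtype (QuotientGroup.mk' N) (by simp))
  have cz : ∀ z : G, z * z = 1 → z ∈ Z2 G := fun z hz => ⟨mem_center_iff.2 fun g => by
    have := H9.brauer_suzuki ui (z := z) (by rwa [sq]) g
    rw [hO, mem_bot, mul_inv_eq_one, mul_inv_eq_iff_eq_mul] at this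
    exact this.symm, hz⟩
  obtain ⟨z, hz⟩ := exists_prime_orderOf_dvd_card' (G := G) 2 (by rw [h]; norm_num)
  have u : ∀ t : G, t * t = 1 → t = 1 ∨ t = z := fun t ht => or_iff_not_imp_left.2 fun t1 =>
    ui t trivial z trivial t1 (ord2.1 hz).2 (by rwa [sq]) (by rw [sq]; exact (ord2.1 hz).1)
      (mem_center_iff.1 (cz z (ord2.1 hz).1).1 t)
  have cZ : Nat.card (Z2 G) = 2 := by
    rw [le_antisymm (fun x hx => by
      rcases u x hx.2 with rfl | rfl
      exacts [one_mem _, mem_zpowers _]) (zpowers_le.2 (cz z (ord2.1 hz).1)), Nat.card_zpowers, hz]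
  have e := card_eq_card_quotient_mul_card_subgroup (Z2 G)
  rw [h, cZ] at e
  haveI := solv_of_dvd_120 (G := Z2 G) (by rw [cZ]; norm_num) (by omega) (by omega)
  obtain ⟨f⟩ := a5_of_sixty (G := G ⧸ Z2 G) (by omega) fun _ =>
    hs (Group.isSolvable_of_ker_le_range (Z2 G).subtype (pz G) (by simp))
  obtain ⟨r1, r2, r3⟩ := H4.a5_rel
  obtain ⟨b, b3, hb⟩ := lift_three (y := f.symm H4.a5b) (by
    rw [MulEquiv.orderOf_eq]; exact orderOf_eq_prime r2 (by decide))
  have key : ∀ a : G, pz G a = f.symm H4.a5a → a * a = z := fun a ha =>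
    (u _ (pz_eq_one.1 (by rw [map_mul, ha, ← map_mul, r1, map_one])).2).resolve_left fun e => by
      rw [pz_eq_one.2 (cz a e), eq_comm, EmbeddingLike.map_eq_one_iff] at ha
      exact absurd ha (by decide)
  obtain ⟨a, ha, a5⟩ : ∃ a, pz G a = f.symm H4.a5a ∧ (a * b) ^ 5 = z := by
    obtain ⟨a, ha⟩ := QuotientGroup.mk'_surjective _ (f.symm H4.a5a)
    have zZ := cz z (ord2.1 hz).1
    rcases u ((a * b) ^ 5) (pz_eq_one.1 (by
      rw [map_pow, map_mul, ha, hb, ← map_mul, ← map_pow, r3, map_one])).2 with e | e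
    · refine ⟨z * a, by rw [map_mul, pz_eq_one.2 zZ, one_mul, ha], ?_⟩
      rw [mul_assoc, Commute.mul_pow (mem_center_iff.1 zZ.1 _).symm, e, mul_one,
        show 5 = 2 * 2 + 1 by rfl, pow_succ, pow_mul, sq z, zZ.2, one_pow, one_mul]
    · exact ⟨a, ha, e⟩
  have a2 := key a ha
  obtain ⟨φ, p1, -⟩ := exists_hom_sl25 (a := a) (b := b) (by rw [a2]; exact (ord2.1 hz).1)
    (by rw [← b3, pow_orderOf_eq_one]) (a5.trans a2.symm)
    (by rw [a2]; exact (mem_center_iff.1 (cz z (ord2.1 hz).1).1 b).symm)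
  exact ⟨(MulEquiv.ofBijective φ ((sl25_inj (by rw [p1, a2]; exact (ord2.1 hz).2)).bijective_of_nat_card_le
    (by rw [h, card_sl25]))).symm⟩

instance fact11 : Fact (Nat.Prime 11) := ⟨by norm_num⟩

theorem frob_sl25 : ∃ (L : Type) (_ : Group L) (_ : Finite L) (C : Subgroup L),
    IsFrobeniusComplement C ∧ Nonempty (SL(2, ZMod 5) ≃* C) ∧ Nat.card (frobeniusKernel C) = 121 := by
  obtain ⟨φ, p1, -⟩ := exists_hom_sl25 (G := SL(2, ZMod 11))
    (a := ⟨!![0, 10; 1, 0], by rw [Matrix.det_fin_two_of]; decide⟩)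
    (b := ⟨!![0, 8; 4, 10], by rw [Matrix.det_fin_two_of]; decide⟩) (by decide) (by decide)
    (by decide) (by decide)
  have hi := sl25_inj (φ := φ) (by rw [p1]; decide)
  haveI : Nontrivial SL(2, ZMod 5) := ⟨⟨_, _, sl_rel.2.2.2.2.1⟩⟩
  have := exists_frob_of_matrix ((Matrix.SpecialLinearGroup.coeMonoidHom).comp φ) fun g v e => by
    refine or_iff_not_imp_right.2 fun v0 => hi ?_
    have d : ((φ g).1 - 1).det = 0 := Matrix.exists_mulVec_eq_zero_iff.1
      ⟨v, v0, by rw [Matrix.sub_mulVec, Matrix.one_mulVec, sub_eq_zero]; exact e⟩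
    have s : ((φ g).1 - 1) ^ 2 = 0 := by
      have d1 := (φ g).2
      rw [Matrix.det_fin_two] at d d1
      ext i j
      fin_cases i <;> fin_cases j <;> simp [sq, Matrix.mul_apply] at d ⊢
      · linear_combination -d + ((φ g).1 0 0 - 1) * (d1 - d)
      · linear_combination ((φ g).1 0 1) * (d1 - d)
      · linear_combination ((φ g).1 1 0) * (d1 - d)
      · linear_combination -d + ((φ g).1 1 1 - 1) * (d1 - d)
    have e11 : φ g ^ 11 = 1 := Subtype.ext (by
      have := sub_pow_char_of_commute (p := 11) (Commute.one_right (φ g).1)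
      rw [(pow_add _ 2 9).trans (by rw [s, zero_mul]), one_pow, eq_comm, sub_eq_zero] at this
      simpa using this)
    rw [map_one, ← orderOf_eq_one_iff]
    refine Nat.eq_one_of_dvd_coprimes (by norm_num : Nat.Coprime 11 120)
      (orderOf_dvd_of_pow_eq_one e11) ?_
    rw [orderOf_injective φ hi, ← card_sl25]
    exact orderOf_dvd_natCard g
  simpa using this

end H8
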