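import Cfsg.Agent.H8.FC6
import Cfsg.Agent.H8.Frob
import Cfsg.Agent.H8.Spectrum

set_option autoImplicit false

namespace H8
open Subgroup Cfsg H7 H1B

variable {G : Type*} [Group G]

theorem frob_of_mulAut [Finite G] [Nontrivial G] {K : Type*} [Group K] [Finite K] [Nontrivial K]
    (φ : G →* MulAut K) (hf : ∀ g k, φ g k = k → g = 1 ∨ k = 1) :
    ∃ (L : Type) (_ : Group L) (_ : Finite L) (H : Subgroup L), IsFrobeniusComplement H ∧
      Nonempty (G ≃* H) := by
  obtain ⟨G', _, _, ⟨e⟩⟩ := exists_type0_equiv G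
  obtain ⟨K', _, _, ⟨f⟩⟩ := exists_type0_equiv K
  haveI := e.symm.injective.nontrivial
  haveI := f.symm.injective.nontrivial
  obtain ⟨C, h1, ⟨h2⟩, -⟩ := exists_frob_of_mulAut
    ((MulAut.congr f.symm).toMonoidHom.comp (φ.comp e.toMonoidHom)) fun g k h =>
      (hf (e g) (f k) (f.symm_apply_eq.1 h)).imp (EmbeddingLike.map_eq_one_iff.1)
        (EmbeddingLike.map_eq_one_iff.1)
  exact ⟨_, inferInstance, Finite.of_equiv _ SemidirectProduct.equivProd.symm, C, h1,
    ⟨e.symm.trans h2⟩⟩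

theorem frob_sub {A : Type*} [Group A] [Finite A] [Nontrivial A]
    (h : ∃ (L : Type) (_ : Group L) (_ : Finite L) (H : Subgroup L), IsFrobeniusComplement H ∧
      Nonempty (G ≃* H)) (f : A →* G) (hf : Function.Injective f) :
    ∃ (L : Type) (_ : Group L) (_ : Finite L) (H : Subgroup L), IsFrobeniusComplement H ∧
      Nonempty (A ≃* H) := by
  obtain ⟨L, _, _, H, hH, ⟨e⟩⟩ := h
  obtain ⟨N, hN, hn, hc⟩ := H1.FrobC.exists_kernel hH
  haveI : Nontrivial N := (nontrivial_iff_ne_bot _).2 fun e => hH.2.1 (by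
    rw [← hc.sup_eq_top, e, bot_sup_eq])
  refine frob_of_mulAut ((MulAut.conjNormal (H := N)).comp (H.subtype.comp (e.toMonoidHom.comp f)))
    fun g k h => (fpf_of_frob hH (e (f g)).2 (hN ▸ k.2)
      (mul_inv_eq_iff_eq_mul.1 (congrArg Subtype.val h))).imp (fun h => hf (e.injective ?_))
        Subtype.ext
  rw [map_one, map_one]; exact Subtype.ext h

/-- Reduction modulo `q` of a fixed-point-free representation. -/
theorem frob_of_ring [Finite G] [Nontrivial G] {R : Type*} [Ring R] (ρ : G →* R)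
    (hf : ∀ g, g ≠ 1 → ∀ x, ρ g * x = x → x = 0) {q : ℕ} (hq : q.Coprime (Nat.card G))
    (h1 : ∀ r : ℤ, (q : ℤ) ∣ r - 1 → (r : R) ≠ 0) :
    ∃ (L : Type) (_ : Group L) (_ : Finite L) (H : Subgroup L), IsFrobeniusComplement H ∧
      Nonempty (G ≃* H) := by
  let σ : Representation ℤ G R := (Algebra.lmul ℤ R).toMonoidHom.comp ρ
  let M := Submodule.span ℤ (Set.range ρ)
  let σ₁ := σ.subrepresentation M fun g => Submodule.span_le.2 (by
    rintro _ ⟨x, rfl⟩
    exact Submodule.subset_span ⟨g * x, map_mul ρ g x⟩)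
  let N : Submodule ℤ M := Ideal.span {(q : ℤ)} • ⊤
  have hN : ∀ x, x ∈ N ↔ ∃ y, (q : ℤ) • y = x := fun x => by
    simp [N, Submodule.ideal_span_singleton_smul, Submodule.mem_smul_pointwise_iff_exists]
  let σ₂ := σ₁.quotient N fun g x hx => by
    obtain ⟨y, rfl⟩ := (hN x).1 hx
    exact (hN _).2 ⟨σ₁ g y, (map_smul _ _ _).symm⟩
  haveI : Module.Finite ℤ M := Module.Finite.span_of_finite _ (Set.finite_range ρ)
  have q0 : q ≠ 0 := by
    rintro rfl
    exact Finite.one_lt_card.ne' ((Nat.coprime_zero_left _).1 hq)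
  have tq : ∀ v : M ⧸ N, (q : ℤ) • v = 0 := fun v => by
    obtain ⟨y, rfl⟩ := N.mkQ_surjective v
    rw [← map_smul]; exact (Submodule.Quotient.mk_eq_zero _).2 ((hN _).2 ⟨y, rfl⟩)
  haveI : Finite (M ⧸ N) := Module.finite_of_fg_torsion _ fun v =>
    ⟨⟨q, mem_nonZeroDivisors_of_ne_zero (by exact_mod_cast q0)⟩, tq v⟩
  haveI : Nontrivial (M ⧸ N) := Submodule.Quotient.nontrivial_iff.2 fun e => by
    obtain ⟨r, r1, r2⟩ := Submodule.exists_sub_one_mem_and_smul_eq_zero_of_fg_of_le_smul _ ⊤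
      Module.Finite.fg_top e.ge
    have := congrArg Subtype.val (r2 ⟨1, Submodule.subset_span ⟨1, map_one ρ⟩⟩ trivial)
    exact h1 r (Ideal.mem_span_singleton.1 r1) (by simpa using this)
  let φ : G →* MulAut (Multiplicative (M ⧸ N)) :=
    { toFun := fun g => AddEquiv.toMultiplicative
        (LinearMap.GeneralLinearGroup.toLinearEquiv (σ₂.toHomUnits g)).toAddEquiv
      map_one' := by ext v; simp
      map_mul' := fun a b => by ext v; simp }
  refine frob_of_mulAut φ fun g k h => or_iff_not_imp_left.2 fun g1 => ?_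
  replace h : σ₂ g k.toAdd = k.toAdd := congrArg Multiplicative.toAdd h
  obtain ⟨y, hy⟩ := N.mkQ_surjective k.toAdd
  have s0 : ∑ i ∈ Finset.range (orderOf g), ρ (g ^ i) = 0 := hf g g1 _ (by
    have := mul_geom_sum (ρ g) (orderOf g)
    rw [← map_pow, pow_orderOf_eq_one, map_one, sub_self, sub_mul, one_mul, sub_eq_zero] at this
    simpa using this)
  have s1 : ∑ i ∈ Finset.range (orderOf g), σ₁ (g ^ i) y = 0 := Subtype.ext (by
    rw [Submodule.coe_sum]
    exact (Finset.sum_mul _ _ y.1).symm.trans (by rw [s0, zero_mul]; rfl))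
  have s2 : ∀ i : ℕ, N.mkQ (σ₁ (g ^ i) y) = k.toAdd := fun i => by
    have : σ₂ (g ^ i) k.toAdd = k.toAdd := by
      rw [map_pow, Module.End.pow_apply]; exact Function.iterate_fixed h i
    rw [← this, ← hy]; rfl
  have s3 := congrArg N.mkQ s1
  rw [map_sum, Finset.sum_congr rfl fun i _ => s2 i, Finset.sum_const, Finset.card_range,
    map_zero] at s3
  exact orderOf_eq_one_iff.1 (Nat.eq_one_of_dvd_coprimes (hq.of_dvd_right (orderOf_dvd_natCard g))
    (orderOf_dvd_of_pow_eq_one (congrArg Multiplicative.ofAdd (by simpa using tq k.toAdd)))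
    (orderOf_dvd_of_pow_eq_one (congrArg Multiplicative.ofAdd s3)))

theorem frob_of_charZero [Finite G] [Nontrivial G] {R : Type*} [Ring R] [CharZero R] (ρ : G →* R)
    (hf : ∀ g, g ≠ 1 → ∀ x, ρ g * x = x → x = 0) :
    ∃ (L : Type) (_ : Group L) (_ : Finite L) (H : Subgroup L), IsFrobeniusComplement H ∧
      Nonempty (G ≃* H) :=
  frob_of_ring ρ hf (q := Nat.card G + 1) (by simp) fun r hr e => by
    rw [Int.cast_eq_zero.1 e, zero_sub, dvd_neg, Int.natCast_dvd_ofNat, Nat.dvd_one] at hr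
    exact Nat.card_pos.ne' (Nat.add_eq_right.1 hr)

theorem isSquare_card_of_quat (n : ℕ) : ∀ (A : Type*) [AddCommGroup A] [Finite A], Nat.card A = n →
    Odd n → ∀ I J : A →+ A, (∀ x, I (I x) = -x) → (∀ x, J (J x) = -x) →
    (∀ x, I (J x) = -J (I x)) → IsSquare n := by
  induction n using Nat.strong_induction_on with
  | _ n ih =>
  intro A _ _ hA ho I J hI hJ hIJ
  have sub : ∀ B : AddSubgroup A, (∀ x ∈ B, I x ∈ B) → (∀ x ∈ B, J x ∈ B) → Nat.card B < n →
      IsSquare (Nat.card B) := fun B h1 h2 h3 =>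
    ih _ h3 B rfl (ho.of_dvd_nat (hA ▸ B.card_addSubgroup_dvd_card))
      ((I.comp B.subtype).codRestrict B fun x => h1 x x.2)
      ((J.comp B.subtype).codRestrict B fun x => h2 x x.2) (fun x => Subtype.ext (hI x))
      (fun x => Subtype.ext (hJ x)) fun x => Subtype.ext (hIJ x)
  have cd : ∀ f : A →+ A, n = Nat.card f.ker * Nat.card f.range := fun f => by
    rw [← hA, ← f.ker.card_mul_index, AddSubgroup.index_ker]
  by_cases n1 : n = 1
  · simp [n1]
  obtain ⟨p, hp, hd⟩ := Nat.exists_prime_and_dvd n1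
  haveI := Fact.mk hp
  let f : A →+ A := nsmulAddMonoidHom p
  have n0 : 0 < n := ho.pos
  by_cases hf : f.range = ⊥
  · have p0 : ∀ x : A, (p : ℤ) • x = 0 := fun x => by
      rw [natCast_zsmul]; exact AddSubgroup.mem_bot.1 (hf.le ⟨x, rfl⟩)
    obtain ⟨a, b, e⟩ := ZMod.sq_add_sq p (-1)
    obtain ⟨a, rfl⟩ := ZMod.intCast_surjective a
    obtain ⟨b, rfl⟩ := ZMod.intCast_surjective b
    obtain ⟨c, hc⟩ : (p : ℤ) ∣ a ^ 2 + b ^ 2 + 1 :=
      (ZMod.intCast_zmod_eq_zero_iff_dvd _ _).1 (by push_cast; rw [e]; ring)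
    let u : A →+ A := a • I + b • J
    have hu : ∀ x, u x = a • I x + b • J x := fun x => rfl
    have uu : ∀ x, u (u x) = x := fun x => by
      have := congrArg (c • ·) (p0 x)
      simp only [smul_smul, mul_comm c, ← hc, smul_zero] at this
      simp only [hu, map_add, map_zsmul, hI, hJ, hIJ]
      linear_combination (norm := module) -this
    have uk : ∀ x, u (I (J x)) = -I (J (u x)) := fun x => by
      simp only [hu, map_add, map_zsmul, hI, hJ, hIJ, map_neg]
      module
    have kk : ∀ x, I (J (I (J x))) = -x := fun x => by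
      rw [hIJ x, map_neg, map_neg, hJ, map_neg, hI]; simp
    let g : A →+ A := u - AddMonoidHom.id A
    have two : ∀ x : A, ∃ y, 2 • y = x := fun x => by
      obtain ⟨m, hm⟩ := ho
      refine ⟨(m + 1) • x, ?_⟩
      rw [smul_smul, show 2 * (m + 1) = n + 1 by omega, succ_nsmul, ← hA, card_nsmul_eq_zero', zero_add]
    have e : Nat.card g.ker = Nat.card g.range := by
      refine le_antisymm (Nat.card_le_card_of_injective (fun x => ⟨I (J x), ?_⟩) fun x y e => ?_)
        (Nat.card_le_card_of_injective (fun x => ⟨I (J x), ?_⟩) fun x y e => ?_)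
      · obtain ⟨y, hy⟩ := two (-x)
        have h1 : u x = x := sub_eq_zero.1 x.2
        have h2 : u y = y := by
          obtain ⟨z, hz⟩ := two y
          obtain ⟨m, hm⟩ := ho
          have h3 : 2 • (u y - y) = 0 := by rw [smul_sub, ← map_nsmul, hy, map_neg, h1, sub_self]
          have h4 : n • (u y - y) = 0 := hA ▸ card_nsmul_eq_zero'
          rwa [hm, succ_nsmul, mul_comm, mul_nsmul', h3, smul_zero, zero_add, sub_eq_zero] at h4
        refine ⟨I (J y), ?_⟩
        show u _ - I (J y) = _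
        rw [uk, h2, ← neg_neg (x : A), ← hy]
        simp only [map_neg, map_nsmul]; module
      · have := congrArg (fun z : g.range => I (J z)) e
        simpa [kk] using this
      · obtain ⟨_, y, rfl⟩ := x
        show u (I (J (u y - y))) - I (J (u y - y)) = 0
        rw [uk, map_sub u, uu]
        simp only [map_sub]; abel
      · have := congrArg (fun z : g.ker => I (J z)) e
        simpa [kk] using this
    exact ⟨_, (cd g).trans (by rw [← e])⟩
  have k1 : Nat.card f.ker ≠ 1 := fun e => by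
    obtain ⟨x, hx⟩ := exists_prime_addOrderOf_dvd_card' (G := A) p (hA ▸ hd)
    have : x ∈ f.ker := show p • x = 0 from hx ▸ addOrderOf_nsmul_eq_zero x
    rw [AddSubgroup.card_eq_one.1 e, AddSubgroup.mem_bot] at this
    rw [this, addOrderOf_zero] at hx
    exact hp.one_lt.ne hx
  have k2 : Nat.card f.range ≠ 1 := fun e => hf (AddSubgroup.card_eq_one.1 e)
  have e := cd f
  have p1 : 0 < Nat.card f.ker := Nat.card_pos
  have p2 : 0 < Nat.card f.range := Nat.card_pos
  rw [e]
  refine (sub _ (fun x hx => ?_) (fun x hx => ?_) ?_).mul (sub _ ?_ ?_ ?_)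
  · show p • I x = 0
    rw [← map_nsmul, show p • x = 0 from hx, map_zero]
  · show p • J x = 0
    rw [← map_nsmul, show p • x = 0 from hx, map_zero]
  · rw [e]; exact lt_mul_of_one_lt_right p1 (by omega)
  · rintro _ ⟨x, rfl⟩; exact ⟨I x, (map_nsmul I p x).symm⟩
  · rintro _ ⟨x, rfl⟩; exact ⟨J x, (map_nsmul J p x).symm⟩
  · rw [e]; exact lt_mul_of_one_lt_left p2 (by omega)

end H8
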