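import Mathlib
import Cfsg.Agent.H2.NPC
import Cfsg.Agent.H7.FTc
import Cfsg.Agent.H1.Gaschutz

/-! Coprime action with all proper invariant subgroups nilpotent. -/

set_option autoImplicit false

namespace H8
open Subgroup H7
open scoped commutatorElement

universe u

theorem npc_of_nilp' {G : Type*} [Group G] [Finite G] {p : ℕ} [Fact p.Prime] {H : Subgroup G}
    (h : Group.IsNilpotent H) : H2.NPC p H := by
  have h1 := nilp_relIndex_Opi h {p}ᶜ
  rw [compl_compl] at h1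
  exact H2.npc_iff.2 (coprime_of_le (pRes_le_of_piN (le_nrm_Opi _ _) h1) (coprime_Op' p H))

theorem inv_schmidt_solv (n : ℕ) : ∀ (G : Type u) [Group G] [Finite G] (A K : Subgroup G),
    ord K = n → A ≤ nrm K → (ord A).Coprime (ord K) →
    (∀ L < K, A ≤ nrm L → Group.IsNilpotent L) → Group.IsSolvable K := by
  induction n using Nat.strong_induction_on with | _ n ih => ?_
  intro G _ _ A K hn hA hc h
  by_cases h1 : ∃ N, N ≠ ⊥ ∧ N < K ∧ A ≤ nrm N ∧ K ≤ nrm N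
  · obtain ⟨N, a, b, c, d⟩ := h1
    haveI := h N b c
    have e : K ⊓ kr (qm N) = N := by rw [kr_qm, inf_eq_right.2 b.le]
    refine solv_of_im d (ih _ (hn ▸ card_im_lt d (e.symm ▸ a)) _ (im (qm N) A) _ rfl
      (im_le_nrm _ hA) ((hc.coprime_dvd_left (card_im_dvd _ _)).coprime_dvd_right
        (card_im_dvd _ _)) fun L hL hAL => ?_) (e.symm ▸ inferInstance)
    have h2 : im (qm N) (K ⊓ pre (qm N) L) = L := by rw [im_inf_pre, inf_eq_right.2 hL.le]
    rw [← h2]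
    refine nilp_im _ (h _ (lt_of_le_of_ne inf_le_left fun e' => hL.ne ?_)
      (nrm_inf hA (le_nrm_pre c hAL)))
    rw [← h2, e']
  push Not at h1
  have pg : ∀ p, p.Prime → IsPGroup p K → Group.IsSolvable K := fun p hp h => by
    haveI := Fact.mk hp; haveI := h.isNilpotent; infer_instance
  by_cases h2 : IsPGroup 2 K
  · exact pg 2 Nat.prime_two h2
  obtain ⟨p, hp, hd, hp2⟩ : ∃ p, p.Prime ∧ p ∣ ord K ∧ p ≠ 2 := by
    by_contra hh
    push Not at hh
    haveI := Fact.mk Nat.prime_two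
    obtain ⟨k, hk⟩ := (piN_single_iff (p := 2) (card_pos' K).ne').1 hh
    exact h2 (IsPGroup.of_card hk)
  haveI := Fact.mk hp
  obtain ⟨P, hP, hAP⟩ := (cop_ft hA hc).exists_syl p
  have hZ : A ≤ nrm (Cfsg.centerThompsonOf 0 P) := H2.nrm_ZJ hAP
  have hZ1 := H2.ZJ_ne_bot (Or.inl rfl) hP.isPGroup (syl_ne_bot hP hd)
  by_cases h3 : K ≤ nrm (Cfsg.centerThompsonOf 0 P)
  · have := ((H2.ZJ_le P).trans hP.le).eq_or_lt.resolve_right fun h4 => h1 _ hZ1 h4 hZ h3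
    exact pg p hp (this ▸ hP.isPGroup.to_le (H2.ZJ_le P))
  have h4 := H2.glauberman_thompson hp2 (Or.inl rfl) hP (npc_of_nilp' (h _
    (inf_lt_left.2 h3) (nrm_inf hA (nrm_nrm hZ))))
  by_cases h5 : pRes p K = ⊥
  · have h6 := piN_relIndex_pRes (p := p) K
    rw [h5, relIndex_bot_left, piN_single_iff (card_pos' K).ne'] at h6
    obtain ⟨k, hk⟩ := h6
    exact pg p hp (IsPGroup.of_card hk)
  have h6 := (H2.pRes_le (p := p) K).eq_or_lt.resolve_right fun h6 =>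
    h1 _ h5 h6 (le_nrm_pRes hA) (le_nrm_pRes (le_nrm_self K))
  exact absurd hd (coprime_iff_not_dvd.1 (h6 ▸ H2.npc_iff.1 h4))

theorem inv_schmidt {G : Type*} [Group G] [Finite G] {A K : Subgroup G} (hA : A ≤ nrm K)
    (hc : (ord A).Coprime (ord K)) (h : ∀ L < K, A ≤ nrm L → Group.IsNilpotent L)
    (hK : ¬ Group.IsNilpotent K) : Group.IsSolvable K ∧
      (∃ p q a b : ℕ, p.Prime ∧ q.Prime ∧ p ≠ q ∧ ord K = p ^ a * q ^ b) ∧
      ∃ p P, p.Prime ∧ p ∣ ord K ∧ IsSylowIn p P K ∧ K ≤ nrm P := by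
  have hs := inv_schmidt_solv _ G A K rfl hA hc h
  have hC := cop_ft hA hc
  obtain ⟨p, q, hp, hq, hpq, h1⟩ : ∃ p q, p.Prime ∧ q.Prime ∧ p ≠ q ∧ PiN {p, q} (ord K) := by
    by_contra hh
    push Not at hh
    refine hK (nilp_of_sylow_normal fun p hp P hP => ?_)
    haveI := Fact.mk hp
    obtain ⟨P₀, hP₀, hAP⟩ := hC.exists_syl p
    suffices K ≤ nrm P₀ by
      obtain ⟨g, hg, rfl⟩ := hP₀.exists_cj_eq hP
      rwa [cj_of_mem_nrm (this hg)]
    refine le_of_sylows_le fun q hq _ => ?_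
    by_cases e : p = q
    · exact ⟨P₀, e ▸ hP₀, le_nrm_self _⟩
    haveI := Fact.mk hq
    obtain ⟨H, hH, hAH, hPH⟩ := hC.exists_hall_ge (π := {p, q}) hs hP₀.le hAP
      fun r hr hd => Or.inl (((piN_single_iff (card_pos' _).ne').2 hP₀.isPGroup.exists_card_eq) r hr hd)
    have hn := h H (lt_of_le_of_ne hH.le fun e' => hh p q hp hq e (e' ▸ hH.2)) hAH
    obtain ⟨Q, hQ⟩ := H2.exists_isSylowIn q H
    exact ⟨Q, hH.syl (Or.inr rfl) hQ, le_nrm_of_le_cen (nilp_cen_of_coprime hn hQ.le hPH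
      (IsPGroup.coprime_card_of_ne q p (Ne.symm e) _ _ hQ.isPGroup hP₀.isPGroup))⟩
  haveI := Fact.mk hp
  haveI := Fact.mk hq
  obtain ⟨P, hP, hAP⟩ := hC.exists_syl p
  obtain ⟨Q, hQ, hAQ⟩ := hC.exists_syl q
  obtain ⟨a, ha⟩ := hP.isPGroup.exists_card_eq
  obtain ⟨b, hb⟩ := (piN_single_iff (p := q) (relIndex_pos P K).ne').1 fun r hr hd =>
    (h1 r hr (hd.trans (relIndex_dvd_card' _ _))).resolve_left fun e => hP.not_dvd (e ▸ hd)
  have h2 : ord K = p ^ a * q ^ b := by rw [← relIndex_mul_card' hP.le, ha, hb, mul_comm]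
  refine ⟨hs, ⟨p, q, a, b, hp, hq, hpq, h2⟩, ?_⟩
  have key : ∀ (r : ℕ) [Fact r.Prime] (R : Subgroup G), IsSylowIn r R K → A ≤ nrm R →
      R ⊔ ⁅K, K⁆ ≠ K → K ≤ nrm R := fun r _ R hR hAR hne => by
    have h3 : R ⊔ ⁅K, K⁆ ≤ K := sup_le hR.le (comm_le_of_le le_rfl le_rfl)
    have hn := h _ (lt_of_le_of_ne h3 hne) (nrm_sup hAR (nrm_commutator hA hA))
    rw [← (nilp_sylow_Op hn).eq_of_le hR.isPGroup (Op_le_of_sylow (hR.mono le_sup_left h3))
      le_sup_left |>.symm]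
    exact nrm_Opi _ (le_nrm_of_comm_le' h3 le_sup_right)
  have hK0 : K ≠ ⊥ := fun e => hK (e ▸ inferInstance)
  by_cases h3 : P ⊔ ⁅K, K⁆ = K
  · by_cases h4 : Q ⊔ ⁅K, K⁆ = K
    · have n := fun R : Subgroup G => fun hR : R ≤ K =>
        relIndex_sup_nrm (hR.trans (nrm_commutator (le_nrm_self K) (le_nrm_self K)))
      have e1 := n P hP.le
      have e2 := n Q hQ.le
      rw [h3] at e1; rw [h4] at e2
      exact absurd (relIndex_eq_one.1 (Nat.eq_one_of_dvd_coprimes (IsPGroup.coprime_card_of_ne p q hpq _ _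
        hP.isPGroup hQ.isPGroup) (e1 ▸ relIndex_dvd_card' _ _) (e2 ▸ relIndex_dvd_card' _ _))) (solv_comm_lt hs hK0).not_ge
    · refine ⟨q, Q, hq, ?_, hQ, key q Q hQ hAQ h4⟩
      rcases b with _ | b
      · exact absurd (IsPGroup.of_card (p := p) (n := a) (by simpa using h2)).isNilpotent hK
      · rw [h2]; exact ⟨p ^ a * q ^ b, by ring⟩
  · refine ⟨p, P, hp, ?_, hP, key p P hP hAP h3⟩
    rcases a with _ | a
    · exact absurd (IsPGroup.of_card (p := q) (n := b) (by simpa using h2)).isNilpotent hK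
    · rw [h2]; exact ⟨p ^ a * q ^ b, by ring⟩

end H8
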