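import Mathlib
import Cfsg.Agent.H8.JordanSet

/-! Jordan sets of quasiprimitive groups. -/

namespace H8

open MulAction Subgroup
open scoped Pointwise

universe u v

variable {G : Type*} [Group G] {α : Type*} [MulAction G α]

/-- the kernel of the action on the translates of a set -/
def transKer (G : Type*) [Group G] {α : Type*} [MulAction G α] (B : Set α) : Subgroup G :=
  (toPermHom G (orbit G B)).ker

theorem mem_transKer {B : Set α} {k : G} : k ∈ transKer G B ↔ ∀ g : G, k • g • B = g • B :=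
  ⟨fun h g => congrArg Subtype.val (Equiv.congr_fun h ⟨g • B, g, rfl⟩), fun h =>
    Equiv.ext fun ⟨_, g, e⟩ => Subtype.ext (by subst e; exact h g)⟩

theorem transKer_eq_bot (hqp : ∀ N : Subgroup G, N.Normal → N ≠ ⊥ → IsPretransitive N α)
    {B : Set α} (hne : B.Nonempty) (hB : B ≠ Set.univ) : transKer G B = ⊥ := by
  by_contra h
  obtain ⟨a, ha⟩ := hne
  refine hB (Set.eq_univ_of_forall fun x => ?_)
  obtain ⟨n, rfl⟩ := (hqp _ (MonoidHom.normal_ker _) h).exists_smul_eq a x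
  have := mem_transKer.1 n.2 1
  rw [one_smul] at this
  exact this.subset (Set.smul_mem_smul_set ha)

theorem IsJ.blocks (hqp : ∀ N : Subgroup G, N.Normal → N ≠ ⊥ → IsPretransitive N α)
    {Γ : Set α} (h : IsJ G Γ) (h1 : Γ.Nontrivial) {B : Set α} (hB : IsBlock G B) (hne : B.Nonempty)
    (hB' : B ≠ Set.univ) (g : G) : ¬ Γ ⊆ g • B ∧ ∀ x ∈ g • B, x ∈ Γ → g • B ⊆ Γ := by
  have key : ¬ Γ ⊆ g • B := fun hs => by
    obtain ⟨a, ha, b, hb, hab⟩ := h1
    obtain ⟨k, hk, e⟩ := h a ha b hb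
    have : k ∈ transKer G B := mem_transKer.2 fun u => by
      obtain ⟨x, hx⟩ := hne.smul_set (a := u)
      by_cases hxΓ : x ∈ Γ
      · have e1 : u • B = g • B := (hB.smul_eq_smul_or_disjoint u g).resolve_right
          fun d => Set.disjoint_left.1 d hx (hs hxΓ)
        rw [e1]
        exact (hB.translate g).smul_eq_of_mem (hs ha) (e ▸ hs hb)
      · exact (hB.translate u).smul_eq_of_mem hx ((hk x hxΓ).symm ▸ hx)
    rw [transKer_eq_bot hqp hne hB', mem_bot] at this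
    exact hab (by rw [← e, this, one_smul])
  refine ⟨key, fun x hx hxΓ z hz => ?_⟩
  by_contra hzΓ
  refine key fun y hy => ?_
  obtain ⟨k, hk, rfl⟩ := h x hxΓ y hy
  rw [← (hB.translate g).smul_eq_of_mem hz ((hk z hzΓ).symm ▸ hz)]
  exact Set.smul_mem_smul_set hx

theorem IsJ.isPretransitive (hqp : ∀ N : Subgroup G, N.Normal → N ≠ ⊥ → IsPretransitive N α)
    {Γ : Set α} (h : IsJ G Γ) (h1 : Γ.Nontrivial) : IsPretransitive G α := by
  obtain ⟨a, ha, b, hb, hab⟩ := h1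
  obtain ⟨k, -, e⟩ := h a ha b hb
  have := hqp ⊤ inferInstance fun h => hab (by
    rw [← e, (Subgroup.eq_bot_iff_forall _).1 h k (mem_top k), one_smul])
  exact ⟨fun x y => let ⟨g, hg⟩ := this.exists_smul_eq x y; ⟨g, hg⟩⟩

theorem marggraf_quasi (n : ℕ) : ∀ (G : Type u) (α : Type v) [Group G] [MulAction G α] [Finite α],
    Nat.card α = n → (∀ N : Subgroup G, N.Normal → N ≠ ⊥ → IsPretransitive N α) →
      ∀ Γ : Set α, IsJ G Γ → 1 < Γ.ncard → 2 * Γ.ncard < n →
        IsMultiplyPretransitive G α (n - 2) := by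
  induction n using Nat.strong_induction_on with | _ n ih => ?_
  intro G α _ _ _ hn hqp Γ h h1 h2
  classical
  have hnt : Γ.Nontrivial := Set.one_lt_ncard_iff_nontrivial.1 h1
  haveI := h.isPretransitive hqp hnt
  refine marggraf n G α hn ⟨fun {B} hB => ?_⟩ Γ h h1 h2
  by_contra hno
  rw [IsTrivialBlock, not_or, Set.not_subsingleton_iff] at hno
  have hne := hno.1.nonempty
  have hbl := h.blocks hqp hnt hB hne hno.2
  have hBc : 1 < B.ncard := Set.one_lt_ncard_iff_nontrivial.2 hno.1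
  have hcard := hB.ncard_block_mul_ncard_orbit_eq hne
  rw [← Nat.card_coe_set_eq (orbit G B), hn] at hcard
  have hcov : ∀ x : α, ∃ g : G, x ∈ g • B := fun x => by
    obtain ⟨a, ha⟩ := hne
    obtain ⟨g, rfl⟩ := exists_smul_eq G a x
    exact ⟨g, Set.smul_mem_smul_set ha⟩
  have huniq : ∀ C D : orbit G B, ∀ x ∈ C.1, x ∈ D.1 → C = D := by
    rintro ⟨_, g, rfl⟩ ⟨_, u, rfl⟩ x hx hx'
    exact Subtype.ext ((hB.smul_eq_smul_or_disjoint g u).resolve_right
      fun d => Set.disjoint_left.1 d hx hx')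
  have hnonempty : ∀ C : orbit G B, C.1.Nonempty := by
    rintro ⟨_, g, rfl⟩; exact hne.smul_set
  have hout : ∀ C : orbit G B, ¬ C.1 ⊆ Γ → ∀ x ∈ C.1, x ∉ Γ := by
    rintro ⟨_, g, rfl⟩ hC x hx hx'; exact hC ((hbl g).2 x hx hx')
  have hsm : ∀ (g : G) (C : orbit G B), ∀ x ∈ C.1, g • x ∈ (g • C).1 := fun g C x hx =>
    Set.smul_mem_smul_set hx
  let Γ' : Set (orbit G B) := {C | C.1 ⊆ Γ}
  have hΓ'le : B.ncard * Γ'.ncard ≤ Γ.ncard := by
    have hc : ∀ C : orbit G B, ∃ g : G, g • B = C.1 := fun C => C.2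
    choose γ hγ using hc
    rw [← Nat.card_coe_set_eq, ← Nat.card_coe_set_eq, ← Nat.card_coe_set_eq, ← Nat.card_prod]
    refine Nat.card_le_card_of_injective (fun p : B × Γ' =>
      (⟨γ p.2.1 • p.1.1, p.2.2 (hγ _ ▸ Set.smul_mem_smul_set p.1.2)⟩ : Γ)) ?_
    rintro ⟨x, C⟩ ⟨y, D⟩ e
    have e' : γ C.1 • x.1 = γ D.1 • y.1 := congrArg Subtype.val e
    obtain rfl : C = D := Subtype.ext (huniq _ _ (γ C.1 • x.1) (hγ _ ▸ Set.smul_mem_smul_set x.2)
      (e' ▸ hγ _ ▸ Set.smul_mem_smul_set y.2))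
    rw [Subtype.ext (MulAction.injective _ e' : x.1 = y.1)]
  have hfix : ∀ k : G, (∀ z ∉ Γ, k • z = z) → ∀ C ∉ Γ', k • C = C := fun k hk C hC => by
    obtain ⟨x, hx⟩ := hnonempty C
    exact huniq _ _ x (hk x (hout C hC x hx) ▸ hsm k C x hx) hx
  have hJ' : IsJ G Γ' := fun C hC D hD => by
    obtain ⟨x, hx⟩ := hnonempty C
    obtain ⟨y, hy⟩ := hnonempty D
    obtain ⟨k, hk, e⟩ := h x (hC hx) y (hD hy)
    exact ⟨k, hfix k hk, huniq _ _ y (e ▸ hsm k C x hx) hy⟩
  obtain ⟨a, ha⟩ := hnt.nonempty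
  obtain ⟨g, hg⟩ := hcov a
  let C : orbit G B := ⟨g • B, g, rfl⟩
  have hC : C ∈ Γ' := (hbl g).2 a hg ha
  have h1' : 1 < Γ'.ncard := by
    obtain ⟨b, hb, hb'⟩ := Set.not_subset.1 (hbl g).1
    obtain ⟨u, hu⟩ := hcov b
    exact (Set.one_lt_ncard (Set.toFinite _)).2 ⟨C, hC, ⟨u • B, u, rfl⟩, (hbl u).2 b hu hb,
      fun e => hb' (by rw [show g • B = u • B from congrArg Subtype.val e]; exact hu)⟩
  have h2' : 2 * Γ'.ncard < Nat.card (orbit G B) := by
    by_contra hle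
    have := Nat.mul_le_mul_left B.ncard (not_lt.1 hle)
    nlinarith
  have hmt := ih _ (by nlinarith) G (orbit G B) rfl (fun N hN hN' => ⟨fun C D => by
    obtain ⟨x, hx⟩ := hnonempty C
    obtain ⟨y, hy⟩ := hnonempty D
    obtain ⟨k, e⟩ := (hqp N hN hN').exists_smul_eq x y
    exact ⟨k, huniq _ _ y (e ▸ hsm k C x hx) hy⟩⟩) Γ' hJ' h1' h2'
  obtain ⟨b, hb, hba⟩ := (Set.one_lt_ncard_iff_nontrivial.1
    (show 1 < (g • B).ncard by rwa [Set.ncard_smul_set])).exists_ne a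
  obtain ⟨k, hk, e⟩ := h a ha b (hC hb)
  have hkC : k • C = C := huniq _ _ b (e ▸ hsm k C a hg) hb
  have i1 := Set.ncard_add_ncard_compl Γ'
  obtain ⟨D, hD⟩ := (Set.ncard_pos (s := Γ'ᶜ)).1 (by omega)
  have i2 := Set.ncard_sdiff_singleton_add_one hC
  obtain ⟨u, hu, e'⟩ := fixing_of_isMPT hmt (by omega) (Γ' \ {C}).toFinite.toFinset
    (by rw [← Set.ncard_eq_toFinset_card]; omega) (x := D) (y := C) (by simp; exact fun h => absurd h hD)
    (by simp)
  have hu' : ∀ E ∈ Γ', E ≠ C → u • E = E := fun E h1 h2 => hu E (by simpa using ⟨h1, h2⟩)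
  have hmoved : ∀ E, k • E ≠ E → u • E = E := fun E hE =>
    hu' E (by by_contra h; exact hE (hfix k hk E h)) fun h => hE (h ▸ hkC)
  have hcomm : ∀ E : orbit G B, k • u • E = u • k • E := fun E => by
    by_cases hE : k • E = E
    · rw [hE]
      by_contra h
      exact h (by rw [show u • E = E from MulAction.injective u (hmoved _ h), hE])
    · rw [hmoved E hE, hmoved _ fun h => hE (MulAction.injective k h)]
  have : (u * k)⁻¹ * (k * u) ∈ transKer G B := Equiv.ext fun E => by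
    show ((u * k)⁻¹ * (k * u)) • E = E
    rw [mul_smul, inv_smul_eq_iff, mul_smul, mul_smul, hcomm]
  rw [transKer_eq_bot hqp hne hno.2, mem_bot, inv_mul_eq_one] at this
  have haD : u⁻¹ • a ∈ D.1 := by
    have := hsm u⁻¹ C a hg
    rwa [← e', inv_smul_smul] at this
  apply hba
  rw [← e, ← smul_inv_smul u a, ← mul_smul, ← this, mul_smul, hk _ (hout D hD _ haD)]

end H8
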