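import Mathlib
import Cfsg.Agent.H8.SemiLin3
import Cfsg.Agent.S0686

set_option autoImplicit false

namespace H8
open Subgroup
open scoped MatrixGroups

theorem nf_num {q e f : ℕ} (h3 : 3 ≤ q) (ho : q % 2 = 1) (he : e ≠ 0) (hf : 2 ≤ f)
    (h : (q ^ e) ^ f - 1 ∣ 24 * e * (q ^ e - 1)) : (q ^ e) ^ f ∈ [9, 25, 49, 121, 529] := by
  have a := Nat.pow_le_pow_left h3 e
  have a' := Nat.le_self_pow he q
  have b := Nat.le_of_dvd (Nat.mul_pos (by omega) (by omega)) h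
  have c := Nat.pow_le_pow_right (show 0 < q ^ e by omega) hf
  have f6 : 6 ≤ f → (q ^ e) ^ 6 ≤ (q ^ e) ^ f := Nat.pow_le_pow_right (by omega)
  have key : ∀ q ∈ List.range 96, ∀ e ∈ List.range 5, ∀ f ∈ List.range 6, 3 ≤ q → q % 2 = 1 →
      e ≠ 0 → 2 ≤ f → (q ^ e) ^ f - 1 ∣ 24 * e * (q ^ e - 1) →
      (q ^ e) ^ f ∈ [9, 25, 49, 121, 529] := by decide +kernel
  obtain ⟨Q, hQ⟩ : ∃ Q, q ^ e = Q + 1 := ⟨q ^ e - 1, by omega⟩
  have b' : (q ^ e) ^ f ≤ 24 * e * Q + 1 := by rw [hQ, Nat.add_sub_cancel] at b; rw [hQ]; omega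
  rw [hQ] at a a' b' c f6
  have d : Q + 2 ≤ 24 * e := by nlinarith
  have e4 : e < 5 := by
    by_contra! hh
    have : ∀ n, 5 ≤ n → 24 * n < 3 ^ n := fun n hn => by
      induction n, hn using Nat.le_induction with
      | base => norm_num
      | succ n _ ih => rw [pow_succ]; omega
    have := this e hh
    omega
  refine key q (List.mem_range.2 (by omega)) e (List.mem_range.2 e4) f (List.mem_range.2 ?_) h3 ho
    he hf h
  by_contra! hh
  have := f6 hh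
  have := Nat.pow_le_pow_left (show 3 ≤ Q + 1 by omega) 5
  nlinarith [pow_succ (Q + 1) 5]

theorem nf_four {G : Type*} [Group G] {N : Subgroup G} (h : Nonempty (N ≃* QuaternionGroup 2) ∨
    Nonempty (N ≃* SL(2, ZMod 5))) :
    ∃ x ∈ N, ∃ y ∈ N, orderOf x = 4 ∧ orderOf y = 4 ∧ x * y ≠ y * x := by
  have k : ∀ {K : Type} [Group K] (e : N ≃* K) (a b : K), ¬ a ^ 2 ^ 1 = 1 → a ^ 2 ^ 2 = 1 →
      ¬ b ^ 2 ^ 1 = 1 → b ^ 2 ^ 2 = 1 → a * b ≠ b * a →
      ∃ x ∈ N, ∃ y ∈ N, orderOf x = 4 ∧ orderOf y = 4 ∧ x * y ≠ y * x :=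
    fun e a b h1 h2 h3 h4 h5 => ⟨_, (e.symm a).2, _, (e.symm b).2,
      by rw [orderOf_coe, MulEquiv.orderOf_eq, orderOf_eq_prime_pow h1 h2]; rfl,
      by rw [orderOf_coe, MulEquiv.orderOf_eq, orderOf_eq_prime_pow h3 h4]; rfl,
      fun h => h5 (e.symm.injective (by rw [map_mul, map_mul]; exact Subtype.ext h))⟩
  rcases h with ⟨⟨e⟩⟩ | ⟨⟨e⟩⟩
  · exact k e (.a 1) (.xa 0) (by decide) (by decide) (by decide) (by decide) (by decide)
  · exact k e ⟨!![0, 1; -1, 0], by decide⟩ ⟨!![2, 0; 0, 3], by decide⟩ (by decide +kernel)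
      (by decide +kernel) (by decide +kernel) (by decide +kernel) (by decide +kernel)

theorem nf_min {G : Type*} [Group G] [Finite G] {X : Subgroup G} (h : X.Normal)
    (c : ¬ IsMulCommutative X) : ∃ N ≤ X, N.Normal ∧ ¬ IsMulCommutative N ∧
      ∀ M : Subgroup G, M.Normal → M ≤ N → ¬ IsMulCommutative M → M = N := by
  obtain ⟨N, ⟨a, b, d⟩, m⟩ := wellFounded_lt.has_min
    {N : Subgroup G | N ≤ X ∧ N.Normal ∧ ¬ IsMulCommutative N} ⟨X, le_rfl, h, c⟩
  exact ⟨N, a, b, d, fun M h1 h2 h3 => h2.eq_of_not_lt (m M ⟨h2.trans a, h1, h3⟩)⟩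

theorem nf_main {p : ℕ} [Fact p.Prime] {V : Type*} [AddCommGroup V] [Module (ZMod p) V] [Finite V]
    (H : Subgroup (V ≃ₗ[ZMod p] V))
    (hreg : ∀ v w : V, v ≠ 0 → w ≠ 0 → ∃! h : H, (h : V ≃ₗ[ZMod p] V) v = w)
    (hI : ∀ A : Subgroup H, A.Normal → IsCyclic A → ∃ W : Submodule (ZMod p) V, W ≠ ⊥ ∧ W ≠ ⊤ ∧
      ∀ a ∈ A, ∀ v ∈ W, ((a : H) : V ≃ₗ[ZMod p] V) v ∈ W) (A : Subgroup H) (hAn : A.Normal)
    (hAc : IsMulCommutative A)
    (hAmax : ∀ B : Subgroup H, B.Normal → IsMulCommutative B → A ≤ B → B = A) (N : Subgroup H)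
    (hNn : N.Normal) (hNle : N ≤ centralizer (A : Set H)) (hNna : ¬ IsMulCommutative N)
    (hNmin : ∀ M : Subgroup H, M.Normal → M ≤ N → ¬ IsMulCommutative M → M = N) :
    Nat.card V = Nat.card H + 1 ∧ A ≤ centralizer (N : Set H) ∧ ∃ q e f : ℕ, q.Prime ∧ e ≠ 0 ∧
      2 ≤ f ∧ Nat.card V = (q ^ e) ^ f ∧ Nat.card A ∣ q ^ e - 1 ∧
      A.relIndex (centralizer (N : Set H)) ∣ e := by
  haveI : Finite (V ≃ₗ[ZMod p] V) := Finite.of_injective _ DFunLike.coe_injective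
  obtain ⟨W0, h0, -⟩ := hI ⊥ inferInstance inferInstance
  haveI : Nontrivial V := (Submodule.nontrivial_iff (ZMod p)).1 ⟨W0, ⊥, h0⟩
  obtain ⟨v0, hv0⟩ := exists_ne (0 : V)
  let φ : H →* MulAut (Multiplicative V) :=
    { toFun := fun h => AddEquiv.toMultiplicative (DistribMulAction.toAddEquiv V h)
      map_one' := by ext v; simp
      map_mul' := fun a b => by ext v; simp [mul_smul] }
  have h : FC H := fc_of_mulAut φ fun g k e => or_iff_not_imp_right.2 fun k1 =>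
    (hreg k.toAdd k.toAdd k1 k1).unique (congrArg Multiplicative.toAdd e) rfl
  have cH : Nat.card V = Nat.card H + 1 := by
    let f : Option H → V := fun o => o.elim 0 fun g => g.1 v0
    have n : ∀ g : H, g.1 v0 ≠ 0 := fun g => by simpa using hv0
    rw [← Finite.card_option]
    refine (Nat.card_eq_of_bijective f ⟨?_, fun v => ?_⟩).symm
    · rintro (_ | a) (_ | b) e
      · rfl
      · exact absurd e.symm (n b)
      · exact absurd e (n a)
      · exact congrArg some ((hreg v0 _ hv0 (n b)).unique e rfl)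
    · by_cases e : v = 0
      · exact ⟨none, e.symm⟩
      · exact let ⟨g, hg, _⟩ := hreg v0 v hv0 e; ⟨some g, hg⟩
  have AC := le_centralizer_iff.1 hNle
  have cc : centralizer (A : Set H) ⊓ centralizer (N : Set H) = A := by
    refine hAmax _ inferInstance (by_contra fun c => ?_) (le_inf A.le_centralizer AC)
    obtain ⟨M, m1, m2, m3, m4⟩ := nf_min inferInstance c
    obtain ⟨u, hu, -, -, ou, -⟩ := nf_four (Cfsg.Agent.S0686.result H hreg hI A hAn hAc hAmax M m2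
      (m1.trans inf_le_left) m3 m4)
    obtain ⟨x, hx, y, hy, ox, oy, n⟩ := nf_four (Cfsg.Agent.S0686.result H hreg hI A hAn hAc hAmax N
      hNn hNle hNna hNmin)
    obtain ⟨i, rfl⟩ := h.mem_zpowers_of_comm ((m1 hu).2 x hx) (by rw [ox, ou])
    obtain ⟨j, rfl⟩ := h.mem_zpowers_of_comm ((m1 hu).2 y hy) (by rw [oy, ou])
    exact n (zpow_mul_comm ..)
  obtain ⟨R, _, _, _, Φ, r1, r2, r3⟩ := semilinF (E := V) A (fun a b ha hb =>
    let ⟨g, hg, _⟩ := hreg a b ha hb; ⟨g, .inl hg⟩) v0 hv0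
  obtain ⟨q, _⟩ := CharP.exists R
  haveI : Fact q.Prime := ⟨CharP.char_is_prime R q⟩
  have r4 := (ringAut_facts R q).2
  have cV : Nat.card V = Nat.card R ^ Module.finrank R V := Module.natCard_eq_pow_finrank
  refine ⟨cH, AC, q, Nat.card (R ≃+* R), Module.finrank R V, Fact.out, fun e => ?_, ?_, r4 ▸ cV,
    r4 ▸ r1, ?_⟩
  · have := Finite.one_lt_card (α := R)
    rw [r4, e] at this; simp at this
  · by_contra! hh
    obtain ⟨w, hw⟩ := finrank_le_one_iff.1 (Nat.lt_succ_iff.1 hh)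
    have NK : N ≤ Φ.ker := r2 ▸ hNle
    refine hNna ⟨⟨fun x y => ?_⟩⟩
    obtain ⟨s, hs⟩ := hw ((x : H) • w)
    obtain ⟨t, ht⟩ := hw ((y : H) • w)
    have a : ∀ (z : N) (r : R) (v : V), (z : H) • r • v = r • (z : H) • v := fun z r v => by
      rw [r3, MonoidHom.mem_ker.1 (NK z.2)]; rfl
    refine Subtype.ext (eq_of_smul_eq_smul (α := V) fun v => ?_)
    obtain ⟨r, rfl⟩ := hw v
    rw [coe_mul, coe_mul, mul_smul, mul_smul, a, a, a, a, ← ht, ← hs, a, a, ← ht, ← hs,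
      smul_smul t, smul_smul s, mul_comm s]
  · rw [← congrArg (relIndex · _) cc, inf_relIndex_right, ← r2, relIndex_ker]
    exact card_subgroup_dvd_card _

end H8
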