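import Mathlib
import Cfsg.Agent.S0687
import Cfsg.Agent.H1.Inv
import Cfsg.Agent.H1.Two5
import Cfsg.Agent.H4.PSL2

set_option autoImplicit false

namespace H8
open Subgroup
open scoped MatrixGroups

theorem nf_odd {G K : Type*} [Group G] [Group K] [Finite G] (no : ∀ M : Subgroup G, M.index ≠ 2)
    (f : G →* K) (hf : Function.Surjective f) (P : Sylow 2 K) (c : IsCyclic P) :
    (P : Subgroup K) = ⊥ := by
  haveI := Finite.of_surjective f hf
  by_contra h
  obtain ⟨M, hM⟩ := H1B.exists_index_two_of_cyc (H2.sylow_isSylowIn_top P) c h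
  exact no _ ((M.index_comap_of_surjective hf).trans hM)

variable {p : ℕ} [Fact p.Prime] {V : Type*} [AddCommGroup V] [Module (ZMod p) V] [Finite V]
  (H : Subgroup (V ≃ₗ[ZMod p] V))
  (hreg : ∀ v w : V, v ≠ 0 → w ≠ 0 → ∃! h : H, (h : V ≃ₗ[ZMod p] V) v = w)
include hreg

theorem nf_semi [Nontrivial V] (A : Subgroup H) [A.Normal]
    (hi : ∀ W : Submodule (ZMod p) V, W ≠ ⊥ → W ≠ ⊤ →
      ¬ ∀ a ∈ A, ∀ v ∈ W, ((a : H) : V ≃ₗ[ZMod p] V) v ∈ W) [IsMulCommutative A] :
    (∃ (F : Type) (_ : Field F) (_ : Fintype F) (e : V ≃+ F),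
        ∀ g : H, ∃ (a : F) (σ : F ≃+* F), ∀ v : V, e (g.1 v) = a * σ (e v)) ∧
      (p ≠ 2 → ∃ M : Subgroup H, M.index = 2) := by
  haveI : Finite (V ≃ₗ[ZMod p] V) := Finite.of_injective _ DFunLike.coe_injective
  haveI : Finite (Module.End (ZMod p) V) := Finite.of_injective _ DFunLike.coe_injective
  obtain ⟨v0, hv0⟩ := exists_ne (0 : V)
  let C := Subring.centralizer ((fun a : H => (a.1 : Module.End (ZMod p) V)) '' A)
  haveI : NoZeroDivisors C := ⟨fun {x y} e => or_iff_not_imp_left.2 fun hx => by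
    have h : LinearMap.ker x.1 = ⊥ := by_contra fun h => hi _ h
      (fun h => hx (Subtype.ext (LinearMap.ker_eq_top.1 h))) fun a ha v hv => by
        have := DFunLike.congr_fun (x.2 _ ⟨a, ha, rfl⟩) v
        simpa [LinearMap.mem_ker.1 hv] using this.symm
    exact Subtype.ext (LinearMap.ext fun v => LinearMap.ker_eq_bot.1 h (by
      simpa using DFunLike.congr_fun (congrArg Subtype.val e) v))⟩
  haveI := NoZeroDivisors.to_isDomain C
  have m : ∀ x : centralizer (A : Set H), (x.1.1 : Module.End (ZMod p) V) ∈ C := by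
    rintro x _ ⟨a, ha, rfl⟩
    exact congrArg (fun g : H => (g.1 : Module.End (ZMod p) V)) (x.2 a ha)
  haveI cc : IsMulCommutative (centralizer (A : Set H)) := ⟨⟨fun x y => Subtype.ext (Subtype.ext
    (LinearEquiv.toLinearMap_injective (congrArg Subtype.val
      ((Finite.isDomain_to_isField C).mul_comm ⟨_, m x⟩ ⟨_, m y⟩))))⟩⟩
  obtain ⟨R, _, e, Φ, -, k, r⟩ := semilin0 (E := V) (centralizer (A : Set H))
    (centralizer_le A.le_centralizer) (fun a b ha hb =>
      let ⟨g, hg, _⟩ := hreg a b ha hb; ⟨g, .inl hg⟩) v0 hv0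
  haveI : Finite R := Finite.of_equiv _ e.toEquiv
  refine ⟨?_, fun p2 => by_contra fun no => ?_⟩
  · obtain ⟨K, _, _, ⟨ι⟩⟩ := H4.small_model R
    exact ⟨K, inferInstance, inferInstance, e.trans ι.symm.toAddEquiv, fun g =>
      ⟨ι.symm (e (g • v0)), (ι.trans (Φ g)).trans ι.symm, fun v => by
        simpa using congrArg ι.symm (show e (g.1 v) = _ from r g v)⟩⟩
  push Not at no
  let φ : H →* MulAut (Multiplicative V) :=
    { toFun := fun h => AddEquiv.toMultiplicative (DistribMulAction.toAddEquiv V h)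
      map_one' := by ext v; simp
      map_mul' := fun a b => by ext v; simp [mul_smul] }
  have h : FC H := fc_of_mulAut φ fun g k e => or_iff_not_imp_right.2 fun k1 =>
    (hreg k.toAdd k.toAdd k1 k1).unique (congrArg Multiplicative.toAdd e) rfl
  obtain ⟨P⟩ : Nonempty (Sylow 2 H) := inferInstance
  haveI := isCyclic_ringAut R
  have a := nf_odd no _ Φ.rangeRestrict_surjective (P.mapSurjective Φ.rangeRestrict_surjective)
    inferInstance
  rw [Sylow.coe_mapSurjective, Subgroup.map_eq_bot_iff, MonoidHom.ker_rangeRestrict, k] at a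
  have b := nf_odd no (.id _) Function.surjective_id P (h.ab _
    (le_centralizer_iff_isMulCommutative.1 (a.trans ((le_centralizer _).trans (centralizer_le a)))))
  obtain ⟨t, ht, -⟩ := hreg v0 (-v0) hv0 (neg_ne_zero.2 hv0)
  have t2 : orderOf t = 2 := orderOf_eq_prime ((hreg v0 v0 hv0 hv0).unique (by simp [sq, ht]) rfl)
    fun e => by
      have : (2 : ZMod p) • v0 = 0 := by
        rw [two_smul, add_eq_zero_iff_eq_neg]; simpa [e] using ht
      refine p2 ((Nat.prime_dvd_prime_iff_eq Fact.out Nat.prime_two).1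
        ((ZMod.natCast_eq_zero_iff 2 p).1 (by simpa [hv0] using this)))
  exact P.ne_bot_of_dvd_card (t2 ▸ orderOf_dvd_natCard t) b

theorem nf_exc (hI : ∀ A : Subgroup H, A.Normal → IsCyclic A → ∃ W : Submodule (ZMod p) V,
    W ≠ ⊥ ∧ W ≠ ⊤ ∧ ∀ a ∈ A, ∀ v ∈ W, ((a : H) : V ≃ₗ[ZMod p] V) v ∈ W)
    (hs : Group.IsSolvable H) (no : ∀ M : Subgroup H, M.index ≠ 2) :
    (Nat.card V = 25 ∧ Nonempty (H ≃* SL(2, ZMod 3))) ∨
      (Nat.card V = 121 ∧ Nonempty (H ≃* SL(2, ZMod 3) × Multiplicative (ZMod 5))) := by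
  haveI : Finite (V ≃ₗ[ZMod p] V) := Finite.of_injective _ DFunLike.coe_injective
  obtain ⟨A, ⟨hAn, hAc⟩, mA⟩ := wellFounded_gt.has_min
    {A : Subgroup H | A.Normal ∧ IsMulCommutative A} ⟨⊥, inferInstance, inferInstance⟩
  have hAmax : ∀ B : Subgroup H, B.Normal → IsMulCommutative B → A ≤ B → B = A :=
    fun B h1 h2 h3 => (h3.eq_of_not_lt (mA B ⟨h1, h2⟩)).symm
  obtain ⟨N, hNle, hNn, hNna, hNmin⟩ := nf_min inferInstance
    (Cfsg.Agent.S0685.result H hreg hI A hAn hAc hAmax).2
  obtain ⟨cH, -, q, e, f, hq, e0, f2, cV, d1, -⟩ :=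
    nf_main H hreg hI A hAn hAc hAmax N hNn hNle hNna hNmin
  have CA := (Cfsg.Agent.S0687.result H hreg hI A hAn hAc hAmax N hNn hNle hNna hNmin).2
  haveI := (Cfsg.Agent.S0684.result H hreg hI A hAn hAc hAmax).1
  obtain ⟨φ⟩ := (Cfsg.Agent.S0686.result H hreg hI A hAn hAc hAmax N hNn hNle hNna
    hNmin).resolve_right fun ⟨φ⟩ => by
    haveI := Group.isSolvable_of_surjective (f := φ.toMonoidHom) φ.surjective
    haveI := nontrivial_of_ne slB 1 sl_rel.2.2.2.2.2.1
    exact (Group.IsSolvable.commutator_lt_top_of_nontrivial _).ne perfect_sl25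
  have kr : ∀ (X : Subgroup H) [X.Normal], (MulAut.conjNormal : H →* MulAut X).ker =
      centralizer (X : Set H) := fun X _ => Subgroup.ext fun x => by
    simp [mem_centralizer_iff, MulEquiv.ext_iff, Subtype.ext_iff, eq_comm, eq_mul_inv_iff_mul_eq]
  have d3 : A.index ∣ 12 := by
    obtain ⟨ψ⟩ := Cfsg.Agent.S3742.result
    let χ := ((MulAut.congr φ).trans ψ).toMonoidHom.comp (MulAut.conjNormal (H := N))
    have : χ.ker = A := by
      rw [← CA, ← kr N]
      exact MonoidHom.ker_comp_of_injective _ _ (MulEquiv.injective _)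
    rw [← this, index_ker, ← H4.card_alt4]
    refine card_dvd_of_le (relIndex_eq_one.1 ?_)
    have := relIndex_dvd_index_of_normal (alternatingGroup (Fin 4)) χ.range
    rw [alternatingGroup.index_eq_two, Nat.dvd_prime Nat.prime_two] at this
    exact this.resolve_right fun h => no _ ((index_comap _ χ).trans h)
  have i := A.index_mul_card
  have k : ∀ l : ℕ, l.Prime → Nat.card V = l ^ 2 → Nat.card A ∣ l - 1 := fun l hl c => by
    have h := (pow_mul ..).trans (cV.symm.trans c)
    obtain rfl := (Nat.prime_dvd_prime_iff_eq hl hq).1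
      (hl.dvd_of_dvd_pow (h ▸ dvd_pow_self l two_ne_zero))
    have := Nat.pow_right_injective hl.two_le h
    obtain rfl : e = 1 := by
      have := Nat.pos_of_ne_zero e0
      nlinarith
    simpa using d1
  have s12 := Nat.le_of_dvd (by norm_num) d3
  have key : 3 ∣ Nat.card H → ¬ 3 ∣ Nat.card A → ∃ (S : Subgroup H) (g : H), g ^ 3 = 1 ∧
      S = N ⊔ zpowers g ∧ Nonempty (S ≃* SL(2, ZMod 3)) := fun h1 h2 => by
    obtain ⟨g, hg⟩ := exists_prime_orderOf_dvd_card' 3 h1
    obtain ⟨x, y, g', a, b, c⟩ := H1B.exists_s23 (g := g) φ (le_normalizer_of_normal (mem_top g))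
      (by rw [hg]; decide) fun h => h2 (hg ▸ orderOf_dvd_natCard _ (CA.le h))
    have : g' ^ 3 = 1 := by
      rw [← hg, ← Nat.card_zpowers, ← a, Nat.card_zpowers, pow_orderOf_eq_one]
    exact ⟨_, g', this, by rw [b], c.sl23 this⟩
  rcases Cfsg.Agent.S0688.result H hreg hI hs with h | h | h | h
  · have a := k 5 (by norm_num) h
    obtain ⟨S, -, -, -, ⟨ε⟩⟩ := key (by omega) fun h => by have := h.trans a; omega
    obtain rfl : S = ⊤ := eq_top_of_card_eq _ (by
      rw [Nat.card_congr ε.toEquiv, H1B.card_sl23]; omega)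
    exact .inl ⟨h, ⟨topEquiv.symm.trans ε⟩⟩
  · have a := k 7 (by norm_num) h
    have : Nat.card A ≤ 6 := Nat.le_of_dvd (by norm_num) a
    generalize A.index = s, Nat.card A = t at *
    interval_cases s <;> interval_cases t <;> omega
  · have a := k 11 (by norm_num) h
    have a10 : Nat.card A = 10 := by
      have := Nat.le_of_dvd (by norm_num) a
      nlinarith
    obtain ⟨S, g, g3, rfl, ⟨ε⟩⟩ := key (by omega) (by omega)
    haveI : Fact (Nat.Prime 5) := ⟨by norm_num⟩
    obtain ⟨u, hu⟩ := exists_prime_orderOf_dvd_card' (G := A) 5 (by omega)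
    have gA : g ∈ centralizer (A : Set H) := by
      rw [← kr A, MonoidHom.mem_ker, ← orderOf_eq_one_iff]
      have a := orderOf_dvd_natCard (MulAut.conjNormal (H := A) g)
      rw [IsCyclic.card_mulAut, a10] at a
      exact Nat.eq_one_of_dvd_coprimes (by decide : Nat.Coprime 3 (Nat.totient 10))
        (orderOf_dvd_of_pow_eq_one (by rw [← map_pow, g3, map_one])) a
    have c5 : Nat.card (zpowers u.1) = 5 := by rw [Nat.card_zpowers, orderOf_coe, hu]
    have c24 := (Nat.card_congr ε.toEquiv).trans H1B.card_sl23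
    have comm : ∀ (x : (N ⊔ zpowers g : Subgroup H)) (y : zpowers u.1),
        Commute ((N ⊔ zpowers g).subtype x) ((zpowers u.1).subtype y) := fun x y =>
      (sup_le hNle (zpowers_le.2 gA) x.2 _ (zpowers_le.2 u.2 y.2)).symm
    let ψ := MonoidHom.noncommCoprod _ _ comm
    have ψi : Function.Injective ψ := (MonoidHom.noncommCoprod_injective _ _ comm).2
      ⟨subtype_injective _, subtype_injective _, by
        simpa using disjoint_of_coprime_natCard (by rw [c5, c24]; norm_num)⟩
    haveI := isCyclic_of_prime_card c5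
    exact .inr ⟨h, ⟨(MulEquiv.ofBijective ψ ((Nat.bijective_iff_injective_and_card _).2
      ⟨ψi, by rw [Nat.card_prod, c5, c24]; omega⟩)).symm.trans
        (ε.prodCongr (mulEquivOfCyclicCardEq (by simp [c5])))⟩⟩
  · have a := Nat.le_of_dvd (by norm_num) (k 23 (by norm_num) h)
    nlinarith

end H8
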