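import Cfsg.Agent.H8.PD
import Cfsg.Agent.H8.DR1
import Cfsg.Agent.H8.ME
import Cfsg.Agent.H8.Zas7
import Cfsg.Agent.H1.BG4

/-! Groups with 18 Sylow 17-subgroups. -/

set_option autoImplicit false
set_option linter.style.haveILetI false
set_option linter.unusedSectionVars false

namespace H8
open Cfsg H3 H9 Subgroup MulAction
open scoped MatrixGroups
universe u

theorem card_perm_syl {α : Type*} [Fintype α] [DecidableEq α] {p : ℕ} [hp : Fact p.Prime]
    (h : Fintype.card α ≤ p + 1) (h' : 1 < p - 1) (G : Subgroup (Equiv.Perm α))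
    (hd : p ∣ Nat.card G) : ∃ P : Sylow p G, Nat.card P = p ∧ cen (P : Subgroup G) = P ∧
      (P : Subgroup G).relIndex (nrm (P : Subgroup G)) ∣ p - 1 ∧ Nat.card G =
        p * ((P : Subgroup G).relIndex (nrm (P : Subgroup G)) * Nat.card (Sylow p G)) := by
  obtain ⟨x, x1, hx⟩ := exists_cen_cycle h h' G hd
  have ox : orderOf x = p := ((Nat.dvd_prime hp.1).1 (hx ▸ orderOf_dvd_natCard _
    (mem_centralizer_singleton_iff.2 rfl))).resolve_left (mt orderOf_eq_one_iff.1 x1)
  obtain ⟨P, hP, hc⟩ := sylow_of_cen ox (eq_of_le_of_card_ge (zpowers_le.2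
    (mem_centralizer_singleton_iff.2 rfl)) (by rw [hx, Nat.card_zpowers, ox])).symm
  have e6 := relIndex_centralizer_normalizer_dvd_of_prime (P : Subgroup G) hp.1 hP
  haveI := Fintype.ofFinite G
  have c1 := card_eq_syl (P := P) rfl
  have c2 := (P : Subgroup G).card_mul_index
  rw [show centralizer ((P : Subgroup G) : Set G) = P from hc] at e6
  rw [hc] at c1
  rw [c1, show Nat.card (P : Subgroup G) = p from hP] at c2
  exact ⟨P, hP, hc, e6, c2.symm⟩

variable {G : Type*} [Group G] [Finite G]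

theorem dvd_of_syl_ne {p : ℕ} [Fact p.Prime] (h : Nat.card (Sylow p G) ≠ 1) : p ∣ Nat.card G :=
  by_contra fun c => by
    have k := sylow_le_of_normal_of_not_dvd_index (⊥ : Subgroup G) (p := p) (by rwa [index_bot])
    haveI : Subsingleton (Sylow p G) := ⟨fun a b => Sylow.ext
      ((eq_bot_iff.2 (k a)).trans (eq_bot_iff.2 (k b)).symm)⟩
    exact h (Nat.card_of_subsingleton default)

theorem le_syl_of_nrm {p : ℕ} [Fact p.Prime] {V : Subgroup G} (hV : IsPGroup p V) (Q : Sylow p G)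
    (h : V ≤ nrm (Q : Subgroup G)) : V ≤ Q :=
  inf_eq_left.1 ((hV.inf_normalizer_sylow Q).symm.trans (inf_eq_left.2 h))

theorem eq_bot_of_nrm_syl (hZ : center G = ⊥) {K : Subgroup G}
    (h : ∀ (q : ℕ) [Fact q.Prime] (Q : Sylow q G), q ∣ Nat.card G → K ≤ nrm (Q : Subgroup G))
    [hK : K.Normal] : K = ⊥ := by
  by_contra K1
  obtain ⟨r, hr, hd⟩ := Nat.exists_prime_and_dvd (mt card_eq_one.1 K1)
  haveI := Fact.mk hr
  obtain ⟨R⟩ : Nonempty (Sylow r G) := inferInstance
  have hG := hd.trans (card_subgroup_dvd_card K)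
  have p1 : IsPGroup r (K ⊓ R : Subgroup G) := R.isPGroup'.to_inf_right
  obtain ⟨x, hx⟩ := exists_prime_orderOf_dvd_card' r hd
  rw [← orderOf_coe] at hx
  have xR : zpowers (x : G) ≤ K ⊓ R := le_inf (zpowers_le.2 x.2) (le_syl_of_nrm
    (IsPGroup.of_card (n := 1) (by rw [Nat.card_zpowers, hx, pow_one])) R
    ((zpowers_le.2 x.2).trans (h r R hG)))
  have a := H1B.card_modEq_cen (V := K ⊓ R) R.isPGroup'
    (H1.le_normalizer_inf le_normalizer_of_normal le_normalizer)
  have b := card_dvd_of_le xR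
  rw [Nat.card_zpowers, hx] at b
  have c : (K ⊓ R) ⊓ centralizer ((R : Subgroup G) : Set G) ≠ ⊥ := fun e => by
    rw [e] at a
    exact hr.not_dvd_one (Nat.modEq_zero_iff_dvd.1
      ((by simpa using a.symm : 1 ≡ _ [MOD r]).trans (Nat.modEq_zero_iff_dvd.2 b)))
  obtain ⟨⟨z, hz, hz'⟩, z1⟩ := ne_bot_iff_exists_ne_one.1 c
  refine z1 (Subtype.ext (hZ.le (mem_center_iff.2 fun y => ?_)))
  refine mem_centralizer_singleton_iff.1 (H7.le_of_sylows_le (H := ⊤) (fun q hq hd => ?_)
    (mem_top y))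
  haveI := Fact.mk hq
  by_cases e : q = r
  · subst e
    exact ⟨R, H2.sylow_isSylowIn_top R, fun y hy => mem_centralizer_singleton_iff.2 (hz' y hy)⟩
  obtain ⟨Q⟩ : Nonempty (Sylow q G) := inferInstance
  refine ⟨Q, H2.sylow_isSylowIn_top Q, fun y hy => mem_centralizer_singleton_iff.2 ?_⟩
  have h1 := le_syl_of_nrm p1 (y⁻¹ • R) (inf_le_left.trans (h r _ hG)) hz
  have h2 : y * z⁻¹ * y⁻¹ ∈ (R : Subgroup G) := by
    rw [← conj_inv, inv_mem_iff]
    simpa [Sylow.coe_subgroup_smul, mem_pointwise_smul_iff_inv_smul_mem] using h1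
  have h3 := (IsPGroup.disjoint_of_ne q r e _ _ Q.isPGroup' R.isPGroup').le_bot
    (show z * y * z⁻¹ * y⁻¹ ∈ (Q : Subgroup G) ⊓ R from
      mem_inf.2 ⟨mul_mem ((mem_normalizer_iff.1 (h q Q (card_top (G := G) ▸ hd) hz.1) y).1 hy)
        (inv_mem hy), by simpa only [mul_assoc] using mul_mem (mem_inf.1 hz).2 h2⟩)
  rw [mem_bot, mul_inv_eq_one, mul_inv_eq_iff_eq_mul] at h3
  exact h3.symm

theorem syl_map {H : Type*} [Group H] {f : G →* H} (hf : Function.Surjective f) {q : ℕ}
    [Fact q.Prime] (Q : Sylow q G) : Nat.card (Sylow q H) ∣ Nat.card (Sylow q G) ∧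
      (Nat.card (Sylow q H) = Nat.card (Sylow q G) → f.ker ≤ nrm (Q : Subgroup G)) := by
  haveI := Finite.of_surjective f hf
  have a : nrm (Q : Subgroup G) ≤ (nrm (Q.mapSurjective hf : Subgroup H)).comap f :=
    map_le_iff_le_comap.1 (le_normalizer_map f)
  rw [(Q.mapSurjective hf).card_eq_index_normalizer, Q.card_eq_index_normalizer,
    ← index_comap_of_surjective _ hf]
  refine ⟨index_dvd_of_le a, fun e => ?_⟩
  have b := relIndex_mul_index a
  exact (ker_le_comap f _).trans (relIndex_eq_one.1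
    ((mul_eq_right₀ index_ne_zero_of_finite).1 (b.trans e.symm)))

theorem not_syl_of_ker {p r : ℕ} [hp : Fact p.Prime] [hr : Fact r.Prime] {K : Subgroup G}
    [hK : K.Normal] (h : ∀ P : Sylow p G, K ≤ nrm (P : Subgroup G)) (h1 : ¬ r ∣ K.index)
    (h2 : p ∣ Nat.card (Sylow r G)) (h3 : ¬ p ^ 2 ∣ Nat.card (Sylow r G))
    (h4 : ¬ p ≡ 1 [MOD r]) : False := by
  obtain ⟨R⟩ : Nonempty (Sylow r G) := inferInstance
  obtain ⟨P⟩ : Nonempty (Sylow p G) := inferInstance
  have p1 : IsPGroup p (K ⊓ P : Subgroup G) := P.isPGroup'.to_inf_right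
  haveI : (K ⊓ P : Subgroup G).Normal := ⟨fun z hz y => mem_inf.2 ⟨hK.conj_mem _ hz.1 y, by
    simpa [Sylow.coe_subgroup_smul, mem_pointwise_smul_iff_inv_smul_mem] using
      le_syl_of_nrm p1 (y⁻¹ • P) (inf_le_left.trans (h _)) hz⟩⟩
  have a := relIndex_nrm_modEq R (J := nrm (R : Subgroup G) ⊔ K ⊓ P)
    (le_normalizer.trans le_sup_left)
  have b := relIndex_dvd_index_of_le (le_sup_left : nrm (R : Subgroup G) ≤ _ ⊔ K ⊓ P)
  rw [relIndex_sup_of_le le_rfl le_normalizer_of_normal] at a b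
  obtain ⟨k, hk⟩ := p1.exists_card_eq
  obtain ⟨j, -, hj⟩ := (Nat.dvd_prime_pow hp.1).1
    (hk ▸ relIndex_dvd_card (nrm (R : Subgroup G)) (K ⊓ P))
  rw [R.card_eq_index_normalizer] at h2 h3
  rw [hj] at a b
  have j0 : j = 0 := by
    rcases j with _ | _ | j
    · rfl
    · exact (h4 (by simpa using a)).elim
    · exact (h3 ((pow_dvd_pow p (by omega)).trans b)).elim
  rw [j0, pow_zero, relIndex_eq_one] at hj
  have c := R.normalizer_sup_eq_top' (sylow_le_of_normal_of_not_dvd_index K h1 R)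
  rw [← relIndex_top_right, ← c, relIndex_sup_of_le le_rfl le_normalizer_of_normal] at h2
  have d := h2.trans (relIndex_dvd_of_le_left K hj)
  rw [inf_comm, inf_relIndex_right, ← relIndex_sup_of_le le_rfl le_normalizer_of_normal] at d
  exact P.not_dvd_index (d.trans (relIndex_dvd_index_of_le le_sup_left))

theorem exists_nine : ∃ y : Matrix.ProjectiveSpecialLinearGroup (Fin 2) (ZMod 17),
    orderOf y = 3 ^ 2 := by
  let x : SL(2, ZMod 17) := ⟨!![0, 1; -1, 3], by decide +kernel⟩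
  let z : SL(2, ZMod 17) := ⟨!![1, 1; 0, 1], by decide +kernel⟩
  refine ⟨(x :), orderOf_eq_prime_pow (n := 1) (fun e => ?_) ?_⟩
  · rw [← QuotientGroup.mk_pow, QuotientGroup.eq_one_iff] at e
    exact absurd (mem_center_iff.1 e z) (by decide +kernel)
  · rw [← QuotientGroup.mk_pow, QuotientGroup.eq_one_iff, mem_center_iff]
    intro g
    have : x ^ 3 ^ (1 + 1) = -1 ∨ x ^ 3 ^ (1 + 1) = 1 := by decide +kernel
    rcases this with e | e <;> rw [e] <;> simp

namespace Zs
variable {Ω : Type*} [MulAction G Ω] (h : Zs G Ω) {a b : Ω} (hab : a ≠ b)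
include h hab

theorem nrm_nrm (hev : Even (Nat.card (S2 G a b))) (h2 : 2 < Nat.card (S2 G a b)) :
    nrm (nrm (S2 G a b)) = nrm (S2 G a b) := by
  have hne : S2 G a b ≠ ⊥ := by rw [← one_lt_card_iff_ne_bot]; omega
  refine le_antisymm (fun g hg => ?_) le_normalizer
  obtain ⟨j, hj, j2, j1⟩ := exists_invol_of_even hev
  obtain ⟨x, hx, x2⟩ : ∃ x ∈ S2 G a b, x * x ≠ 1 := by
    by_contra! c
    have : ((S2 G a b : Subgroup G) : Set G) ⊆ {1, j} := fun x hx => or_iff_not_imp_left.2 fun e =>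
      h.invol_unique hab hx (c x hx) e hj j2 j1
    exact h2.not_ge ((Set.ncard_le_ncard this).trans (Set.ncard_pair j1.symm).le)
  have k : g * (x * x) * g⁻¹ ∈ S2 G a b := by
    rw [← conj_mul]
    exact ((h.mem_normalizer_S2 hab hne).1 ((mem_normalizer_iff.1 hg x).1 (le_normalizer hx))).elim
      (fun e => mul_mem e e) fun e => e.mul e
  exact (h.mem_normalizer_S2 hab hne).2 (h.pres_of_conj_mem hab (mul_mem hx hx) x2 k)

omit hab in
theorem cen_inf_stab {y : G} (h1 : ∀ c : Ω, y • c ≠ c) (h2 : ∀ c : Ω, (y * y) • c ≠ c) :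
    stabilizer G a ⊓ cen (zpowers y) = ⊥ := by
  refine eq_bot_iff.2 fun c hc => by_contra fun c1 => ?_
  have e : y * c * y⁻¹ = c := by rw [hc.2 y (mem_zpowers y), mul_inv_cancel_right]
  by_cases k : c ∈ h.ker a
  · exact h1 a (h.fix_of_conj_mem_ker k c1 (e.symm ▸ k))
  obtain ⟨-, b, hab, hb⟩ := h.exists_S2_of_not_mem hc.1 k
  rcases h.pres_of_conj_mem hab hb c1 (e.symm ▸ hb) with e | e
  · exact h1 a e.1
  · exact h2 a (by rw [mul_smul, e.1, e.2])

theorem iso17 [Fact (Nat.Prime 17)] (hk : Nat.card (h.ker a) = 17)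
    (hev : Even (Nat.card (S2 G a b))) (K : Type*) [Field K] [Finite K] (hK : Nat.card K = 17) :
    Nat.card (S2 G a b) = 8 ∧ Nonempty (G ≃* Matrix.ProjectiveSpecialLinearGroup (Fin 2) K) ∨
      Nat.card (S2 G a b) = 16 ∧ Nonempty (G ≃* PGL(2, K)) := by
  haveI := h.ker_comm_of_even hab hev
  haveI := Fintype.ofFinite K
  haveI : CharP K 17 := charP_of_card_eq_prime (by rw [← hK, Nat.card_eq_fintype_card])
  letI := ZMod.algebra K 17
  refine (h.eq_or_two_mul_le hab).symm.imp (fun e => ?_) fun e => ⟨by omega,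
    h.pgl_of_odd hab e (p := 17) (by norm_num) odd_one hk K (hK.trans hk.symm)⟩
  obtain ⟨e1, e2, -⟩ := h.psl_of_even hab hev e
  exact ⟨by omega, (h.pgl_or_psl hab e1 K (hK.trans hk.symm)).2 e2⟩

end Zs

theorem zs_18 {G : Type u} [Group G] [Finite G] {Ω : Type*} [MulAction G Ω] (h : Zs G Ω)
    (hΩ : Nat.card Ω = 18) [Fact (Nat.Prime 17)] (h17 : Nat.card (Sylow 17 G) ≠ 1)
    (h3 : Nat.card (Sylow 3 G) ∣ 136) (F : Type*) [Field F] [Finite F] (hF : Nat.card F = 17) :
    Nat.card G ∣ 4896 ∧ Nat.card (Sylow 2 G) = 153 ∧ Nat.card (Sylow 3 G) = 136 ∧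
      (Nonempty (G ≃* Matrix.ProjectiveSpecialLinearGroup (Fin 2) F) ∨ Nonempty (G ≃* PGL(2, F))) := by
  haveI := h.finΩ
  haveI := h.isPretransitive
  haveI : Nontrivial Ω := Finite.one_lt_card_iff_nontrivial.1 (by omega)
  obtain ⟨a, b, hab⟩ := exists_pair_ne Ω
  have hk : ∀ a, Nat.card (h.ker a) = 17 := fun a => by have := h.card_ker a; omega
  have cG := h.card_G hab
  have d16 := h.card_S2_dvd hab
  rw [hk] at cG d16
  have hev : Even (Nat.card (S2 G a b)) := by
    refine Nat.not_odd_iff_even.1 fun o => ?_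
    rw [(Nat.coprime_two_right.2 o |>.pow_right 4).eq_one_of_dvd d16] at cG
    obtain e | ⟨S, _, _, _, s1, s2, s3, -⟩ := syl_red (p := 17) (m := 18) (L := [2, 3]) (by simp; norm_num)
      (by norm_num) (by decide +kernel) G (by rw [cG])
    · exact h17 e
    have := DC.small_orders s1 ((Nat.le_of_dvd Nat.card_pos s3).trans (by rw [cG]; norm_num))
    rw [cG] at s3
    generalize Nat.card S = n at *
    simp only [List.mem_cons, List.not_mem_nil, or_false] at this
    rcases this with rfl | rfl | rfl | rfl | rfl | rfl <;> norm_num at s3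
  have iso := h.iso17 hab (hk a) hev F hF
  have hd : Nat.card (S2 G a b) = 8 ∨ Nat.card (S2 G a b) = 16 := iso.imp And.left And.left
  have hne : S2 G a b ≠ ⊥ := by rw [← one_lt_card_iff_ne_bot]; omega
  refine ⟨by rcases hd with e | e <;> rw [cG, e] <;> norm_num, ?_, ?_, iso.imp And.right And.right⟩
  · have c := h.card_normalizer hab hne
    have i := (nrm (S2 G a b)).card_mul_index
    have i' : (nrm (S2 G a b)).index = 153 := by
      rw [c, cG] at i
      rcases hd with e | e <;> rw [e] at i <;> omega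
    have p2 : IsPGroup 2 (nrm (S2 G a b)) := hd.elim (fun e => .of_card (n := 4) (by rw [c, e]; rfl))
      fun e => .of_card (n := 5) (by rw [c, e]; rfl)
    rw [(p2.toSylow (by rw [i']; norm_num)).card_eq_index_normalizer]
    exact (congrArg index (h.nrm_nrm hab hev (by omega))).trans i'
  obtain ⟨y, hy⟩ : ∃ y : G, orderOf y = 3 ^ 2 := by
    obtain ⟨y, hy⟩ := exists_nine
    rcases h.iso17 hab (hk a) hev (ZMod 17) (by simp) with ⟨-, ⟨e⟩⟩ | ⟨-, ⟨e⟩⟩
    · exact ⟨e.symm y, (e.symm.orderOf_eq y).trans hy⟩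
    · exact ⟨e.symm (Matrix.ProjectiveSpecialLinearGroup.toPGL y), (e.symm.orderOf_eq _).trans
        ((orderOf_injective _ Matrix.ProjectiveSpecialLinearGroup.toPGL_injective y).trans hy)⟩
  have st : ∀ c : Ω, (stabilizer G c).index = 18 := fun c => (index_stabilizer_of_transitive G c).trans hΩ
  have fp : ∀ x : G, orderOf x = 3 ^ 2 → ∀ c : Ω, x • c ≠ c := fun x hx c e => by
    have i := (stabilizer G c).card_mul_index
    have j := Subgroup.orderOf_dvd_natCard _ (mem_stabilizer_iff.2 e)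
    rw [st, cG] at i
    rw [hx] at j
    omega
  have k := h.cen_inf_stab (a := a) (fp y hy) (fp _ (by
    rw [← pow_two, Nat.Coprime.orderOf_pow (by rw [hy]; norm_num), hy]))
  have cy := (Nat.card_zpowers y).trans hy
  have i := (zpowers y).card_mul_index
  have n3 : ¬ 3 ∣ (zpowers y).index := by rw [cy, cG] at i; omega
  have c1 := H7.card_le_relIndex_mul (stabilizer G a) (cen (zpowers y))
  have c2 := relIndex_le_of_le_right (H := stabilizer G a) (le_top (a := cen (zpowers y)))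
    index_ne_zero_of_finite
  have c3 := card_dvd_of_le (show zpowers y ≤ cen (zpowers y) from le_centralizer _)
  have c4 := relIndex_centralizer_normalizer_dvd (zpowers y)
  have c5 := H7.card_le_relIndex_mul (cen (zpowers y)) (nrm (zpowers y))
  have c6 := (nrm (zpowers y)).card_mul_index
  have c7 := card_sylow_modEq_one 3 G
  have c8 := ((IsPGroup.of_card cy).toSylow n3).card_eq_index_normalizer
  rw [IsCyclic.card_mulAut, cy] at c4
  rw [k, card_bot, mul_one] at c1
  rw [relIndex_top_right, st, ← c1] at c2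
  rw [inf_eq_left.2 (centralizer_le_normalizer _)] at c5
  rw [cy] at c3
  rw [c5, cG, show (nrm (zpowers y)).index = _ from c8.symm] at c6
  have c0 : 0 < Nat.card (cen (zpowers y)) := Nat.card_pos
  have key : ∀ n ∈ Nat.divisors 136, ∀ e ∈ Nat.divisors 6, ∀ c ∈ [9, 18], ∀ d ∈ [8, 16],
      n % 3 = 1 → e * c * n = (17 + 1) * 17 * d → n = 136 := by decide +kernel
  exact key _ (Nat.mem_divisors.2 ⟨h3, by norm_num⟩) _ (Nat.mem_divisors.2 ⟨c4, by norm_num⟩) _
    (by
      rw [List.mem_cons, List.mem_singleton]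
      exact (by omega : Nat.card (cen (zpowers y)) = 9 ∨ Nat.card (cen (zpowers y)) = 18)) _ (by simpa using hd) c7 c6

end H8
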