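import Mathlib
import Cfsg.Agent.H8.PrimRt
import Cfsg.Agent.H7.PG4
import Cfsg.Agent.H1.Misc
import Cfsg.Agent.H3.Integral

/-! Groups whose automorphism group has three orbits. -/

set_option autoImplicit false

namespace H8
open Subgroup H7
open scoped commutatorElement

variable {G : Type*} [Group G] [Finite G] {V : Subgroup G} {p q : ℕ} {x y : G}

theorem decomp_prime_index [V.Normal] (hq : V.index.Prime) (hx : x ∉ V) (g : G) :
    ∃ d ∈ V, ∃ k : ℕ, g = d * x ^ k := by
  have h := H1.sup_zpowers_eq_of_relIndex_prime (N := V) (K := ⊤) (by rwa [relIndex_top_right])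
    le_top (mem_top x) hx
  have : g ∈ ((V ⊔ zpowers x : Subgroup G) : Set G) := h ▸ mem_top g
  rw [normal_mul] at this
  obtain ⟨d, hd, z, hz, rfl⟩ := this
  obtain ⟨k, rfl⟩ := mem_powers_iff_mem_zpowers.2 hz
  exact ⟨d, hd, k, rfl⟩

theorem exists_aut_ext [V.Normal] (hq : V.index.Prime) (hx : x ∉ V) (hy : y ∉ V)
    (ox : orderOf x = V.index) (oy : orderOf y = V.index) (β : MulAut V)
    (hβ : ∀ u, β (MulAut.conjNormal x u) = MulAut.conjNormal y (β u)) :
    ∃ α : MulAut G, α x = y ∧ ∀ v : V, α v = β v := by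
  have hc : V.IsComplement' (zpowers x) := by
    refine isComplement'_of_card_mul_and_disjoint (by rw [Nat.card_zpowers, ox, card_mul_index]) ?_
    haveI := Fact.mk hq
    haveI : Fact (Nat.card (zpowers x)).Prime := ⟨by rwa [Nat.card_zpowers, ox]⟩
    rcases (V.subgroupOf (zpowers x)).eq_bot_or_eq_top_of_prime_card with h | h
    · exact (subgroupOf_eq_bot.1 h)
    · exact absurd (subgroupOf_eq_top.1 h (mem_zpowers x)) hx
  have hg : ∀ z : zpowers x, z ∈ zpowers (⟨x, mem_zpowers x⟩ : zpowers x) := by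
    rintro ⟨_, k, rfl⟩; exact ⟨k, rfl⟩
  let ψ := monoidHomOfForallMemZpowers hg (g' := y) (by rw [orderOf_mk, ox, oy])
  have hψ : ψ ⟨x, mem_zpowers x⟩ = y := monoidHomOfForallMemZpowers_apply_gen _ _
  have hβ' : β * MulAut.conjNormal x * β⁻¹ = MulAut.conjNormal y := by
    rw [mul_inv_eq_iff_eq_mul]; exact MulEquiv.ext hβ
  let F := (SemidirectProduct.lift (φ := V.normalizerMonoidHom.comp
    (inclusion (V.normalizer_eq_top ▸ le_top))) (V.subtype.comp β.toMonoidHom) ψ fun g => by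
      obtain ⟨k, rfl⟩ := hg g
      ext u
      have : β * MulAut.conjNormal (x ^ k) * β⁻¹ = MulAut.conjNormal (y ^ k) := by
        rw [map_zpow, map_zpow, ← hβ', conj_zpow]
      rw [mul_inv_eq_iff_eq_mul] at this
      have := congrArg Subtype.val (DFunLike.congr_fun this u)
      simp only [map_zpow ψ, hψ]
      exact this).comp (SemidirectProduct.mulEquivSubgroup hc).symm.toMonoidHom
  have h1 : ∀ v : V, F v = β v := fun v => by
    have : (SemidirectProduct.mulEquivSubgroup hc).symm v = SemidirectProduct.inl v := by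
      rw [MulEquiv.symm_apply_eq]; simp
    simp [F, this]
  have h2 : F x = y := by
    have : (SemidirectProduct.mulEquivSubgroup hc).symm x =
        SemidirectProduct.inr ⟨x, mem_zpowers x⟩ := by
      rw [MulEquiv.symm_apply_eq]; simp
    simp [F, this, hψ]
  have hs : Function.Surjective F := fun g => by
    obtain ⟨d, hd, k, rfl⟩ := decomp_prime_index hq hy g
    exact ⟨(β.symm ⟨d, hd⟩ : V) * x ^ k, by rw [map_mul, map_pow, h1, h2, β.apply_symm_apply]⟩
  exact ⟨MulEquiv.ofBijective F ⟨Finite.injective_iff_surjective.2 hs, hs⟩, h2, h1⟩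

omit [Finite G] in
theorem order_pq {u : G} (hp : p.Prime) (hq : q.Prime) (hne : p ≠ q) (ou : orderOf u = p)
    (oy : orderOf y = q) (h : y * u * y⁻¹ = u) : orderOf (u * y) = p * q := by
  have : Commute u y := by
    rw [mul_inv_eq_iff_eq_mul] at h; exact h.symm
  rw [this.orderOf_mul_eq_mul_orderOf_of_coprime (by
    rw [ou, oy]; exact (Nat.coprime_primes hp hq).2 hne), ou, oy]

theorem orb3_bwd [hp : Fact p.Prime] [hq : Fact q.Prime] (hne : p ≠ q) [V.Normal] (eV : EA p V)
    (hV : V ≠ ⊥) (hi : V.index = q) (ho : orderOf (p : ZMod q) = q - 1)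
    (hf : ∀ x y : G, orderOf x = q → orderOf y = p → x * y * x⁻¹ ≠ y) :
    Nat.card (MulAction.orbitRel.Quotient (MulAut G) G) = 3 := by
  letI : CommGroup V := (haveI := eV.comm; open scoped IsMulCommutative in inferInstance)
  have hc := (Nat.coprime_primes hp.out hq.out).2 hne
  have h1 : ∀ g, g ∉ V → orderOf g = q := fun g hg => by
    have h2 : g ^ q ∈ V := hi ▸ V.pow_index_mem g
    refine orderOf_eq_prime ?_ fun e => hg (e ▸ one_mem _)
    by_contra h3
    refine hf (g ^ p) (g ^ q) (orderOf_eq_prime (by rw [← pow_mul, mul_comm, pow_mul, eV.pow h2])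
      fun e => hg (mem_of_pow_mem' h2 (hc.symm.coprime_dvd_right (orderOf_dvd_of_pow_eq_one e))))
      (eV.orderOf h2 h3) (by group)
  have h2 : ∀ g, g ∉ V → (MulAut.conjNormal g : MulAut V) ^ q = 1 ∧
      ∀ v : V, MulAut.conjNormal g v = v → v = 1 := fun g hg =>
    ⟨by rw [← map_pow, ← h1 g hg, pow_orderOf_eq_one, map_one], fun v h => by
      by_contra e
      exact hf g v (h1 g hg) (eV.orderOf v.2 fun e' => e (Subtype.ext e')) (congrArg Subtype.val h)⟩
  have h3 : ∀ x y, x ∉ V → y ∉ V → ∀ v w : V, v ≠ 1 → w ≠ 1 → ∃ α : MulAut G, α x = y ∧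
      α v = w := fun x y hx hy v w hv hw => by
    obtain ⟨β, b1, b2⟩ := exists_intertw_aut (fun v : V => Subtype.ext (eV.pow v.2)) hne ho
      (h2 x hx).1 (h2 y hy).1 (h2 x hx).2 (h2 y hy).2 hv hw
    obtain ⟨α, a1, a2⟩ := exists_aut_ext (hi ▸ hq.out) hx hy (hi ▸ h1 x hx) (hi ▸ h1 y hy) β b1
    exact ⟨α, a1, by rw [a2, b2]⟩
  obtain ⟨v, hv, hv1⟩ := exists_ne_one hV
  obtain ⟨x, hx⟩ : ∃ x, x ∉ V := by
    by_contra e; push Not at e
    exact hq.out.one_lt.ne' (hi ▸ index_eq_one.2 (eq_top_iff.2 fun g _ => e g))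
  have hv1' : (⟨v, hv⟩ : V) ≠ 1 := fun e => hv1 (congrArg Subtype.val e)
  have key : ∀ a b : G, (Quotient.mk (MulAction.orbitRel (MulAut G) G) a = Quotient.mk _ b) →
      orderOf a = orderOf b := fun a b h => by
    obtain ⟨α, rfl⟩ := Quotient.exact h
    exact α.orderOf_eq b
  rw [← Set.ncard_univ, Set.ncard_eq_three]
  refine ⟨Quotient.mk _ 1, Quotient.mk _ v, Quotient.mk _ x, fun e => ?_, fun e => ?_, fun e => ?_,
    (Set.eq_univ_of_forall fun c => ?_).symm⟩
  · have := key _ _ e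
    rw [orderOf_one, eV.orderOf hv hv1] at this; exact hp.out.one_lt.ne this
  · have := key _ _ e
    rw [orderOf_one, h1 x hx] at this; exact hq.out.one_lt.ne this
  · have := key _ _ e
    rw [eV.orderOf hv hv1, h1 x hx] at this; exact hne this
  obtain ⟨g, rfl⟩ := Quotient.exists_rep c
  by_cases hg : g ∈ V
  · by_cases hg1 : g = 1
    · exact Or.inl (by rw [hg1])
    obtain ⟨α, -, a⟩ := h3 x x hx hx ⟨v, hv⟩ ⟨g, hg⟩ hv1' fun e => hg1 (congrArg Subtype.val e)
    exact Or.inr (Or.inl (Quotient.sound ⟨α, a⟩))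
  obtain ⟨α, a, -⟩ := h3 x g hx hg _ _ hv1' hv1'
  exact Or.inr (Or.inr (Quotient.sound ⟨α, a⟩))

theorem orb3_fwd [hp : Fact p.Prime] [hq : Fact q.Prime] (hne : p ≠ q) (ox : orderOf x = q)
    (oy : orderOf y = p) (tri : ∀ g, g = 1 ∨ (∃ α : MulAut G, α y = g) ∨ ∃ α : MulAut G, α x = g)
    [hch : V.Characteristic] (cV : IsMulCommutative V) (hy : y ∈ V) :
    ∃ n, 1 ≤ n ∧ Nat.card G = p ^ n * q ∧
      (∀ P : Sylow p G, (P : Subgroup G).Normal ∧ Cfsg.IsElementaryAbelian p (P : Subgroup G)) ∧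
      orderOf (p : ZMod q) = q - 1 ∧
      ∀ x y : G, orderOf x = q → orderOf y = p → x * y * x⁻¹ ≠ y := by
  letI : CommGroup V := open scoped IsMulCommutative in inferInstance
  have hc := (Nat.coprime_primes hp.out hq.out).2 hne
  have ch : ∀ (α : MulAut G) g, g ∈ V → α g ∈ V := fun α g hg =>
    characteristic_iff_le_comap.1 hch α hg
  have o3 : ∀ g : G, orderOf g = 1 ∨ orderOf g = p ∨ orderOf g = q := fun g => by
    rcases tri g with rfl | ⟨α, rfl⟩ | ⟨α, rfl⟩
    · exact Or.inl orderOf_one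
    · exact Or.inr (Or.inl (by rw [α.orderOf_eq, oy]))
    · exact Or.inr (Or.inr (by rw [α.orderOf_eq, ox]))
  have hf : ∀ x y : G, orderOf x = q → orderOf y = p → x * y * x⁻¹ ≠ y := fun x y a b e => by
    have := order_pq hp.out hq.out hne b a e
    have h1 := hp.out.two_le
    have h2 := hq.out.two_le
    rcases o3 (y * x) with h | h | h <;> rw [this] at h <;> nlinarith
  have hV : ∀ g, g ∈ V ↔ g ^ p = 1 := fun g => by
    constructor
    · intro hg
      rcases o3 g with h | h | h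
      · rw [orderOf_eq_one_iff.1 h, one_pow]
      · rw [← h, pow_orderOf_eq_one]
      · exact absurd (by rw [mul_inv_eq_iff_eq_mul]; exact setLike_mul_comm hg hy)
          (hf g y h oy)
    · intro hg
      rcases tri g with rfl | ⟨α, rfl⟩ | ⟨α, rfl⟩
      · exact one_mem _
      · exact ch α y hy
      · have := orderOf_dvd_of_pow_eq_one hg
        rw [α.orderOf_eq, ox] at this
        exact absurd ((Nat.prime_dvd_prime_iff_eq hq.out hp.out).1 this).symm hne
  have eV : EA p V := ⟨cV, fun a ha => (hV a).1 ha⟩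
  have hS : ∀ P : Sylow p G, (P : Subgroup G) = V := fun P => by
    refine (P.is_maximal' eV.isPGroup fun g hg => (hV g).2 ?_).symm
    obtain ⟨k, hk⟩ := P.isPGroup' ⟨g, hg⟩
    have hk' : orderOf g ∣ p ^ k := orderOf_dvd_of_pow_eq_one (congrArg Subtype.val hk)
    rcases o3 g with h | h | h
    · rw [orderOf_eq_one_iff.1 h, one_pow]
    · rw [← h, pow_orderOf_eq_one]
    · rw [h] at hk'
      exact absurd ((Nat.prime_dvd_prime_iff_eq hq.out hp.out).1 (hq.out.dvd_of_dvd_pow hk')).symm hne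
  have hy1 : y ≠ 1 := fun e => hp.out.one_lt.ne (by rw [← oy, e, orderOf_one])
  have hx : x ∉ V := fun h => hne ((Nat.prime_dvd_prime_iff_eq hq.out hp.out).1
    (ox ▸ orderOf_dvd_of_pow_eq_one ((hV x).1 h))).symm
  obtain ⟨n, hn⟩ := card_pgroup eV.isPGroup
  have hi : V.index = q := by
    have h1 : V.index = q ^ _ := Nat.eq_prime_pow_of_unique_prime_dvd index_ne_zero_of_finite
      fun {d} hd hdv => by
        haveI := Fact.mk hd
        obtain ⟨g, hg⟩ := exists_prime_orderOf_dvd_card' d (hdv.trans V.index_dvd_card)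
        rcases o3 g with h | h | h <;> rw [hg] at h
        · exact absurd h hd.one_lt.ne'
        · exact absurd (h ▸ hS default ▸ hdv) (Sylow.not_dvd_index default)
        · exact h
    generalize V.index.primeFactorsList.length = k at h1
    match k, h1 with
    | 0, h1 => exact absurd (index_eq_one.1 h1 ▸ mem_top x) hx
    | 1, h1 => rw [h1, pow_one]
    | k + 2, h1 =>
      obtain ⟨E, hE⟩ := Sylow.exists_subgroup_card_pow_prime q (n := 2)
        ((pow_dvd_pow q (by omega)).trans (h1 ▸ V.index_dvd_card))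
      have pE : IsPGroup q E := IsPGroup.of_card hE
      have oE : ∀ a ∈ E, a ≠ 1 → orderOf a = q := fun a ha h1 => by
        have := orderOf_dvd_card' ha
        rw [hE] at this
        rcases o3 a with h | h | h
        · exact absurd (orderOf_eq_one_iff.1 h) h1
        · rw [h] at this
          exact absurd ((Nat.prime_dvd_prime_iff_eq hp.out hq.out).1
            (hp.out.dvd_of_dvd_pow this)) hne
        · exact h
      have eE : EA q E := ⟨isComm_of_card_le_sq pE hE.le, fun a ha => by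
        by_cases h1 : a = 1
        · rw [h1, one_pow]
        · rw [← oE a ha h1, pow_orderOf_eq_one]⟩
      refine absurd (mem_bot.1 ((eE.cop (K := V) (by
        rw [hn]; exact fun h => hne ((Nat.prime_dvd_prime_iff_eq hq.out hp.out).1
          (hq.out.dvd_of_dvd_pow h)).symm) (V.normalizer_eq_top ▸ le_top)).le_of_hyper eE
        (ne_bot_of_pow_le (n := 1) hE.ge) (L := ⊥) (fun B a b v hv => ?_) hy)) hy1
      obtain ⟨c, hc, hc1⟩ := exists_ne_one (hyper_ne_bot hE.ge a b)
      by_contra e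
      exact hf c v (oE c (a hc) hc1) (eV.orderOf hv.1 e)
        (by rw [mul_inv_eq_iff_eq_mul]; exact mem_cen.1 hv.2 c hc)
  have res : ∀ α : MulAut G, ∃ β : MulAut V, ∀ v : V, (β v : G) = α v := fun α =>
    ⟨(α.subgroupMap V).trans (MulEquiv.subgroupCongr (characteristic_iff_map_eq.1 hch α)),
      fun _ => rfl⟩
  have hcj : ∀ (α : MulAut G) (β : MulAut V), (∀ v : V, (β v : G) = α v) → ∀ d ∈ V, ∀ k : ℕ,
      α x = d * x ^ k → ∀ m, β (MulAut.conjNormal x m) = (MulAut.conjNormal x ^ k) (β m) := by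
    intro α β h d hd k e m
    rw [← map_pow]
    refine Subtype.ext ?_
    rw [h, MulAut.conjNormal_apply, MulAut.conjNormal_apply, map_mul, map_mul, map_inv, e, h]
    have := eV.mul_comm hd (V.normal_of_characteristic.conj_mem _ (ch α m m.2) (x ^ k))
    rw [show d * x ^ k * α m * (d * x ^ k)⁻¹ = d * (x ^ k * α m * (x ^ k)⁻¹) * d⁻¹ by group, this]
    group
  refine ⟨n, ?_, by rw [← hn, ← hi, card_mul_index], fun P => hS P ▸ ⟨inferInstance, eV⟩, ?_, hf⟩
  · refine Nat.pos_of_ne_zero fun e => hy1 (mem_bot.1 (card_eq_one.1 (by rw [hn, e, pow_zero]) ▸ hy))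
  haveI : Nontrivial V := ⟨⟨⟨y, hy⟩, 1, fun e => hy1 (congrArg Subtype.val e)⟩⟩
  refine primroot_aut (fun v : V => Subtype.ext (eV.pow v.2)) hne (a := MulAut.conjNormal x)
    (by rw [← map_pow, ← ox, pow_orderOf_eq_one, map_one]) (fun v h => ?_) (fun v w hv hw => ?_)
    fun k h0 hk => ?_
  · by_contra e
    exact hf x v ox (eV.orderOf v.2 fun e' => e (Subtype.ext e')) (congrArg Subtype.val h)
  · have key : ∀ v : V, v ≠ 1 → ∃ α : MulAut G, α y = v := fun v hv => by
      rcases tri v with h | h | ⟨α, h⟩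
      · exact absurd (Subtype.ext h) hv
      · exact h
      · exact absurd (α.symm_apply_apply x ▸ ch α.symm _ (h ▸ v.2)) hx
    obtain ⟨α₁, h1⟩ := key v hv
    obtain ⟨α₂, h2⟩ := key w hw
    obtain ⟨β, hβ⟩ := res (α₂ * α₁⁻¹)
    obtain ⟨d, hd, k, e⟩ := decomp_prime_index (hi ▸ hq.out) hx ((α₂ * α₁⁻¹) x)
    exact ⟨β, k, Subtype.ext (by rw [hβ, ← h1, ← h2]; simp), hcj _ β hβ d hd k e⟩
  · have ok : orderOf (x ^ k) = q := by
      rw [← ox]; exact Nat.Coprime.orderOf_pow (ox ▸ (Nat.coprime_of_lt_prime h0.ne' hk hq.out))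
    rcases tri (x ^ k) with h | ⟨α, h⟩ | ⟨α, h⟩
    · rw [h, orderOf_one] at ok; exact absurd ok hq.out.one_lt.ne
    · rw [← h, α.orderOf_eq, oy] at ok; exact absurd ok hne
    obtain ⟨β, hβ⟩ := res α
    exact ⟨β, hcj α β hβ 1 (one_mem _) k (by rw [h, one_mul])⟩

end H8
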